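import Cfsg.Agent.Lib.helper11d.Fld5

/-! The centralizer of a highest root element `x_r(1)` in a Chevalley group. -/

set_option autoImplicit false

namespace Cfsg.Agent.Lib.helper11

open Cfsg Cfsg.Lie Cfsg.Agent.Lib.helper2
open scoped Pointwise

/-- table facts about a dominant root `r` and the negative fundamental roots `J`
commuting with it; `m` is a number vanishing in the field -/
structure CenCert (D : ChevalleyDatum) (r m : ℕ) (J : List ℕ) (i₀ q : ℕ) (C : ℤ) : Prop where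
  hpos : D.IsPosRoot r
  hcp : ∀ s < D.nroots, D.IsPosRoot s → s ≠ r → ∀ c ∈ D.commTerms r s, c.2.1 % (m : ℤ) = 0
  hJ : ∀ s ∈ J, s < D.nroots ∧ s ≠ r ∧ s ≠ D.neg r ∧
    ∀ c ∈ D.commTerms r s, c.2.1 % (m : ℤ) = 0
  hi₀ : i₀ < D.rank
  hsimple : ∀ i < D.rank, i ≠ i₀ → D.neg (D.simple i) ∈ J
  hcart1 : D.cartan i₀ (r) = 1
  hcart0 : ∀ i < D.rank, i ≠ i₀ → D.cartan i (r) = 0
  hnc : D.commTerms (r) (D.neg (D.simple i₀)) = [(q, C, 1, 1)]
  hC : C = 1 ∨ C = -1
  hq : q < D.nroots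
  hne : D.neg (D.simple i₀) ≠ r ∧ D.neg (D.simple i₀) ≠ D.neg (r)

variable {F : Type*} [Field F]

/-- the candidate centralizer -/
def cenC (F : Type*) [Field F] (D : ChevalleyDatum) (J : List ℕ) : Subgroup (GL D.Idx F) :=
  D.posUnipotent F ⊔ Subgroup.closure {g : GL D.Idx F | ∃ s ∈ J, ∃ c : F,
    (g : Matrix D.Idx D.Idx F) = D.x F s c}

theorem cen_wordMat_zero (D : ChevalleyDatum) (w : List (ℕ × F)) (h : ∀ p ∈ w, p.2 = 0) :
    D.wordMat F w = 1 := by
  unfold ChevalleyDatum.wordMat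
  induction w with
  | nil => rfl
  | cons p w ih =>
    rw [List.map_cons, List.prod_cons, ih (fun p' hp' => h p' (List.mem_cons_of_mem _ hp')),
      h p List.mem_cons_self, x_zero, mul_one]

theorem cen_comm_of_nil (D : ChevalleyDatum)
    (hD : D ∈ [chevG2, chevB2, chevD4, chevF4, chevE6, chevE7, chevE8]) (m : ℕ)
    (hm : (m : F) = 0) (r s : ℕ)
    (hr : r < D.nroots) (hs : s < D.nroots) (hrs : s ≠ r) (hneg : s ≠ D.neg r)
    (h : ∀ c ∈ D.commTerms r s, c.2.1 % (m : ℤ) = 0) (t u : F) :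
    xU D hD s u * xU D hD r t = xU D hD r t * xU D hD s u := by
  have h1 := commRel_of_mem F D hD r s hr hs hrs hneg t u
  apply Units.ext
  rw [Units.val_mul, Units.val_mul, xU_val, xU_val, h1, cen_wordMat_zero, mul_one]
  intro p hp
  unfold ChevalleyDatum.commWord at hp
  rw [List.mem_map] at hp
  obtain ⟨c, hc, rfl⟩ := hp
  obtain ⟨k, hk⟩ := Int.dvd_of_emod_eq_zero (h c hc)
  simp only
  rw [hk, Int.cast_mul, Int.cast_natCast, hm, zero_mul, zero_mul, zero_mul]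

theorem cen_pos_le (D : ChevalleyDatum)
    (hD : D ∈ [chevG2, chevB2, chevD4, chevF4, chevE6, chevE7, chevE8])
    {r m : ℕ} {J : List ℕ} {i₀ q : ℕ} {C : ℤ} (hm : (m : F) = 0)
    (cc : CenCert D r m J i₀ q C) (a : F) :
    D.posUnipotent F ≤ Subgroup.centralizer {xU D hD (r) a} := by
  have hnx := nxAll_of_mem D hD
  have htri := tri_of_mem D hD
  unfold ChevalleyDatum.posUnipotent
  rw [Subgroup.closure_le]
  rintro x ⟨s, c, hs, hx⟩
  rw [eq_xU D hD s c x hx, SetLike.mem_coe, Subgroup.mem_centralizer_iff]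
  intro y hy
  rw [Set.mem_singleton_iff] at hy
  subst hy
  by_cases hsr : s = r
  · subst hsr
    rw [xU_add D hD _ hs.1, xU_add D hD _ hs.1, add_comm]
  · have hneg : s ≠ D.neg (r) := by
      intro hcon
      rw [hcon] at hs
      exact not_pos_neg D htri _ hs (neg_of_pos D hD hnx htri _ cc.hpos)
    exact (cen_comm_of_nil D hD m hm _ s cc.hpos.1 hs.1 hsr hneg (cc.hcp s hs.1 hs hsr) a c).symm

theorem cen_pos_comm (D : ChevalleyDatum)
    (hD : D ∈ [chevG2, chevB2, chevD4, chevF4, chevE6, chevE7, chevE8])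
    {r m : ℕ} {J : List ℕ} {i₀ q : ℕ} {C : ℤ} (hm : (m : F) = 0)
    (cc : CenCert D r m J i₀ q C) (a : F) (u : GL D.Idx F)
    (hu : u ∈ D.posUnipotent F) :
    Commute u (xU D hD (r) a) :=
  ((Subgroup.mem_centralizer_iff.mp (cen_pos_le D hD hm cc a hu)) _ rfl).symm

theorem cenC_le (D : ChevalleyDatum)
    (hD : D ∈ [chevG2, chevB2, chevD4, chevF4, chevE6, chevE7, chevE8])
    {r m : ℕ} {J : List ℕ} {i₀ q : ℕ} {C : ℤ} (hm : (m : F) = 0)
    (cc : CenCert D r m J i₀ q C) (a : F) :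
    cenC F D J ≤ Subgroup.centralizer {xU D hD (r) a} := by
  unfold cenC
  apply sup_le (cen_pos_le D hD hm cc a)
  rw [Subgroup.closure_le]
  rintro x ⟨s, hs, c, hx⟩
  rw [eq_xU D hD s c x hx, SetLike.mem_coe, Subgroup.mem_centralizer_iff]
  intro y hy
  rw [Set.mem_singleton_iff] at hy
  subst hy
  obtain ⟨h1, h2, h3, h4⟩ := cc.hJ s hs
  exact (cen_comm_of_nil D hD m hm _ s cc.hpos.1 h1 h2 h3 h4 a c).symm

theorem cenC_comm (D : ChevalleyDatum)
    (hD : D ∈ [chevG2, chevB2, chevD4, chevF4, chevE6, chevE7, chevE8])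
    {r m : ℕ} {J : List ℕ} {i₀ q : ℕ} {C : ℤ} (hm : (m : F) = 0)
    (cc : CenCert D r m J i₀ q C) (a : F) (u : GL D.Idx F)
    (hu : u ∈ cenC F D J) :
    Commute u (xU D hD (r) a) :=
  ((Subgroup.mem_centralizer_iff.mp (cenC_le D hD hm cc a hu)) _ rfl).symm

theorem cen_noncomm (D : ChevalleyDatum)
    (hD : D ∈ [chevG2, chevB2, chevD4, chevF4, chevE6, chevE7, chevE8])
    {r m : ℕ} {J : List ℕ} {i₀ q : ℕ} {C : ℤ} (hm : (m : F) = 0)
    (cc : CenCert D r m J i₀ q C)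
    (h : xU D hD (D.neg (D.simple i₀)) (1 : F) * xU D hD (r) 1 =
      xU D hD (r) 1 * xU D hD (D.neg (D.simple i₀)) 1) : False := by
  have hnx := nxAll_of_mem D hD
  have hc := hcert_of_mem D hD
  have hs : D.neg (D.simple i₀) < D.nroots := neg_lt' D hD hnx _ (simple_lt D hc i₀ cc.hi₀)
  have h1 := commRel_of_mem F D hD (r) (D.neg (D.simple i₀)) cc.hpos.1 hs
    cc.hne.1 cc.hne.2 1 1
  have h2 : xU D hD (D.neg (D.simple i₀)) (1 : F) * xU D hD (r) 1 =
      xU D hD (r) 1 * xU D hD (D.neg (D.simple i₀)) 1 *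
        xU D hD q ((C : F) * (-1) ^ 1 * 1 ^ 1) := by
    apply Units.ext
    rw [Units.val_mul, Units.val_mul, Units.val_mul, xU_val, xU_val, xU_val, h1]
    unfold ChevalleyDatum.commWord
    rw [cc.hnc]
    simp [ChevalleyDatum.wordMat]
  rw [h] at h2
  have h3 : xU D hD q ((C : F) * (-1) ^ 1 * 1 ^ 1) = 1 := by
    have h4 : xU D hD (r) (1 : F) * xU D hD (D.neg (D.simple i₀)) 1 * 1 =
        xU D hD (r) 1 * xU D hD (D.neg (D.simple i₀)) 1 *
          xU D hD q ((C : F) * (-1) ^ 1 * 1 ^ 1) := by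
      rw [mul_one]
      exact h2
    exact (mul_left_cancel h4).symm
  have h5 := xU_eq_one D hD q cc.hq _ h3
  rcases cc.hC with rfl | rfl <;> simp at h5

theorem cen_nU_mem (D : ChevalleyDatum)
    (hD : D ∈ [chevG2, chevB2, chevD4, chevF4, chevE6, chevE7, chevE8])
    {r m : ℕ} {J : List ℕ} {i₀ q : ℕ} {C : ℤ} (hm : (m : F) = 0)
    (cc : CenCert D r m J i₀ q C) (i : ℕ) (hi : i < D.rank)
    (hii : i ≠ i₀) (t : F) : nU D hD (D.simple i) t ∈ cenC F D J := by
  have hc := hcert_of_mem D hD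
  have hp : ∀ a : F, xU D hD (D.simple i) a ∈ cenC F D J := fun a =>
    Subgroup.mem_sup_left (xU_mem_pos D hD _ (hc.2 i hi).2 a)
  have hnp : ∀ a : F, xU D hD (D.neg (D.simple i)) a ∈ cenC F D J := fun a =>
    Subgroup.mem_sup_right (Subgroup.subset_closure
      ⟨_, cc.hsimple i hi hii, a, xU_val D hD _ _⟩)
  exact mul_mem (mul_mem (hp _) (hnp _)) (hp _)

theorem cen_torus (D : ChevalleyDatum)
    (hD : D ∈ [chevG2, chevB2, chevD4, chevF4, chevE6, chevE7, chevE8])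
    {r m : ℕ} {J : List ℕ} {i₀ q : ℕ} {C : ℤ} (hm : (m : F) = 0)
    (cc : CenCert D r m J i₀ q C) (h : GL D.Idx F)
    (hh : h ∈ D.diagonalSubgroup F)
    (hcomm : h * xU D hD (r) 1 = xU D hD (r) 1 * h) :
    h ∈ cenC F D J := by
  have hnx := nxAll_of_mem D hD
  have hc := hcert_of_mem D hD
  have hh' := hh
  rw [← sdiagHom_range D hD hnx hc] at hh'
  obtain ⟨c, rfl⟩ := hh'
  obtain ⟨χ, hχ, hconj⟩ := diag_conj_x D hD hnx hc _ hh
  have h1 := hconj _ cc.hpos.1 1
  rw [hcomm, mul_assoc, mul_inv_cancel, mul_one, mul_one] at h1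
  have h2 : (χ (r) : F) = 1 := (fld_xU_inj D hD _ cc.hpos.1 _ _ h1).symm
  have h3 : (χ (r) : F) =
      ∏ i ∈ Finset.range D.rank, ce c i ^ D.cartan i (r) := by
    have e := hχ
    rw [sdiagHom_val] at e
    have e1 := congrFun (congrFun e (Sum.inr ⟨r, cc.hpos.1⟩))
      (Sum.inr ⟨r, cc.hpos.1⟩)
    unfold sdiag ChevalleyDatum.charDiag at e1
    rw [Matrix.diagonal_apply_eq, Matrix.diagonal_apply_eq] at e1
    exact e1.symm
  have h4 : ce c i₀ = 1 := by
    rw [h3, Finset.prod_eq_single i₀] at h2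
    · rw [cc.hcart1, zpow_one] at h2
      exact h2
    · intro i hi hne
      rw [cc.hcart0 i (Finset.mem_range.mp hi) hne, zpow_zero]
    · intro hni
      exact absurd (Finset.mem_range.mpr cc.hi₀) hni
  have h5 : sdiagHom D c =
      ((List.range D.rank).map (fun i => hU D hD (D.simple i) (ce c i))).prod := by
    apply Units.ext
    rw [sdiagHom_val, hprod_val, wordMat_simple_h D hD _ (fun i _ => ce_ne_zero c i)]
  rw [h5]
  apply Subgroup.list_prod_mem
  intro x hx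
  rw [List.mem_map] at hx
  obtain ⟨i, hi, rfl⟩ := hx
  have hi' := List.mem_range.mp hi
  by_cases hii : i = i₀
  · subst hii
    rw [h4]
    have e : hU D hD (D.simple i) (1 : F) = 1 := by
      unfold hU
      rw [← nU_inv D hD hnx _ (simple_lt D hc i hi') 1, mul_inv_cancel]
    rw [e]
    exact one_mem _
  · exact mul_mem (cen_nU_mem D hD hm cc i hi' hii _) (cen_nU_mem D hD hm cc i hi' hii _)

end Cfsg.Agent.Lib.helper11
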