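import Cfsg.Agent.Lib.helper11d.Cen1

/-! The centralizer of a highest root element, continued: the induction over Bruhat cells. -/

set_option autoImplicit false

namespace Cfsg.Agent.Lib.helper11

open Cfsg Cfsg.Lie Cfsg.Agent.Lib.helper2
open scoped Pointwise

variable {F : Type*} [Field F]

/-- if `b n v` centralizes `x_r(1)` then `n` normalizes the highest root subgroup -/
theorem cen_norm (D : ChevalleyDatum)
    (hD : D ∈ [chevG2, chevB2, chevD4, chevF4, chevE6, chevE7, chevE8])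
    {r m : ℕ} {J : List ℕ} {i₀ q : ℕ} {C : ℤ} (hm : (m : F) = 0)
    (cc : CenCert D r m J i₀ q C)
    (b n v : GL D.Idx F) (hb : b ∈ D.borelSubgroup F) (hn : n ∈ D.monomialSubgroup F)
    (hv : v ∈ D.posUnipotent F)
    (hcm : Commute (b * n * v) (xU D hD (r) 1)) :
    ∃ c₁ : F, ∀ a : F, n * xU D hD (r) a * n⁻¹ = xU D hD (r) (c₁ * a) := by
  obtain ⟨hnx, hcert, htri, hup, hcm'⟩ := certs_of_mem F D hD
  obtain ⟨π, hπ1, hπ2, hπ3⟩ := rootAct_of_mem D hD hnx hcert n hn
  obtain ⟨c₁, hc₁, hconj⟩ := hπ3 _ cc.hpos.1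
  have hUB : D.posUnipotent F ≤ D.borelSubgroup F := le_sup_left
  -- `n t n⁻¹ = b⁻¹ t b`
  have hvt := cen_pos_comm D hD hm cc (1 : F) v hv
  have e1 : n * xU D hD (r) 1 * n⁻¹ = b⁻¹ * xU D hD (r) 1 * b := by
    have h1 : b * n * v * xU D hD (r) 1 = xU D hD (r) 1 * (b * n * v) :=
      hcm.eq
    have h2 : b * n * xU D hD (r) 1 * v = xU D hD (r) 1 * b * n * v := by
      calc b * n * xU D hD (r) 1 * v = b * n * (xU D hD (r) 1 * v) := by
            group
        _ = b * n * (v * xU D hD (r) 1) := by rw [hvt.eq]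
        _ = b * n * v * xU D hD (r) 1 := by group
        _ = xU D hD (r) 1 * (b * n * v) := h1
        _ = xU D hD (r) 1 * b * n * v := by group
    have h3 := mul_right_cancel h2
    calc n * xU D hD (r) 1 * n⁻¹ = b⁻¹ * (b * n * xU D hD (r) 1) * n⁻¹ := by
          group
      _ = b⁻¹ * (xU D hD (r) 1 * b * n) * n⁻¹ := by rw [h3]
      _ = b⁻¹ * xU D hD (r) 1 * b := by group
  -- `b⁻¹ t b` lies in the highest root subgroup
  have h4 : (↑(D.posUnipotent F ⊔ D.diagonalSubgroup F) : Set (GL D.Idx F)) =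
      (↑(D.posUnipotent F) : Set (GL D.Idx F)) * (↑(D.diagonalSubgroup F) : Set (GL D.Idx F)) :=
    Subgroup.coe_mul_of_right_le_normalizer_left _ _ (diag_le_normalizer_pos D hD hnx hcert)
  have hb' : b ∈ (↑(D.posUnipotent F ⊔ D.diagonalSubgroup F) : Set (GL D.Idx F)) := hb
  rw [h4] at hb'
  obtain ⟨u, hu, h, hh, e⟩ := hb'
  have hu : u ∈ D.posUnipotent F := hu
  have hh : h ∈ D.diagonalSubgroup F := hh
  have e : u * h = b := e
  obtain ⟨χ, -, hχ⟩ := diag_conj_x D hD hnx hcert h⁻¹ (inv_mem hh)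
  have hut := cen_pos_comm D hD hm cc (1 : F) u hu
  have e2 : b⁻¹ * xU D hD (r) 1 * b = xU D hD (r) ((χ (r) : F) * 1) := by
    rw [← hχ _ cc.hpos.1 1, ← e]
    calc (u * h)⁻¹ * xU D hD (r) 1 * (u * h) =
          h⁻¹ * (u⁻¹ * (xU D hD (r) 1 * u)) * h := by group
      _ = h⁻¹ * (u⁻¹ * (u * xU D hD (r) 1)) * h := by rw [hut.eq]
      _ = h⁻¹ * xU D hD (r) 1 * h⁻¹⁻¹ := by group
  rw [hconj 1, e2] at e1
  -- hence `π r = r`
  have hπr : π r = r := by
    by_contra hne
    have hlt := hπ1 _ cc.hpos.1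
    rcases Cfsg.Agent.S1041.posOrNeg D hD _ hlt with hp | hng
    · rcases Nat.lt_or_gt_of_ne hne with hlt2 | hgt2
      · have h5 : xU D hD (π r) (c₁ * 1) ∈
            Subgroup.closure (geGen F D (π r + 1)) := by
          rw [e1]
          exact Subgroup.subset_closure ⟨_, _, cc.hpos, by omega, xU_val D hD _ _⟩
        have h6 := xU_not_mem_ge D hD htri (negRev_of_mem D hD) (gcd_of_mem D hD) _ hp _ h5
        rw [mul_one] at h6
        exact hc₁ h6
      · have h5 : xU D hD r ((χ r : F) * 1) ∈ Subgroup.closure (geGen F D (r + 1)) := by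
          rw [← e1]
          exact Subgroup.subset_closure ⟨_, _, hp, by omega, xU_val D hD _ _⟩
        have h6 := xU_not_mem_ge D hD htri (negRev_of_mem D hD) (gcd_of_mem D hD) _ cc.hpos _ h5
        rw [mul_one] at h6
        exact (χ r).ne_zero h6
    · have h5 : xU D hD (π r) (c₁ * 1) ∈ D.borelSubgroup F ⊓ D.negUnipotent F := by
        refine ⟨?_, xU_mem_neg D hD _ hng _⟩
        rw [e1]
        exact hUB (xU_mem_pos D hD _ cc.hpos _)
      rw [borel_inf_neg D hD hnx hcert htri, Subgroup.mem_bot] at h5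
      have h6 := xU_eq_one D hD _ hlt _ h5
      rw [mul_one] at h6
      exact hc₁ h6
  refine ⟨c₁, fun a => ?_⟩
  rw [hconj a, hπr]

end Cfsg.Agent.Lib.helper11
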