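import Cfsg.Agent.Lib.helper11d.Cen2

/-! The centralizer of a highest root element: main statement. -/

set_option autoImplicit false

namespace Cfsg.Agent.Lib.helper11

open Cfsg Cfsg.Lie Cfsg.Agent.Lib.helper2
open scoped Pointwise

variable {F : Type*} [Field F]

theorem cen_claim (D : ChevalleyDatum)
    (hD : D ∈ [chevG2, chevB2, chevD4, chevF4, chevE6, chevE7, chevE8])
    {r m : ℕ} {J : List ℕ} {i₀ q : ℕ} {C : ℤ} (hm : (m : F) = 0)
    (cc : CenCert D r m J i₀ q C)
    (P : Cfsg.BNPair ↥(D.group F))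
    (hB : P.B = (D.borelSubgroup F).subgroupOf (D.group F))
    (hN : P.N = (D.monomialSubgroup F).subgroupOf (D.group F))
    (hS : P.S = {n : ↥(D.group F) | ∃ i < D.rank,
        ((n : GL D.Idx F) : Matrix D.Idx D.Idx F) = D.nMat F (D.simple i) 1}) :
    ∀ k : ℕ, ∀ n : GL D.Idx F, n ∈ D.monomialSubgroup F → ∀ nN : P.N,
      ((nN : ↥(D.group F)) : GL D.Idx F) = n⁻¹ → BN.len P (BN.π P nN) ≤ k →
      ∀ b ∈ D.borelSubgroup F, ∀ v ∈ D.posUnipotent F,
        Commute (b * n * v) (xU D hD (r) 1) → b * n * v ∈ cenC F D J := by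
  obtain ⟨hnx, hcert, htri, hup, hcm'⟩ := certs_of_mem F D hD
  obtain ⟨hBG, hNG, -⟩ := Cfsg.Agent.S1043.main0 (F := F) D hD hnx hcert
  have memB : ∀ x : ↥(D.group F), x ∈ P.B ↔ (x : GL D.Idx F) ∈ D.borelSubgroup F := by
    intro x
    rw [hB, Subgroup.mem_subgroupOf]
  have hUB : D.posUnipotent F ≤ D.borelSubgroup F := le_sup_left
  have hHB : D.diagonalSubgroup F ≤ D.borelSubgroup F := le_sup_right
  have hUC : D.posUnipotent F ≤ cenC F D J := le_sup_left
  -- the case of the trivial Weyl group element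
  have base : ∀ n : GL D.Idx F, n ∈ D.monomialSubgroup F → ∀ nN : P.N,
      ((nN : ↥(D.group F)) : GL D.Idx F) = n⁻¹ → BN.π P nN = 1 →
      ∀ b ∈ D.borelSubgroup F, ∀ v ∈ D.posUnipotent F,
        Commute (b * n * v) (xU D hD (r) 1) → b * n * v ∈ cenC F D J := by
    intro n hn nN hnN hw b hb v hv hcm
    rw [BN.π_eq_one_iff, memB, hnN] at hw
    have hninv : n⁻¹ ∈ D.monomialSubgroup F := inv_mem hn
    have h1 : n⁻¹ ∈ D.borelSubgroup F ⊓ D.monomialSubgroup F := ⟨hw, hninv⟩
    rw [borel_inf_mono D hD hnx hcert htri] at h1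
    have h2 : n ∈ D.diagonalSubgroup F := by
      have := inv_mem h1
      rwa [inv_inv] at this
    have hcB : b * n * v ∈ D.borelSubgroup F := mul_mem (mul_mem hb (hHB h2)) (hUB hv)
    have h4 : (↑(D.posUnipotent F ⊔ D.diagonalSubgroup F) : Set (GL D.Idx F)) =
        (↑(D.posUnipotent F) : Set (GL D.Idx F)) * (↑(D.diagonalSubgroup F) : Set (GL D.Idx F)) :=
      Subgroup.coe_mul_of_right_le_normalizer_left _ _ (diag_le_normalizer_pos D hD hnx hcert)
    have hb' : b * n * v ∈ (↑(D.posUnipotent F ⊔ D.diagonalSubgroup F) : Set (GL D.Idx F)) := hcB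
    rw [h4] at hb'
    obtain ⟨u, hu, h, hh, e⟩ := hb'
    have hu : u ∈ D.posUnipotent F := hu
    have hh : h ∈ D.diagonalSubgroup F := hh
    have e : u * h = b * n * v := e
    rw [← e] at hcm ⊢
    have hut := cen_pos_comm D hD hm cc (1 : F) u hu
    have hht : Commute h (xU D hD (r) 1) := by
      have h5 : h = u⁻¹ * (u * h) := by group
      rw [h5]
      exact hut.inv_left.mul_left hcm
    exact mul_mem (hUC hu) (cen_torus D hD hm cc h hh hht.eq)
  intro k
  induction k with
  | zero =>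
    intro n hn nN hnN hlen b hb v hv hcm
    have h0 : BN.len P (BN.π P nN) = 0 := by omega
    rw [BN.len_eq_zero_iff] at h0
    exact base n hn nN hnN h0 b hb v hv hcm
  | succ k ih =>
    intro n hn nN hnN hlen b hb v hv hcm
    by_cases hw : BN.π P nN = 1
    · exact base n hn nN hnN hw b hb v hv hcm
    obtain ⟨l, hl, hlen'⟩ := BN.exists_reduced P (BN.π P nN)
    cases l with
    | nil => exact absurd hl.symm hw
    | cons s l' =>
      have hred : BN.Red P (s :: l') := by
        unfold BN.Red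
        rw [hl, hlen']
      have hQ := BN.Red.Q_head P hred
      rw [hl] at hQ
      have hsS : (s : ↥(D.group F)) ∈ {n : ↥(D.group F) | ∃ i < D.rank,
          ((n : GL D.Idx F) : Matrix D.Idx D.Idx F) = D.nMat F (D.simple i) 1} := by
        rw [← hS]
        exact s.2
      obtain ⟨i, hi, hsi⟩ := hsS
      have hs : ((s : ↥(D.group F)) : GL D.Idx F) = nU D hD (D.simple i) 1 :=
        Units.ext (by rw [hsi, nU_val])
      have hpos : D.IsPosRoot (D.simple i) := (hcert.2 i hi).2
      have hneg : ∀ t : F, n * xU D hD (D.simple i) t * n⁻¹ ∈ D.negUnipotent F := by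
        intro t
        have h3 := Q_neg D hD hnx hcert htri hup hcm' P hB hN i hi s hs nN hQ t
        rw [hnN, inv_inv] at h3
        exact h3
      -- the fundamental root is orthogonal to the highest root
      have hii : i ≠ i₀ := by
        rintro rfl
        rcases mono_conj_dichotomy D hD hnx hcert htri n hn (D.simple i) hpos.1 with
          ⟨h1, -⟩ | ⟨-, h2⟩
        · have h5 : n * xU D hD (D.simple i) 1 * n⁻¹ ∈ D.borelSubgroup F ⊓ D.negUnipotent F :=
            ⟨hUB (h1 1), hneg 1⟩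
          rw [borel_inf_neg D hD hnx hcert htri, Subgroup.mem_bot] at h5
          have h6 : xU D hD (D.simple i) (1 : F) = 1 := by
            have h7 : xU D hD (D.simple i) (1 : F) =
                n⁻¹ * (n * xU D hD (D.simple i) 1 * n⁻¹) * n := by group
            rw [h7, h5]
            group
          exact one_ne_zero (α := F) (xU_eq_one D hD _ hpos.1 _ h6)
        · obtain ⟨c₁, hnr⟩ := cen_norm D hD hm cc b n v hb hn hv hcm
          have h3 := cen_pos_comm D hD hm cc (c₁ * 1) _ (h2 1)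
          rw [← hnr 1] at h3
          apply cen_noncomm (F := F) D hD hm cc
          have h4 := h3.eq
          calc xU D hD (D.neg (D.simple i)) (1 : F) * xU D hD (r) 1 =
                n⁻¹ * ((n * xU D hD (D.neg (D.simple i)) 1 * n⁻¹) *
                  (n * xU D hD (r) 1 * n⁻¹)) * n := by group
            _ = n⁻¹ * ((n * xU D hD (r) 1 * n⁻¹) *
                  (n * xU D hD (D.neg (D.simple i)) 1 * n⁻¹)) * n := by rw [h4]
            _ = xU D hD (r) 1 * xU D hD (D.neg (D.simple i)) 1 := by group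
      have hnp : nU D hD (D.simple i) (1 : F) ∈ cenC F D J := cen_nU_mem D hD hm cc i hi hii 1
      obtain ⟨v', hv', a, rfl⟩ := pos_decomp D hD hnx hcert htri hup hcm' i hi v hv
      have hnorm := (up_main D hD hnx hcert htri hup hcm' i hi).1
      have hnpX : nU D hD (D.simple i) (1 : F) ∈
          D.rootSubgroup F (D.simple i) ⊔ D.rootSubgroup F (D.neg (D.simple i)) :=
        mul_mem (mul_mem (Subgroup.mem_sup_left (xU_mem_rootSubgroup D hD _ _))
          (Subgroup.mem_sup_right (xU_mem_rootSubgroup D hD _ _)))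
          (Subgroup.mem_sup_left (xU_mem_rootSubgroup D hD _ _))
      have hv'' : nU D hD (D.simple i) 1 * v' * (nU D hD (D.simple i) 1)⁻¹ ∈ D.posUnipotent F :=
        Up_le_pos D hD i ((Subgroup.mem_normalizer_iff.mp (hnorm hnpX) v').mp hv')
      have hxa : xU D hD (D.simple i) a ∈ cenC F D J := hUC (xU_mem_pos D hD _ hpos a)
      have e : b * n * (v' * xU D hD (D.simple i) a) =
          (b * (n * (nU D hD (D.simple i) 1)⁻¹) *
            (nU D hD (D.simple i) 1 * v' * (nU D hD (D.simple i) 1)⁻¹)) *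
            nU D hD (D.simple i) 1 * xU D hD (D.simple i) a := by group
      have hcm2 : Commute (b * (n * (nU D hD (D.simple i) 1)⁻¹) *
            (nU D hD (D.simple i) 1 * v' * (nU D hD (D.simple i) 1)⁻¹))
          (xU D hD (r) 1) := by
        have e' : b * (n * (nU D hD (D.simple i) 1)⁻¹) *
            (nU D hD (D.simple i) 1 * v' * (nU D hD (D.simple i) 1)⁻¹) =
            (b * n * (v' * xU D hD (D.simple i) a)) * (xU D hD (D.simple i) a)⁻¹ *
              (nU D hD (D.simple i) 1)⁻¹ := by group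
        rw [e']
        exact (hcm.mul_left (cenC_comm D hD hm cc 1 _ hxa).inv_left).mul_left
          (cenC_comm D hD hm cc 1 _ hnp).inv_left
      have hnpN : nU D hD (D.simple i) (1 : F) ∈ D.monomialSubgroup F :=
        nU_mem_mono D hD _ hpos.1
      let sN : P.N := ⟨(s : ↥(D.group F)), P.subset s.2⟩
      have hnN' : (((sN * nN : P.N) : ↥(D.group F)) : GL D.Idx F) =
          (n * (nU D hD (D.simple i) 1)⁻¹)⁻¹ := by
        rw [mul_inv_rev, inv_inv, ← hnN, ← hs]
        rfl
      have hlen2 : BN.len P (BN.π P (sN * nN)) ≤ k := by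
        have h8 : BN.π P (sN * nN) = BN.σ P s * BN.π P nN := by
          rw [map_mul]
          rfl
        rw [h8]
        have := BN.len_lt_of_Q P hQ
        omega
      have h9 := ih (n * (nU D hD (D.simple i) 1)⁻¹) (mul_mem hn (inv_mem hnpN)) (sN * nN) hnN'
        hlen2 b hb _ hv'' hcm2
      rw [e]
      exact mul_mem (mul_mem h9 hnp) hxa

theorem cen_main (D : ChevalleyDatum)
    (hD : D ∈ [chevG2, chevB2, chevD4, chevF4, chevE6, chevE7, chevE8])
    {r m : ℕ} {J : List ℕ} {i₀ q : ℕ} {C : ℤ} (hm : (m : F) = 0)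
    (cc : CenCert D r m J i₀ q C)
    (t : GL D.Idx F) (ht : (t : Matrix D.Idx D.Idx F) = D.x F (r) 1) :
    D.group F ⊓ Subgroup.centralizer {t} = D.posUnipotent F ⊔
      Subgroup.closure {g : GL D.Idx F | ∃ s ∈ J, ∃ c : F,
        (g : Matrix D.Idx D.Idx F) = D.x F s c} := by
  obtain ⟨hnx, hcert, htri, hup, hcm'⟩ := certs_of_mem F D hD
  obtain ⟨hBG, hNG, -⟩ := Cfsg.Agent.S1043.main0 (F := F) D hD hnx hcert
  have ht' := eq_xU D hD _ 1 t ht
  subst ht'
  apply le_antisymm
  · rintro c ⟨hcG, hcc⟩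
    obtain ⟨P, hB, hN, hS⟩ := exists_bn D hD hnx hcert htri hup hcm'
    have memN : ∀ x : ↥(D.group F), x ∈ P.N ↔ (x : GL D.Idx F) ∈ D.monomialSubgroup F := by
      intro x
      rw [hN, Subgroup.mem_subgroupOf]
    obtain ⟨b, hb, n, hn, v, hv, rfl⟩ := bruhat_exists D hD hnx hcert htri hup hcm' c hcG
    have hcm : Commute (b * n * v) (xU D hD (r) 1) :=
      ((Subgroup.mem_centralizer_iff.mp hcc) _ rfl).symm
    have hninv : n⁻¹ ∈ D.monomialSubgroup F := inv_mem hn
    exact cen_claim D hD hm cc P hB hN hS _ n hn ⟨⟨n⁻¹, hNG hninv⟩, (memN _).mpr hninv⟩ rfl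
      (le_refl _) b hb v (SnSet_le_pos D hD n hv) hcm
  · have h1 : cenC F D J ≤ D.group F := by
      unfold cenC
      apply sup_le
      · exact le_trans le_sup_left hBG
      · rw [Subgroup.closure_le]
        rintro x ⟨s, -, c, hx⟩
        rw [eq_xU D hD s c x hx]
        exact xU_mem_group D hD s c
    exact le_inf h1 (cenC_le D hD hm cc 1)

end Cfsg.Agent.Lib.helper11
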