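import Cfsg.Agent.Lib.helper11d.Cen3

/-! Table certificates for the centralizer of a dominant root element. -/

set_option autoImplicit false

namespace Cfsg.Agent.Lib.helper11

open Cfsg Cfsg.Lie

theorem cenCert_E6 : CenCert chevE6 71 0 [15, 29, 32, 34, 35] 1 70 (-1) where
  hpos := by decide +kernel
  hcp := by decide +kernel
  hJ := by decide +kernel
  hi₀ := by decide +kernel
  hsimple := by decide +kernel
  hcart1 := by decide +kernel
  hcart0 := by decide +kernel
  hnc := by decide +kernel
  hC := Or.inr rfl
  hq := by decide +kernel
  hne := by decide +kernel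

theorem cenCert_E7 : CenCert chevE7 125 0 [47, 52, 56, 59, 61, 62] 0 124 (-1) where
  hpos := by decide +kernel
  hcp := by decide +kernel
  hJ := by decide +kernel
  hi₀ := by decide +kernel
  hsimple := by decide +kernel
  hcart1 := by decide +kernel
  hcart0 := by decide +kernel
  hnc := by decide +kernel
  hC := Or.inr rfl
  hq := by decide +kernel
  hne := by decide +kernel

theorem cenCert_E8 : CenCert chevE8 239 0 [77, 98, 104, 109, 113, 116, 118] 7 238 (-1) where
  hpos := by decide +kernel
  hcp := by decide +kernel
  hJ := by decide +kernel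
  hi₀ := by decide +kernel
  hsimple := by decide +kernel
  hcart1 := by decide +kernel
  hcart0 := by decide +kernel
  hnc := by decide +kernel
  hC := Or.inr rfl
  hq := by decide +kernel
  hne := by decide +kernel

theorem cenCert_F4l : CenCert chevF4 47 0 [14, 20, 22] 3 46 (-1) where
  hpos := by decide +kernel
  hcp := by decide +kernel
  hJ := by decide +kernel
  hi₀ := by decide +kernel
  hsimple := by decide +kernel
  hcart1 := by decide +kernel
  hcart0 := by decide +kernel
  hnc := by decide +kernel
  hC := Or.inr rfl
  hq := by decide +kernel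
  hne := by decide +kernel

theorem cenCert_F4s : CenCert chevF4 44 2 [20, 22, 23] 0 40 (-1) where
  hpos := by decide +kernel
  hcp := by decide +kernel
  hJ := by decide +kernel
  hi₀ := by decide +kernel
  hsimple := by decide +kernel
  hcart1 := by decide +kernel
  hcart0 := by decide +kernel
  hnc := by decide +kernel
  hC := Or.inr rfl
  hq := by decide +kernel
  hne := by decide +kernel

theorem cenCert_G2l : CenCert chevG2 11 0 [4] 1 10 (-1) where
  hpos := by decide +kernel
  hcp := by decide +kernel
  hJ := by decide +kernel
  hi₀ := by decide +kernel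
  hsimple := by decide +kernel
  hcart1 := by decide +kernel
  hcart0 := by decide +kernel
  hnc := by decide +kernel
  hC := Or.inr rfl
  hq := by decide +kernel
  hne := by decide +kernel

theorem cen_closure_list3 {F : Type*} [Field F] (D : ChevalleyDatum) (a b c : ℕ) :
    Subgroup.closure {g : GL D.Idx F | ∃ s ∈ [a, b, c], ∃ t : F,
      (g : Matrix D.Idx D.Idx F) = D.x F s t} =
      D.rootSubgroup F a ⊔ D.rootSubgroup F b ⊔ D.rootSubgroup F c := by
  apply le_antisymm
  · rw [Subgroup.closure_le]
    rintro x ⟨s, hs, t, hx⟩
    simp only [List.mem_cons, List.not_mem_nil, or_false] at hs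
    have hxs : x ∈ D.rootSubgroup F s := Subgroup.subset_closure ⟨t, hx⟩
    rcases hs with rfl | rfl | rfl
    · exact Subgroup.mem_sup_left (Subgroup.mem_sup_left hxs)
    · exact Subgroup.mem_sup_left (Subgroup.mem_sup_right hxs)
    · exact Subgroup.mem_sup_right hxs
  · have key : ∀ s ∈ [a, b, c], D.rootSubgroup F s ≤
        Subgroup.closure {g : GL D.Idx F | ∃ s ∈ [a, b, c], ∃ t : F,
          (g : Matrix D.Idx D.Idx F) = D.x F s t} := by
      intro s hs
      unfold ChevalleyDatum.rootSubgroup
      apply Subgroup.closure_mono
      rintro x ⟨t, hx⟩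
      exact ⟨s, hs, t, hx⟩
    exact sup_le (sup_le (key a (by simp)) (key b (by simp))) (key c (by simp))

end Cfsg.Agent.Lib.helper11
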