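import Cfsg.Agent.Lib.helper11d.Fld5

/-! The normalizer of a subgroup between the subfield group and the group of fixed points. -/

set_option autoImplicit false

namespace Cfsg.Agent.Lib.helper11

open Cfsg Cfsg.Lie
open scoped Pointwise

variable {F : Type*} [Field F]

/-- the subgroup generated by the root elements with parameter fixed by `σ` -/
def fldL (D : ChevalleyDatum) (σ : F ≃+* F) : Subgroup (GL D.Idx F) :=
  Subgroup.closure {g | ∃ (s : ℕ) (t : F), σ t = t ∧ (g : Matrix D.Idx D.Idx F) = D.x F s t}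

theorem fld_xU_mem_L (D : ChevalleyDatum)
    (hD : D ∈ [chevG2, chevB2, chevD4, chevF4, chevE6, chevE7, chevE8]) (σ : F ≃+* F)
    (r : ℕ) (t : F) (ht : σ t = t) : xU D hD r t ∈ fldL D σ :=
  Subgroup.subset_closure ⟨r, t, ht, xU_val D hD r t⟩

theorem fld_pos_mem_L (D : ChevalleyDatum)
    (hD : D ∈ [chevG2, chevB2, chevD4, chevF4, chevE6, chevE7, chevE8]) (σ : F ≃+* F)
    (u : GL D.Idx F) (hu : u ∈ D.posUnipotent F)
    (hσu : Matrix.GeneralLinearGroup.map (σ : F →+* F) u = u) : u ∈ fldL D σ := by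
  obtain ⟨t, ⟨ht0, htu⟩, huniq⟩ := (Cfsg.Agent.S1026.main (F := F) D hD).1 u hu
  have h1 : (fun r => σ (t r)) = t := by
    apply huniq
    refine ⟨fun r hr => by rw [ht0 r hr, map_zero], ?_⟩
    have h2 := congrArg (fun g : GL D.Idx F => (g : Matrix D.Idx D.Idx F)) hσu
    simp only [fld_glmap_val] at h2
    calc (u : Matrix D.Idx D.Idx F) = (u : Matrix D.Idx D.Idx F).map (σ : F →+* F) := h2.symm
      _ = (D.wordMat F (D.posRoots.map fun r => (r, t r))).map (σ : F →+* F) := by rw [← htu]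
      _ = D.wordMat F (D.posRoots.map fun r => (r, σ (t r))) := by
          rw [fld_wordMat_map, List.map_map]
          rfl
  have e : u = wordU D hD (D.posRoots.map fun r => (r, t r)) :=
    Units.ext (by rw [wordU_val, htu])
  rw [e]
  apply wordU_mem
  intro x hx
  rw [List.mem_map] at hx
  obtain ⟨r, -, rfl⟩ := hx
  exact fld_xU_mem_L D hD σ r (t r) (congrFun h1 r)

theorem fld_w_mem_L (D : ChevalleyDatum)
    (hD : D ∈ [chevG2, chevB2, chevD4, chevF4, chevE6, chevE7, chevE8]) (σ : F ≃+* F)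
    (w : GL D.Idx F) (hw : w ∈ fldW F D) : w ∈ fldL D σ := by
  have h1 : fldW F D ≤ fldL D σ := by
    unfold fldW
    rw [Subgroup.closure_le]
    rintro x ⟨r, hr, hx⟩
    have e : x = nU D hD r 1 := Units.ext (by rw [hx, nU_val])
    rw [e]
    exact mul_mem (mul_mem (fld_xU_mem_L D hD σ _ _ (map_one σ))
      (fld_xU_mem_L D hD σ _ _ (by simp))) (fld_xU_mem_L D hD σ _ _ (map_one σ))
  exact h1 hw

theorem fld_fix_decomp (D : ChevalleyDatum)
    (hD : D ∈ [chevG2, chevB2, chevD4, chevF4, chevE6, chevE7, chevE8]) (σ : F ≃+* F)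
    (g : GL D.Idx F) (hg : g ∈ D.group F)
    (hσg : Matrix.GeneralLinearGroup.map (σ : F →+* F) g = g) :
    ∃ l₁ ∈ fldL D σ, ∃ h ∈ D.diagonalSubgroup F,
      Matrix.GeneralLinearGroup.map (σ : F →+* F) h = h ∧ ∃ l₂ ∈ fldL D σ, g = l₁ * h * l₂ := by
  have ce := certs_of_mem F D hD
  obtain ⟨b, hb, n, hn, u, hu, rfl⟩ :=
    bruhat_exists D hD ce.hnx ce.hc ce.htri ce.hup ce.hcomm g hg
  have hWN : fldW F D ≤ D.monomialSubgroup F := le_sup_right
  have h1 : (↑(D.diagonalSubgroup F ⊔ fldW F D) : Set (GL D.Idx F)) =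
      (↑(D.diagonalSubgroup F) : Set (GL D.Idx F)) * (↑(fldW F D) : Set (GL D.Idx F)) :=
    Subgroup.coe_mul_of_right_le_normalizer_left _ _
      (hWN.trans (mono_le_normalizer D hD ce.hnx ce.hc))
  have hn' : n ∈ (↑(D.diagonalSubgroup F ⊔ fldW F D) : Set (GL D.Idx F)) := hn
  rw [h1] at hn'
  obtain ⟨h, hh, w, hw, e⟩ := hn'
  have hh : h ∈ D.diagonalSubgroup F := hh
  have hw : w ∈ fldW F D := hw
  have e : h * w = n := e
  subst e
  rw [fld_SnSet_diag_mul D hD h w hh] at hu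
  have hHB : D.diagonalSubgroup F ≤ D.borelSubgroup F := le_sup_right
  have hbh : b * h ∈ D.borelSubgroup F := mul_mem hb (hHB hh)
  have hσw := fld_w_fixed D (σ : F →+* F) w hw
  have e2 : Matrix.GeneralLinearGroup.map (σ : F →+* F) (b * h) * w *
      Matrix.GeneralLinearGroup.map (σ : F →+* F) u = b * h * w * u := by
    have h3 := hσg
    rw [show b * (h * w) * u = b * h * w * u by group, map_mul, map_mul, hσw] at h3
    exact h3
  obtain ⟨e3, e4⟩ := bruhat_unique D hD ce.hnx ce.hc ce.htri _ _ w _ _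
    (fld_map_borel D (σ : F →+* F) _ hbh) hbh (fld_map_SnSet D (σ : F →+* F) w u hu) hu e2
  -- split `b * h`
  have h5 : (↑(D.posUnipotent F ⊔ D.diagonalSubgroup F) : Set (GL D.Idx F)) =
      (↑(D.posUnipotent F) : Set (GL D.Idx F)) * (↑(D.diagonalSubgroup F) : Set (GL D.Idx F)) :=
    Subgroup.coe_mul_of_right_le_normalizer_left _ _
      (diag_le_normalizer_pos D hD ce.hnx ce.hc)
  have hb' : b * h ∈ (↑(D.posUnipotent F ⊔ D.diagonalSubgroup F) : Set (GL D.Idx F)) := hbh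
  rw [h5] at hb'
  obtain ⟨u₁, hu₁, h₁, hh₁, e5⟩ := hb'
  have hu₁ : u₁ ∈ D.posUnipotent F := hu₁
  have hh₁ : h₁ ∈ D.diagonalSubgroup F := hh₁
  have e5 : u₁ * h₁ = b * h := e5
  rw [← e5, map_mul] at e3
  have hu' := fld_map_pos D (σ : F →+* F) u₁ hu₁
  have hh' := fld_map_diag D (σ : F →+* F) h₁ hh₁
  have h6 : u₁⁻¹ * Matrix.GeneralLinearGroup.map (σ : F →+* F) u₁ =
      h₁ * (Matrix.GeneralLinearGroup.map (σ : F →+* F) h₁)⁻¹ := by
    have : Matrix.GeneralLinearGroup.map (σ : F →+* F) u₁ =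
        u₁ * h₁ * (Matrix.GeneralLinearGroup.map (σ : F →+* F) h₁)⁻¹ := by
      rw [← e3]; group
    rw [this]; group
  have h7 : u₁⁻¹ * Matrix.GeneralLinearGroup.map (σ : F →+* F) u₁ ∈
      D.posUnipotent F ⊓ D.diagonalSubgroup F :=
    Subgroup.mem_inf.mpr ⟨Subgroup.mul_mem _ (Subgroup.inv_mem _ hu₁) hu', by
      rw [h6]
      exact Subgroup.mul_mem _ hh₁ (Subgroup.inv_mem _ hh')⟩
  rw [pos_inf_diag D hD ce.hnx ce.hc ce.htri, Subgroup.mem_bot] at h7
  have h8 : Matrix.GeneralLinearGroup.map (σ : F →+* F) u₁ = u₁ := (inv_mul_eq_one.mp h7).symm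
  have h9 : Matrix.GeneralLinearGroup.map (σ : F →+* F) h₁ = h₁ := by
    rw [h8] at e3
    exact mul_left_cancel e3
  refine ⟨u₁, fld_pos_mem_L D hD σ u₁ hu₁ h8, h₁, hh₁, h9, w * u,
    mul_mem (fld_w_mem_L D hD σ w hw) (fld_pos_mem_L D hD σ u (SnSet_le_pos D hD w hu) e4), ?_⟩
  calc b * (h * w) * u = (b * h) * (w * u) := by group
    _ = u₁ * h₁ * (w * u) := by rw [e5]

theorem fld_diag_conj_L (D : ChevalleyDatum)
    (hD : D ∈ [chevG2, chevB2, chevD4, chevF4, chevE6, chevE7, chevE8]) (σ : F ≃+* F)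
    (h : GL D.Idx F) (hh : h ∈ D.diagonalSubgroup F)
    (hσh : Matrix.GeneralLinearGroup.map (σ : F →+* F) h = h)
    (x : GL D.Idx F) (hx : x ∈ fldL D σ) : h * x * h⁻¹ ∈ fldL D σ := by
  obtain ⟨χ, hχ, hconj⟩ := diag_conj_x D hD (nxAll_of_mem D hD) (hcert_of_mem D hD) h hh
  have hχσ : ∀ r < D.nroots, σ (χ r : F) = χ r := by
    intro r hr
    have h1 := congrArg (fun g : GL D.Idx F =>
      (g : Matrix D.Idx D.Idx F) (Sum.inr ⟨r, hr⟩) (Sum.inr ⟨r, hr⟩)) hσh
    simp only [fld_glmap_val, Matrix.map_apply, hχ] at h1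
    unfold ChevalleyDatum.charDiag at h1
    simpa using h1
  unfold fldL at hx ⊢
  induction hx using Subgroup.closure_induction with
  | mem x hx =>
    obtain ⟨s, t, ht, hx⟩ := hx
    by_cases hs : s < D.nroots
    · rw [eq_xU D hD s t x hx, hconj s hs t]
      exact Subgroup.subset_closure ⟨s, _, by rw [map_mul, hχσ s hs, ht], xU_val D hD _ _⟩
    · have e : x = 1 := Units.ext (by rw [hx]; simp [ChevalleyDatum.x, hs])
      rw [e]
      simp
  | one => simp
  | mul x y _ _ hx hy =>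
    have e : h * (x * y) * h⁻¹ = h * x * h⁻¹ * (h * y * h⁻¹) := by group
    rw [e]
    exact mul_mem hx hy
  | inv x _ hx =>
    have e : h * x⁻¹ * h⁻¹ = (h * x * h⁻¹)⁻¹ := by group
    rw [e]
    exact inv_mem hx

theorem fld_normalizer (D : ChevalleyDatum)
    (hD : D ∈ [chevG2, chevB2, chevD4, chevF4, chevE6, chevE7, chevE8]) (σ : F ≃+* F)
    (K : Subgroup (GL D.Idx F)) (hKG : K ≤ D.group F) (hLK : fldL D σ ≤ K)
    (hKfix : ∀ g ∈ K, Matrix.GeneralLinearGroup.map (σ : F →+* F) g = g)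
    (g : GL D.Idx F) (hg : g ∈ D.group F) :
    g ∈ Subgroup.normalizer (K : Set (GL D.Idx F)) ↔
      Matrix.GeneralLinearGroup.map (σ : F →+* F) g = g := by
  have hnx := nxAll_of_mem D hD
  have hc := hcert_of_mem D hD
  constructor
  · intro hgn
    have hcG : g⁻¹ * Matrix.GeneralLinearGroup.map (σ : F →+* F) g ∈ D.group F :=
      mul_mem (inv_mem hg) (fld_map_group D _ g hg)
    have hcomm : ∀ r < D.nroots,
        (g⁻¹ * Matrix.GeneralLinearGroup.map (σ : F →+* F) g) * xU D hD r 1 =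
          xU D hD r 1 * (g⁻¹ * Matrix.GeneralLinearGroup.map (σ : F →+* F) g) := by
      intro r hr
      have hxK : xU D hD r (1 : F) ∈ K := hLK (fld_xU_mem_L D hD σ r 1 (map_one σ))
      have h1 : g * xU D hD r 1 * g⁻¹ ∈ K := (Subgroup.mem_normalizer_iff.mp hgn _).mp hxK
      have h2 := hKfix _ h1
      rw [map_mul, map_mul, map_inv, hKfix _ hxK] at h2
      calc g⁻¹ * Matrix.GeneralLinearGroup.map (σ : F →+* F) g * xU D hD r 1 =
            g⁻¹ * (Matrix.GeneralLinearGroup.map (σ : F →+* F) g * xU D hD r 1 *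
              (Matrix.GeneralLinearGroup.map (σ : F →+* F) g)⁻¹) *
              Matrix.GeneralLinearGroup.map (σ : F →+* F) g := by group
        _ = g⁻¹ * (g * xU D hD r 1 * g⁻¹) *
              Matrix.GeneralLinearGroup.map (σ : F →+* F) g := by rw [h2]
        _ = xU D hD r 1 * (g⁻¹ * Matrix.GeneralLinearGroup.map (σ : F →+* F) g) := by group
    have h3 := fld_cen_trivial D hD _ hcG hcomm
    exact (inv_mul_eq_one.mp h3).symm
  · intro hσg
    have key : ∀ g ∈ D.group F, Matrix.GeneralLinearGroup.map (σ : F →+* F) g = g →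
        ∀ x ∈ K, g * x * g⁻¹ ∈ K := by
      intro g hg hσg x hx
      obtain ⟨l₁, hl₁, h, hh, hσh, l₂, hl₂, rfl⟩ := fld_fix_decomp D hD σ g hg hσg
      have hH : ∀ y ∈ K, h * y * h⁻¹ ∈ K := by
        intro y hy
        obtain ⟨m₁, hm₁, h', hh', hσh', m₂, hm₂, rfl⟩ :=
          fld_fix_decomp D hD σ y (hKG hy) (hKfix y hy)
        have h'K : h' ∈ K := by
          have e0 : h' = m₁⁻¹ * (m₁ * h' * m₂) * m₂⁻¹ := by group
          rw [e0]
          exact mul_mem (mul_mem (inv_mem (hLK hm₁)) hy) (inv_mem (hLK hm₂))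
        have e1 : h * h' * h⁻¹ = h' := by
          rw [diag_comm D hD hnx hc h h' hh hh', mul_assoc, mul_inv_cancel, mul_one]
        have e : h * (m₁ * h' * m₂) * h⁻¹ =
            (h * m₁ * h⁻¹) * (h * h' * h⁻¹) * (h * m₂ * h⁻¹) := by group
        rw [e, e1]
        exact mul_mem (mul_mem (hLK (fld_diag_conj_L D hD σ h hh hσh m₁ hm₁)) h'K)
          (hLK (fld_diag_conj_L D hD σ h hh hσh m₂ hm₂))
      have e : l₁ * h * l₂ * x * (l₁ * h * l₂)⁻¹ =
          l₁ * (h * (l₂ * x * l₂⁻¹) * h⁻¹) * l₁⁻¹ := by group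
      rw [e]
      exact mul_mem (mul_mem (hLK hl₁)
        (hH _ (mul_mem (mul_mem (hLK hl₂) hx) (inv_mem (hLK hl₂))))) (inv_mem (hLK hl₁))
    rw [Subgroup.mem_normalizer_iff]
    intro x
    constructor
    · exact key g hg hσg x
    · intro hx
      have h1 := key g⁻¹ (inv_mem hg) (by rw [map_inv, hσg]) _ hx
      have e : g⁻¹ * (g * x * g⁻¹) * g⁻¹⁻¹ = x := by group
      rwa [e] at h1

end Cfsg.Agent.Lib.helper11
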