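import Cfsg.Agent.Lib.helper11d.Cen3
import Cfsg.Agent.Lib.helper11d.Uniq1OK
import Cfsg.Agent.Lib.helper11d.Par1OK

/-! The centralizer of a short root element `x_{2a+b}(1)` in `G₂(F)` when `3 ≠ 0` in `F`:
basic facts on `X_9 X_10 X_11` and the action of `N` on the roots. -/

set_option autoImplicit false

namespace Cfsg.Agent.Lib.helper11

open Cfsg Cfsg.Lie Cfsg.Agent.Lib.helper2
open scoped Pointwise

variable {F : Type*} [Field F]

theorem g2c_mem : chevG2 ∈ [chevG2, chevB2, chevD4, chevF4, chevE6, chevE7, chevE8] :=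
  List.mem_cons_self

theorem g2c_nroots : chevG2.nroots = 12 := by decide +kernel

theorem g2c_lt {r : ℕ} (h : r < 12) : r < chevG2.nroots := by
  rw [g2c_nroots]
  exact h

theorem g2c_pos_tab : ∀ r < 12, (chevG2.IsPosRoot r ↔ 6 ≤ r) := by decide +kernel

theorem g2c_neg_tab : ∀ r < 12, (chevG2.IsNegRoot r ↔ r < 6) := by decide +kernel

theorem g2c_negidx_tab : ∀ r < 12, chevG2.neg r = 11 - r := by decide +kernel

theorem g2c_pos {r : ℕ} (h1 : 6 ≤ r) (h2 : r < 12) : chevG2.IsPosRoot r :=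
  (g2c_pos_tab r h2).mpr h1

theorem g2c_neg {r : ℕ} (h2 : r < 6) : chevG2.IsNegRoot r :=
  (g2c_neg_tab r (by omega)).mpr h2

theorem g2c_pos_ge {r : ℕ} (h : chevG2.IsPosRoot r) : 6 ≤ r ∧ r < 12 := by
  have h1 : r < 12 := by
    have := h.1
    rwa [g2c_nroots] at this
  exact ⟨(g2c_pos_tab r h1).mp h, h1⟩

theorem g2c_comm_gt0 : ∀ r ∈ List.range' 6 6, ∀ s ∈ List.range' 6 6,
    ∀ c ∈ chevG2.commTerms r s, s < c.1 ∧ c.1 < 12 := by decide +kernel

theorem g2c_comm_gt (r : ℕ) (hr12 : r < 12) (s : ℕ) (hs12 : s < 12) (hr : 6 ≤ r) (hs : 6 ≤ s)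
    (c : ℕ × ℤ × ℕ × ℕ) (hc : c ∈ chevG2.commTerms r s) : s < c.1 ∧ c.1 < 12 :=
  g2c_comm_gt0 r (List.mem_range'_1.mpr ⟨hr, by omega⟩) s (List.mem_range'_1.mpr ⟨hs, by omega⟩)
    c hc

/-- every positive root subgroup normalises `⟨X_s : s ≥ k⟩` -/
theorem g2c_x_norm (k r : ℕ) (hr : chevG2.IsPosRoot r) (t : F) :
    xU chevG2 g2c_mem r t ∈
      Subgroup.normalizer (Subgroup.closure (geGen F chevG2 k) : Set _) := by
  obtain ⟨hnx, hcert, htri, hup, hcomm⟩ := certs_of_mem F chevG2 g2c_mem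
  obtain ⟨hr6, hr12⟩ := g2c_pos_ge hr
  have key : ∀ (t : F) (g : GL chevG2.Idx F), g ∈ geGen F chevG2 k →
      (xU chevG2 g2c_mem r t)⁻¹ * g * xU chevG2 g2c_mem r t ∈
        Subgroup.closure (geGen F chevG2 k) := by
    rintro t g ⟨s, u, hs, hks, hg⟩
    rw [eq_xU chevG2 g2c_mem s u g hg]
    obtain ⟨hs6, hs12⟩ := g2c_pos_ge hs
    have hmem0 : xU chevG2 g2c_mem s u ∈ geGen F chevG2 k := ⟨s, u, hs, hks, rfl⟩
    by_cases hsr : s = r
    · subst hsr
      have e : (xU chevG2 g2c_mem s t)⁻¹ * xU chevG2 g2c_mem s u * xU chevG2 g2c_mem s t =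
          xU chevG2 g2c_mem s u := by
        rw [xU_inv, xU_add chevG2 g2c_mem s hs.1, xU_add chevG2 g2c_mem s hs.1]
        congr 1
        ring
      rw [e]
      exact Subgroup.subset_closure hmem0
    · have hsn : s ≠ chevG2.neg r := by
        rw [g2c_negidx_tab r hr12]
        omega
      rw [xp_conj chevG2 g2c_mem r s (hcomm r hr.1 s hs.1 hsr hsn) t u]
      apply Subgroup.mul_mem _ (Subgroup.subset_closure hmem0)
      apply wordU_mem
      intro x hx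
      unfold ChevalleyDatum.commWord at hx
      rw [List.mem_map] at hx
      obtain ⟨c, hc', rfl⟩ := hx
      obtain ⟨h1, h2⟩ := g2c_comm_gt r hr12 s hs12 hr6 hs6 c hc'
      have hmem : xU chevG2 g2c_mem c.1 ((c.2.1 : F) * (-t) ^ c.2.2.1 * u ^ c.2.2.2) ∈
          geGen F chevG2 k := ⟨c.1, _, g2c_pos (by omega) h2, by omega, rfl⟩
      exact Subgroup.subset_closure hmem
  apply mem_normalizer_closure
  · intro g hg
    have := key (-t) g hg
    rwa [← xU_inv, inv_inv] at this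
  · intro g hg
    exact key t g hg

/-- the torus normalises `⟨X_s : s ≥ k⟩` -/
theorem g2c_h_norm (k : ℕ) (h : GL chevG2.Idx F) (hh : h ∈ chevG2.diagonalSubgroup F) :
    h ∈ Subgroup.normalizer (Subgroup.closure (geGen F chevG2 k) : Set _) := by
  obtain ⟨hnx, hcert, htri, hup, hcomm⟩ := certs_of_mem F chevG2 g2c_mem
  apply mem_normalizer_closure
  · rintro g ⟨s, u, hs, hks, hg⟩
    rw [eq_xU chevG2 g2c_mem s u g hg]
    obtain ⟨χ, -, hχ⟩ := diag_conj_x chevG2 g2c_mem hnx hcert h hh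
    rw [hχ s hs.1 u]
    exact Subgroup.subset_closure ⟨s, _, hs, hks, rfl⟩
  · rintro g ⟨s, u, hs, hks, hg⟩
    rw [eq_xU chevG2 g2c_mem s u g hg]
    obtain ⟨χ, -, hχ⟩ := diag_conj_x chevG2 g2c_mem hnx hcert h⁻¹ (inv_mem hh)
    have := hχ s hs.1 u
    rw [inv_inv] at this
    rw [this]
    exact Subgroup.subset_closure ⟨s, _, hs, hks, rfl⟩

/-- the Borel subgroup normalises `⟨X_s : s ≥ k⟩` -/
theorem g2c_B_norm (k : ℕ) : chevG2.borelSubgroup F ≤
    Subgroup.normalizer (Subgroup.closure (geGen F chevG2 k) : Set _) := by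
  unfold ChevalleyDatum.borelSubgroup
  apply sup_le
  · unfold ChevalleyDatum.posUnipotent
    rw [Subgroup.closure_le]
    rintro g ⟨r, t, hr, hg⟩
    rw [eq_xU chevG2 g2c_mem r t g hg]
    exact g2c_x_norm k r hr t
  · intro h hh
    exact g2c_h_norm k h hh

theorem g2c_comm (r s : ℕ) (hr : r < 12) (hs : s < 12) (hrs : s ≠ r) (hneg : s + r ≠ 11)
    (h : chevG2.commTerms r s = []) (t u : F) :
    xU chevG2 g2c_mem s u * xU chevG2 g2c_mem r t =
      xU chevG2 g2c_mem r t * xU chevG2 g2c_mem s u := by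
  apply cen_comm_of_nil chevG2 g2c_mem 0 Nat.cast_zero r s (g2c_lt hr) (g2c_lt hs) hrs
  · rw [g2c_negidx_tab r hr]
    omega
  · rw [h]
    intro c hc
    exact absurd hc (List.not_mem_nil)

/-- elements of `X_9 X_10 X_11` -/
def g2cV (c d e : F) : GL chevG2.Idx F :=
  xU chevG2 g2c_mem 9 c * xU chevG2 g2c_mem 10 d * xU chevG2 g2c_mem 11 e

theorem g2c_c910 (t u : F) : xU chevG2 g2c_mem 10 u * xU chevG2 g2c_mem 9 t =
    xU chevG2 g2c_mem 9 t * xU chevG2 g2c_mem 10 u :=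
  g2c_comm 9 10 (by norm_num) (by norm_num) (by norm_num) (by norm_num) (by decide +kernel) t u

theorem g2c_c911 (t u : F) : xU chevG2 g2c_mem 11 u * xU chevG2 g2c_mem 9 t =
    xU chevG2 g2c_mem 9 t * xU chevG2 g2c_mem 11 u :=
  g2c_comm 9 11 (by norm_num) (by norm_num) (by norm_num) (by norm_num) (by decide +kernel) t u

theorem g2c_c1011 (t u : F) : xU chevG2 g2c_mem 11 u * xU chevG2 g2c_mem 10 t =
    xU chevG2 g2c_mem 10 t * xU chevG2 g2c_mem 11 u :=
  g2c_comm 10 11 (by norm_num) (by norm_num) (by norm_num) (by norm_num) (by decide +kernel) t u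

theorem g2cV_mul (c d e c' d' e' : F) :
    g2cV c d e * g2cV c' d' e' = g2cV (c + c') (d + d') (e + e') := by
  unfold g2cV
  have h1 := g2c_c910 (F := F) c' d
  have h2 : Commute (xU chevG2 g2c_mem 11 e) (xU chevG2 g2c_mem 9 c') := g2c_c911 c' e
  have h3 : Commute (xU chevG2 g2c_mem 11 e) (xU chevG2 g2c_mem 10 d') := g2c_c1011 d' e
  rw [← xU_add chevG2 g2c_mem 9 (g2c_lt (by norm_num)) c c',
    ← xU_add chevG2 g2c_mem 10 (g2c_lt (by norm_num)) d d',
    ← xU_add chevG2 g2c_mem 11 (g2c_lt (by norm_num)) e e']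
  calc xU chevG2 g2c_mem 9 c * xU chevG2 g2c_mem 10 d * xU chevG2 g2c_mem 11 e *
        (xU chevG2 g2c_mem 9 c' * xU chevG2 g2c_mem 10 d' * xU chevG2 g2c_mem 11 e')
      = xU chevG2 g2c_mem 9 c * xU chevG2 g2c_mem 10 d *
        (xU chevG2 g2c_mem 11 e * (xU chevG2 g2c_mem 9 c' * xU chevG2 g2c_mem 10 d')) *
          xU chevG2 g2c_mem 11 e' := by group
    _ = xU chevG2 g2c_mem 9 c * xU chevG2 g2c_mem 10 d *
        ((xU chevG2 g2c_mem 9 c' * xU chevG2 g2c_mem 10 d') * xU chevG2 g2c_mem 11 e) *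
          xU chevG2 g2c_mem 11 e' := by rw [(h2.mul_right h3).eq]
    _ = xU chevG2 g2c_mem 9 c * (xU chevG2 g2c_mem 10 d * xU chevG2 g2c_mem 9 c') *
        xU chevG2 g2c_mem 10 d' * (xU chevG2 g2c_mem 11 e * xU chevG2 g2c_mem 11 e') := by group
    _ = xU chevG2 g2c_mem 9 c * (xU chevG2 g2c_mem 9 c' * xU chevG2 g2c_mem 10 d) *
        xU chevG2 g2c_mem 10 d' * (xU chevG2 g2c_mem 11 e * xU chevG2 g2c_mem 11 e') := by rw [h1]
    _ = _ := by group

theorem g2cV_zero : g2cV (0 : F) 0 0 = 1 := by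
  unfold g2cV
  rw [xU_zero, xU_zero, xU_zero, mul_one, mul_one]

theorem g2cV_inv (c d e : F) : (g2cV c d e)⁻¹ = g2cV (-c) (-d) (-e) := by
  apply inv_eq_of_mul_eq_one_right
  rw [g2cV_mul, add_neg_cancel, add_neg_cancel, add_neg_cancel, g2cV_zero]

theorem g2c_mem_ge (k r : ℕ) (h1 : 6 ≤ r) (h2 : r < 12) (hk : k ≤ r) (t : F) :
    xU chevG2 g2c_mem r t ∈ Subgroup.closure (geGen F chevG2 k) :=
  Subgroup.subset_closure ⟨r, t, g2c_pos h1 h2, hk, rfl⟩

theorem g2cV_mem9 (c d e : F) : g2cV c d e ∈ Subgroup.closure (geGen F chevG2 9) :=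
  mul_mem (mul_mem (g2c_mem_ge 9 9 (by norm_num) (by norm_num) (le_refl _) c)
    (g2c_mem_ge 9 10 (by norm_num) (by norm_num) (by norm_num) d))
    (g2c_mem_ge 9 11 (by norm_num) (by norm_num) (by norm_num) e)

theorem g2c_V9_form (y : GL chevG2.Idx F) (hy : y ∈ Subgroup.closure (geGen F chevG2 9)) :
    ∃ c d e : F, y = g2cV c d e := by
  induction hy using Subgroup.closure_induction with
  | mem x hx =>
    obtain ⟨s, u, hs, hks, hg⟩ := hx
    obtain ⟨hs6, hs12⟩ := g2c_pos_ge hs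
    rw [eq_xU chevG2 g2c_mem s u x hg]
    have h3 : s = 9 ∨ s = 10 ∨ s = 11 := by omega
    rcases h3 with rfl | rfl | rfl
    · exact ⟨u, 0, 0, by unfold g2cV; rw [xU_zero, xU_zero, mul_one, mul_one]⟩
    · exact ⟨0, u, 0, by unfold g2cV; rw [xU_zero, xU_zero, mul_one, one_mul]⟩
    · exact ⟨0, 0, u, by unfold g2cV; rw [xU_zero, xU_zero, one_mul, one_mul]⟩
  | one => exact ⟨0, 0, 0, g2cV_zero.symm⟩
  | mul x y _ _ hx hy =>
    obtain ⟨c, d, e, rfl⟩ := hx
    obtain ⟨c', d', e', rfl⟩ := hy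
    exact ⟨_, _, _, g2cV_mul c d e c' d' e'⟩
  | inv x _ hx =>
    obtain ⟨c, d, e, rfl⟩ := hx
    exact ⟨_, _, _, g2cV_inv c d e⟩

theorem g2c_x_zero_of_ge (r : ℕ) (h1 : 6 ≤ r) (h2 : r < 12) (t : F)
    (h : xU chevG2 g2c_mem r t ∈ Subgroup.closure (geGen F chevG2 (r + 1))) : t = 0 := by
  obtain ⟨hnx, hcert, htri, hup, hcomm⟩ := certs_of_mem F chevG2 g2c_mem
  exact xU_not_mem_ge chevG2 g2c_mem htri negRevOK_G2 gcdOK_G2 r (g2c_pos h1 h2) t h

theorem g2cV_mem10 (c d e : F) (h : g2cV c d e ∈ Subgroup.closure (geGen F chevG2 10)) :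
    c = 0 := by
  apply g2c_x_zero_of_ge 9 (by norm_num) (by norm_num)
  have e1 : xU chevG2 g2c_mem 9 c = g2cV c d e * (xU chevG2 g2c_mem 11 e)⁻¹ *
      (xU chevG2 g2c_mem 10 d)⁻¹ := by
    unfold g2cV
    group
  rw [e1]
  exact mul_mem (mul_mem h (inv_mem (g2c_mem_ge 10 11 (by norm_num) (by norm_num) (by norm_num) e)))
    (inv_mem (g2c_mem_ge 10 10 (by norm_num) (by norm_num) (le_refl _) d))

theorem g2cV_eq_one (c d e : F) (h : g2cV c d e = 1) : c = 0 ∧ d = 0 ∧ e = 0 := by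
  have hc : c = 0 := g2cV_mem10 c d e (by rw [h]; exact one_mem _)
  subst hc
  unfold g2cV at h
  rw [xU_zero, one_mul] at h
  have hd : d = 0 := by
    apply g2c_x_zero_of_ge 10 (by norm_num) (by norm_num)
    have e1 : xU chevG2 g2c_mem 10 d = (xU chevG2 g2c_mem 11 e)⁻¹ := eq_inv_of_mul_eq_one_left h
    rw [e1]
    exact inv_mem (g2c_mem_ge 11 11 (by norm_num) (by norm_num) (le_refl _) e)
  subst hd
  rw [xU_zero, one_mul] at h
  exact ⟨rfl, rfl, xU_eq_one chevG2 g2c_mem 11 (g2c_lt (by norm_num)) e h⟩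

theorem g2cV_inj (c d e c' d' e' : F) (h : g2cV c d e = g2cV c' d' e') :
    c = c' ∧ d = d' ∧ e = e' := by
  have h1 : g2cV (c + -c') (d + -d') (e + -e') = 1 := by
    rw [← g2cV_mul, ← g2cV_inv, h, mul_inv_cancel]
  obtain ⟨a1, a2, a3⟩ := g2cV_eq_one _ _ _ h1
  exact ⟨by linear_combination a1, by linear_combination a2, by linear_combination a3⟩

end Cfsg.Agent.Lib.helper11
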