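import Cfsg.Agent.Lib.helper11d.G2c1

/-! The action of `N` on the roots of `G₂` through an explicit list of the twelve Weyl group
elements, and the stabiliser of the root `2a+b`. -/

set_option autoImplicit false

namespace Cfsg.Agent.Lib.helper11

open Cfsg Cfsg.Lie Cfsg.Agent.Lib.helper2
open scoped Pointwise

variable {F : Type*} [Field F]

def g2cRef (i : ℕ) : List ℕ := (List.range 12).map (chevG2.reflectRoot i)

def g2cComp (l l' : List ℕ) : List ℕ := (List.range 12).map (fun r => l.getD (l'.getD r 0) 0)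

/-- the twelve elements of the Weyl group of `G₂` as lists of images of the roots -/
def g2cW : List (List ℕ) :=
  let a := g2cRef 0
  let b := g2cRef 1
  let ab := g2cComp a b
  let ba := g2cComp b a
  let aba := g2cComp a ba
  let bab := g2cComp b ab
  let abab := g2cComp a bab
  let baba := g2cComp b aba
  let ababa := g2cComp a baba
  let babab := g2cComp b abab
  [List.range 12, a, b, ab, ba, aba, bab, abab, baba, ababa, babab, g2cComp a babab]

theorem g2c_rank : chevG2.rank = 2 := by decide +kernel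

theorem g2cW_id : List.range 12 ∈ g2cW := by decide +kernel

theorem g2cW_ref : ∀ i < 2, g2cRef i ∈ g2cW := by decide +kernel

theorem g2cW_comp : ∀ l ∈ g2cW, ∀ l' ∈ g2cW, g2cComp l l' ∈ g2cW := by decide +kernel

theorem g2cW_lt : ∀ l ∈ g2cW, ∀ r < 12, l.getD r 0 < 12 := by decide +kernel

theorem g2cComp_getD : ∀ l ∈ g2cW, ∀ l' ∈ g2cW, ∀ r < 12,
    (g2cComp l l').getD r 0 = l.getD (l'.getD r 0) 0 := by decide +kernel

theorem g2cRef_getD : ∀ i < 2, ∀ r < 12, (g2cRef i).getD r 0 = chevG2.reflectRoot i r := by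
  decide +kernel

theorem g2cId_getD : ∀ r < 12, (List.range 12).getD r 0 = r := by decide +kernel

theorem g2cW_len : ∀ l ∈ g2cW, l.getD 9 0 ∈ [7, 8, 9, 4, 3, 2] ∧
    l.getD 10 0 ∈ [6, 10, 11, 5, 1, 0] ∧ l.getD 11 0 ∈ [6, 10, 11, 5, 1, 0] := by decide +kernel

theorem g2cW_stab : ∀ l ∈ g2cW, l.getD 9 0 = 9 → (l.getD 7 0 = 7 ∧ l.getD 6 0 = 6) ∨
    (l.getD 7 0 = 8 ∧ l.getD 8 0 = 7 ∧ l.getD 6 0 = 5 ∧ l.getD 5 0 = 6 ∧ l.getD 10 0 = 11 ∧
      l.getD 11 0 = 10) := by decide +kernel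

/-- `n` acts on the root subgroups through an element of the list `g2cW` -/
def G2cAct (n : GL chevG2.Idx F) : Prop :=
  ∃ l ∈ g2cW, ∀ r < 12, ∃ c : F, c ≠ 0 ∧ ∀ t : F,
    n * xU chevG2 g2c_mem r t * n⁻¹ = xU chevG2 g2c_mem (l.getD r 0) (c * t)

theorem g2cAct_diag (h : GL chevG2.Idx F) (hh : h ∈ chevG2.diagonalSubgroup F) : G2cAct h := by
  obtain ⟨hnx, hcert, htri, hup, hcomm⟩ := certs_of_mem F chevG2 g2c_mem
  obtain ⟨χ, -, hχ⟩ := diag_conj_x chevG2 g2c_mem hnx hcert h hh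
  refine ⟨List.range 12, g2cW_id, fun r hr => ⟨(χ r : F), Units.ne_zero _, fun t => ?_⟩⟩
  rw [g2cId_getD r hr]
  exact hχ r (g2c_lt hr) t

theorem g2cAct_nU (i : ℕ) (hi : i < 2) :
    G2cAct (nU chevG2 g2c_mem (chevG2.simple i) (1 : F)) := by
  obtain ⟨hnx, hcert, htri, hup, hcomm⟩ := certs_of_mem F chevG2 g2c_mem
  have hi' : i < chevG2.rank := by
    rw [g2c_rank]
    exact hi
  have hN := ok_of_mem chevG2 g2c_mem i hi'
  refine ⟨g2cRef i, g2cW_ref i hi, fun r hr => ⟨((eta chevG2 i r : ℤ) : F),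
    eta_ne_zero chevG2 i r hN (g2c_lt hr), fun t => ?_⟩⟩
  rw [g2cRef_getD i hi r hr]
  exact nU_conj_x chevG2 g2c_mem hnx i r hi' (g2c_lt hr) t

theorem g2cAct_nU_inv (i : ℕ) (hi : i < 2) :
    G2cAct (nU chevG2 g2c_mem (chevG2.simple i) (1 : F))⁻¹ := by
  obtain ⟨hnx, hcert, htri, hup, hcomm⟩ := certs_of_mem F chevG2 g2c_mem
  have hi' : i < chevG2.rank := by
    rw [g2c_rank]
    exact hi
  have hN := ok_of_mem chevG2 g2c_mem i hi'
  have hw := (hnx i hi').1
  refine ⟨g2cRef i, g2cW_ref i hi, fun r hr =>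
    ⟨((eta chevG2 i (chevG2.reflectRoot i r) : ℤ) : F),
      eta_ne_zero chevG2 i _ hN (refl_lt chevG2 i r hw (g2c_lt hr)), fun t => ?_⟩⟩
  rw [g2cRef_getD i hi r hr, inv_inv]
  exact nU_inv_conj_x chevG2 g2c_mem hnx i r hi' (g2c_lt hr) t

theorem g2cAct_one : G2cAct (1 : GL chevG2.Idx F) :=
  ⟨List.range 12, g2cW_id, fun r hr => ⟨1, one_ne_zero, fun t => by
    rw [g2cId_getD r hr, one_mul, one_mul, inv_one, mul_one]⟩⟩

theorem g2cAct_mul (x y : GL chevG2.Idx F) (hx : G2cAct x) (hy : G2cAct y) : G2cAct (x * y) := by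
  obtain ⟨l, hl, h1⟩ := hx
  obtain ⟨l', hl', h2⟩ := hy
  refine ⟨g2cComp l l', g2cW_comp l hl l' hl', fun r hr => ?_⟩
  obtain ⟨c, hc, hcm⟩ := h2 r hr
  obtain ⟨d, hd, hdn⟩ := h1 _ (g2cW_lt l' hl' r hr)
  refine ⟨d * c, mul_ne_zero hd hc, fun t => ?_⟩
  have e : x * y * xU chevG2 g2c_mem r t * (x * y)⁻¹ =
      x * (y * xU chevG2 g2c_mem r t * y⁻¹) * x⁻¹ := by group
  rw [e, hcm, hdn, mul_assoc, g2cComp_getD l hl l' hl' r hr]

theorem g2cAct_of_mem (n : GL chevG2.Idx F) (hn : n ∈ chevG2.monomialSubgroup F) : G2cAct n := by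
  obtain ⟨hnx, hcert, htri, hup, hcomm⟩ := certs_of_mem F chevG2 g2c_mem
  have hn' := mono_le_monoGen chevG2 g2c_mem hnx hcert hn
  clear hn
  induction hn' using Subgroup.closure_induction'' with
  | mem x hx =>
    rcases hx with ⟨r, t, hr, ht, hg⟩ | ⟨i, hi, hg⟩
    · rw [eq_hU chevG2 g2c_mem r t x hg]
      exact g2cAct_diag _ (hU_mem_diag chevG2 g2c_mem r hr t ht)
    · rw [eq_nU chevG2 g2c_mem _ 1 x hg]
      exact g2cAct_nU i (by rwa [g2c_rank] at hi)
  | inv_mem x hx =>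
    rcases hx with ⟨r, t, hr, ht, hg⟩ | ⟨i, hi, hg⟩
    · rw [eq_hU chevG2 g2c_mem r t x hg]
      exact g2cAct_diag _ (inv_mem (hU_mem_diag chevG2 g2c_mem r hr t ht))
    · rw [eq_nU chevG2 g2c_mem _ 1 x hg]
      exact g2cAct_nU_inv i (by rwa [g2c_rank] at hi)
  | one => exact g2cAct_one
  | mul x y _ _ hx hy => exact g2cAct_mul x y hx hy

theorem g2c_ge_mono (k k' : ℕ) (h : k ≤ k') :
    Subgroup.closure (geGen F chevG2 k') ≤ Subgroup.closure (geGen F chevG2 k) := by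
  apply Subgroup.closure_mono
  rintro g ⟨r, u, hr, hk, hg⟩
  exact ⟨r, u, hr, by omega, hg⟩

/-- `x_a(α), x_{a+b}(α) ∉ ⟨X_6, X_9, X_10, X_11⟩` -/
theorem g2c_not_M (s : ℕ) (hs : s = 7 ∨ s = 8) (α : F)
    (h : xU chevG2 g2c_mem s α ∈
      Subgroup.closure (geGen F chevG2 9) ⊔ chevG2.rootSubgroup F 6) : α = 0 := by
  have hnorm : chevG2.rootSubgroup F 6 ≤
      Subgroup.normalizer (Subgroup.closure (geGen F chevG2 9) : Set _) := by
    unfold ChevalleyDatum.rootSubgroup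
    rw [Subgroup.closure_le]
    rintro g ⟨t, hg⟩
    rw [eq_xU chevG2 g2c_mem 6 t g hg]
    exact g2c_x_norm 9 6 (g2c_pos (by norm_num) (by norm_num)) t
  have h4 : (↑(Subgroup.closure (geGen F chevG2 9) ⊔ chevG2.rootSubgroup F 6) :
      Set (GL chevG2.Idx F)) = (↑(Subgroup.closure (geGen F chevG2 9)) : Set (GL chevG2.Idx F)) *
        (↑(chevG2.rootSubgroup F 6) : Set (GL chevG2.Idx F)) :=
    Subgroup.coe_mul_of_right_le_normalizer_left _ _ hnorm
  have h' : xU chevG2 g2c_mem s α ∈ (↑(Subgroup.closure (geGen F chevG2 9) ⊔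
      chevG2.rootSubgroup F 6) : Set (GL chevG2.Idx F)) := h
  rw [h4] at h'
  obtain ⟨v, hv, x, hx, e⟩ := h'
  have hv : v ∈ Subgroup.closure (geGen F chevG2 9) := hv
  have hx : x ∈ chevG2.rootSubgroup F 6 := hx
  obtain ⟨β, rfl⟩ := mem_rootSubgroup chevG2 g2c_mem 6 (g2c_lt (by norm_num)) x hx
  have e : v * xU chevG2 g2c_mem 6 β = xU chevG2 g2c_mem s α := e
  have hβ : β = 0 := by
    apply g2c_x_zero_of_ge 6 (by norm_num) (by norm_num)
    have e2 : xU chevG2 g2c_mem 6 β = v⁻¹ * xU chevG2 g2c_mem s α := by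
      rw [← e]
      group
    rw [e2]
    apply mul_mem (inv_mem (g2c_ge_mono 7 9 (by norm_num) hv))
    rcases hs with rfl | rfl
    · exact g2c_mem_ge 7 7 (by norm_num) (by norm_num) (le_refl _) α
    · exact g2c_mem_ge 7 8 (by norm_num) (by norm_num) (by norm_num) α
  subst hβ
  rw [xU_zero, mul_one] at e
  subst e
  rcases hs with rfl | rfl
  · exact g2c_x_zero_of_ge 7 (by norm_num) (by norm_num) α (g2c_ge_mono 8 9 (by norm_num) hv)
  · exact g2c_x_zero_of_ge 8 (by norm_num) (by norm_num) α hv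

/-- an element of `N` conjugating an element of `X_9 X_10 X_11 ∖ X_10 X_11` into
`X_9 X_10 X_11` fixes the root `2a+b` -/
theorem g2c_pi9 (n : GL chevG2.Idx F) (l : List ℕ) (hl : l ∈ g2cW)
    (hact : ∀ r < 12, ∃ c : F, c ≠ 0 ∧ ∀ t : F,
      n * xU chevG2 g2c_mem r t * n⁻¹ = xU chevG2 g2c_mem (l.getD r 0) (c * t))
    (c d e : F) (hc : c ≠ 0)
    (hy : n * g2cV c d e * n⁻¹ ∈ Subgroup.closure (geGen F chevG2 9)) : l.getD 9 0 = 9 := by
  obtain ⟨hnx, hcert, htri, hup, hcomm⟩ := certs_of_mem F chevG2 g2c_mem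
  obtain ⟨h9, h10, h11⟩ := g2cW_len l hl
  obtain ⟨c9, hc9, e9⟩ := hact 9 (by norm_num)
  obtain ⟨c10, hc10, e10⟩ := hact 10 (by norm_num)
  obtain ⟨c11, hc11, e11⟩ := hact 11 (by norm_num)
  have hMU : Subgroup.closure (geGen F chevG2 9) ⊔ chevG2.rootSubgroup F 6 ≤
      chevG2.posUnipotent F := by
    apply sup_le
    · rw [Subgroup.closure_le]
      rintro g ⟨s, u, hs, -, hg⟩
      rw [eq_xU chevG2 g2c_mem s u g hg]
      exact xU_mem_pos chevG2 g2c_mem s hs u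
    · unfold ChevalleyDatum.rootSubgroup
      rw [Subgroup.closure_le]
      rintro g ⟨t, hg⟩
      rw [eq_xU chevG2 g2c_mem 6 t g hg]
      exact xU_mem_pos chevG2 g2c_mem 6 (g2c_pos (by norm_num) (by norm_num)) t
  have hUB : chevG2.posUnipotent F ≤ chevG2.borelSubgroup F := le_sup_left
  have hlong : ∀ q ∈ [6, 10, 11, 5, 1, 0], ∀ z : F,
      xU chevG2 g2c_mem q z ∈ Subgroup.closure (geGen F chevG2 9) ⊔ chevG2.rootSubgroup F 6 ∨
        xU chevG2 g2c_mem q z ∈ chevG2.negUnipotent F := by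
    intro q hq z
    simp only [List.mem_cons, List.not_mem_nil, or_false] at hq
    rcases hq with rfl | rfl | rfl | rfl | rfl | rfl
    · left
      exact Subgroup.mem_sup_right (xU_mem_rootSubgroup chevG2 g2c_mem 6 z)
    · left
      exact Subgroup.mem_sup_left (g2c_mem_ge 9 10 (by norm_num) (by norm_num) (by norm_num) z)
    · left
      exact Subgroup.mem_sup_left (g2c_mem_ge 9 11 (by norm_num) (by norm_num) (by norm_num) z)
    · right
      exact xU_mem_neg chevG2 g2c_mem 5 (g2c_neg (by norm_num)) z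
    · right
      exact xU_mem_neg chevG2 g2c_mem 1 (g2c_neg (by norm_num)) z
    · right
      exact xU_mem_neg chevG2 g2c_mem 0 (g2c_neg (by norm_num)) z
  have hf10 : n * xU chevG2 g2c_mem 10 d * n⁻¹ ∈
      Subgroup.closure (geGen F chevG2 9) ⊔ chevG2.rootSubgroup F 6 ∨
        n * xU chevG2 g2c_mem 10 d * n⁻¹ ∈ chevG2.negUnipotent F := by
    rw [e10]
    exact hlong _ h10 _
  have hf11 : n * xU chevG2 g2c_mem 11 e * n⁻¹ ∈
      Subgroup.closure (geGen F chevG2 9) ⊔ chevG2.rootSubgroup F 6 ∨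
        n * xU chevG2 g2c_mem 11 e * n⁻¹ ∈ chevG2.negUnipotent F := by
    rw [e11]
    exact hlong _ h11 _
  have key : ∃ w ∈ Subgroup.closure (geGen F chevG2 10),
      n * w * n⁻¹ ∈ chevG2.negUnipotent F ∧
      n * xU chevG2 g2c_mem 9 c * n⁻¹ * (n * w * n⁻¹) ∈
        Subgroup.closure (geGen F chevG2 9) ⊔ chevG2.rootSubgroup F 6 := by
    have hyM : n * g2cV c d e * n⁻¹ ∈
        Subgroup.closure (geGen F chevG2 9) ⊔ chevG2.rootSubgroup F 6 := Subgroup.mem_sup_left hy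
    have m10 := g2c_mem_ge (F := F) 10 10 (by norm_num) (by norm_num) (le_refl _) d
    have m11 := g2c_mem_ge (F := F) 10 11 (by norm_num) (by norm_num) (by norm_num) e
    rcases hf10 with a | a <;> rcases hf11 with b | b
    · refine ⟨1, one_mem _, ?_, ?_⟩
      · rw [mul_one, mul_inv_cancel]
        exact one_mem _
      · have e1 : n * xU chevG2 g2c_mem 9 c * n⁻¹ * (n * 1 * n⁻¹) =
            n * g2cV c d e * n⁻¹ * (n * xU chevG2 g2c_mem 11 e * n⁻¹)⁻¹ *
              (n * xU chevG2 g2c_mem 10 d * n⁻¹)⁻¹ := by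
          unfold g2cV
          group
        rw [e1]
        exact mul_mem (mul_mem hyM (inv_mem b)) (inv_mem a)
    · refine ⟨xU chevG2 g2c_mem 11 e, m11, b, ?_⟩
      have e1 : n * xU chevG2 g2c_mem 9 c * n⁻¹ * (n * xU chevG2 g2c_mem 11 e * n⁻¹) =
          n * g2cV c d e * n⁻¹ * (n * xU chevG2 g2c_mem 10 d * n⁻¹)⁻¹ := by
        unfold g2cV
        have hc1 := g2c_c1011 (F := F) d e
        calc n * xU chevG2 g2c_mem 9 c * n⁻¹ * (n * xU chevG2 g2c_mem 11 e * n⁻¹) =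
              n * (xU chevG2 g2c_mem 9 c * (xU chevG2 g2c_mem 11 e * xU chevG2 g2c_mem 10 d)) *
                n⁻¹ * (n * xU chevG2 g2c_mem 10 d * n⁻¹)⁻¹ := by group
          _ = n * (xU chevG2 g2c_mem 9 c * (xU chevG2 g2c_mem 10 d * xU chevG2 g2c_mem 11 e)) *
                n⁻¹ * (n * xU chevG2 g2c_mem 10 d * n⁻¹)⁻¹ := by rw [hc1]
          _ = _ := by group
      rw [e1]
      exact mul_mem hyM (inv_mem a)
    · refine ⟨xU chevG2 g2c_mem 10 d, m10, a, ?_⟩
      have e1 : n * xU chevG2 g2c_mem 9 c * n⁻¹ * (n * xU chevG2 g2c_mem 10 d * n⁻¹) =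
          n * g2cV c d e * n⁻¹ * (n * xU chevG2 g2c_mem 11 e * n⁻¹)⁻¹ := by
        unfold g2cV
        group
      rw [e1]
      exact mul_mem hyM (inv_mem b)
    · refine ⟨xU chevG2 g2c_mem 10 d * xU chevG2 g2c_mem 11 e, mul_mem m10 m11, ?_, ?_⟩
      · have e1 : n * (xU chevG2 g2c_mem 10 d * xU chevG2 g2c_mem 11 e) * n⁻¹ =
            (n * xU chevG2 g2c_mem 10 d * n⁻¹) * (n * xU chevG2 g2c_mem 11 e * n⁻¹) := by group
        rw [e1]
        exact mul_mem a b
      · have e1 : n * xU chevG2 g2c_mem 9 c * n⁻¹ *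
            (n * (xU chevG2 g2c_mem 10 d * xU chevG2 g2c_mem 11 e) * n⁻¹) =
            n * g2cV c d e * n⁻¹ := by
          unfold g2cV
          group
        rw [e1]
        exact hyM
  obtain ⟨w, hw10, hwneg, hwM⟩ := key
  have claim2 : ∀ s, (s = 7 ∨ s = 8) → l.getD 9 0 = s → False := by
    intro s hs h
    rw [e9, h] at hwM
    have hf9U : xU chevG2 g2c_mem s (c9 * c) ∈ chevG2.posUnipotent F :=
      xU_mem_pos chevG2 g2c_mem s (g2c_pos (by omega) (by omega)) _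
    have h1 : n * w * n⁻¹ ∈ chevG2.posUnipotent F := by
      have e1 : n * w * n⁻¹ = (xU chevG2 g2c_mem s (c9 * c))⁻¹ *
          (xU chevG2 g2c_mem s (c9 * c) * (n * w * n⁻¹)) := by group
      rw [e1]
      exact mul_mem (inv_mem hf9U) (hMU hwM)
    have h2 := borel_neg_eq_one chevG2 g2c_mem hnx hcert htri _ (hUB h1) hwneg
    rw [h2, mul_one] at hwM
    exact mul_ne_zero hc9 hc (g2c_not_M s hs _ hwM)
  have claim1 : ∀ s, s < 6 → l.getD 9 0 = s → False := by
    intro s hs h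
    have hf9 : n * xU chevG2 g2c_mem 9 c * n⁻¹ ∈ chevG2.negUnipotent F := by
      rw [e9, h]
      exact xU_mem_neg chevG2 g2c_mem s (g2c_neg hs) _
    have h2 := borel_neg_eq_one chevG2 g2c_mem hnx hcert htri _ (hUB (hMU hwM))
      (mul_mem hf9 hwneg)
    have h3 : xU chevG2 g2c_mem 9 c = w⁻¹ := by
      have e1 : xU chevG2 g2c_mem 9 c * w =
          n⁻¹ * (n * xU chevG2 g2c_mem 9 c * n⁻¹ * (n * w * n⁻¹)) * n := by group
      rw [h2] at e1
      have e2 : xU chevG2 g2c_mem 9 c * w = 1 := by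
        rw [e1]
        group
      exact eq_inv_of_mul_eq_one_left e2
    apply hc
    apply g2c_x_zero_of_ge 9 (by norm_num) (by norm_num)
    rw [h3]
    exact inv_mem hw10
  simp only [List.mem_cons, List.not_mem_nil, or_false] at h9
  rcases h9 with h | h | h | h | h | h
  · exact (claim2 7 (Or.inl rfl) h).elim
  · exact (claim2 8 (Or.inr rfl) h).elim
  · exact h
  · exact (claim1 4 (by norm_num) h).elim
  · exact (claim1 3 (by norm_num) h).elim
  · exact (claim1 2 (by norm_num) h).elim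

end Cfsg.Agent.Lib.helper11
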