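import Cfsg.Agent.Lib.helper11d.G2c2
import Cfsg.Agent.Lib.helper11d.CenOK

/-! The centralizer of the short root element `x_{2a+b}(1)` in `G₂(F)` when `3 ≠ 0`. -/

set_option autoImplicit false

namespace Cfsg.Agent.Lib.helper11

open Cfsg Cfsg.Lie Cfsg.Agent.Lib.helper2
open scoped Pointwise

variable {F : Type*} [Field F]

/-- the candidate centralizer -/
def g2cC (F : Type*) [Field F] : Subgroup (GL chevG2.Idx F) :=
  chevG2.rootSubgroup F 9 ⊔ chevG2.rootSubgroup F 10 ⊔ chevG2.rootSubgroup F 11 ⊔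
    chevG2.rootSubgroup F 6 ⊔ chevG2.rootSubgroup F 5

theorem g2cC_x (s : ℕ) (hs : s = 9 ∨ s = 10 ∨ s = 11 ∨ s = 6 ∨ s = 5) (u : F) :
    xU chevG2 g2c_mem s u ∈ g2cC F := by
  have h := xU_mem_rootSubgroup chevG2 g2c_mem s u
  unfold g2cC
  rcases hs with rfl | rfl | rfl | rfl | rfl
  · exact Subgroup.mem_sup_left (Subgroup.mem_sup_left (Subgroup.mem_sup_left
      (Subgroup.mem_sup_left h)))
  · exact Subgroup.mem_sup_left (Subgroup.mem_sup_left (Subgroup.mem_sup_left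
      (Subgroup.mem_sup_right h)))
  · exact Subgroup.mem_sup_left (Subgroup.mem_sup_left (Subgroup.mem_sup_right h))
  · exact Subgroup.mem_sup_left (Subgroup.mem_sup_right h)
  · exact Subgroup.mem_sup_right h

theorem g2c_cent_gen (s : ℕ) (hs : s = 9 ∨ s = 10 ∨ s = 11 ∨ s = 6 ∨ s = 5) (u : F) :
    xU chevG2 g2c_mem s u * xU chevG2 g2c_mem 9 1 = xU chevG2 g2c_mem 9 1 * xU chevG2 g2c_mem s u := by
  rcases hs with rfl | rfl | rfl | rfl | rfl
  · rw [xU_add chevG2 g2c_mem 9 (g2c_lt (by norm_num)),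
      xU_add chevG2 g2c_mem 9 (g2c_lt (by norm_num)), add_comm]
  · exact g2c_c910 1 u
  · exact g2c_c911 1 u
  · exact g2c_comm 9 6 (by norm_num) (by norm_num) (by norm_num) (by norm_num)
      (by decide +kernel) 1 u
  · exact g2c_comm 9 5 (by norm_num) (by norm_num) (by norm_num) (by norm_num)
      (by decide +kernel) 1 u

theorem g2cC_le : g2cC F ≤ chevG2.group F ⊓ Subgroup.centralizer {xU chevG2 g2c_mem 9 (1 : F)} := by
  have key : ∀ s, (s = 9 ∨ s = 10 ∨ s = 11 ∨ s = 6 ∨ s = 5) → chevG2.rootSubgroup F s ≤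
      chevG2.group F ⊓ Subgroup.centralizer {xU chevG2 g2c_mem 9 (1 : F)} := by
    intro s hs
    unfold ChevalleyDatum.rootSubgroup
    rw [Subgroup.closure_le]
    rintro g ⟨u, hg⟩
    rw [eq_xU chevG2 g2c_mem s u g hg]
    refine ⟨xU_mem_group chevG2 g2c_mem s u, Subgroup.mem_centralizer_iff.mpr ?_⟩
    intro y hy
    rw [Set.mem_singleton_iff] at hy
    subst hy
    exact (g2c_cent_gen s hs u).symm
  unfold g2cC
  exact sup_le (sup_le (sup_le (sup_le (key 9 (by simp)) (key 10 (by simp))) (key 11 (by simp)))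
    (key 6 (by simp))) (key 5 (by simp))

/-- an element of `N` keeping both fundamental root subgroups inside `U` lies in `H` -/
theorem g2c_diag_of_pos (n : GL chevG2.Idx F) (hn : n ∈ chevG2.monomialSubgroup F)
    (hp : ∀ i < 2, n * xU chevG2 g2c_mem (chevG2.simple i) 1 * n⁻¹ ∈ chevG2.posUnipotent F) :
    n ∈ chevG2.diagonalSubgroup F := by
  obtain ⟨hnx, hcert, htri, hup, hcm'⟩ := certs_of_mem F chevG2 g2c_mem
  obtain ⟨hBG, hNG, -⟩ := Cfsg.Agent.S1043.main0 (F := F) chevG2 g2c_mem hnx hcert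
  obtain ⟨P, hB, hN, hS⟩ := exists_bn chevG2 g2c_mem hnx hcert htri hup hcm'
  have memB : ∀ x : ↥(chevG2.group F), x ∈ P.B ↔
      (x : GL chevG2.Idx F) ∈ chevG2.borelSubgroup F := by
    intro x
    rw [hB, Subgroup.mem_subgroupOf]
  have memN : ∀ x : ↥(chevG2.group F), x ∈ P.N ↔
      (x : GL chevG2.Idx F) ∈ chevG2.monomialSubgroup F := by
    intro x
    rw [hN, Subgroup.mem_subgroupOf]
  have hUB : chevG2.posUnipotent F ≤ chevG2.borelSubgroup F := le_sup_left
  have hninv : n⁻¹ ∈ chevG2.monomialSubgroup F := inv_mem hn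
  have key : ∀ nN : P.N, ((nN : ↥(chevG2.group F)) : GL chevG2.Idx F) = n⁻¹ →
      n ∈ chevG2.diagonalSubgroup F := by
    intro nN hnN
    by_cases hw : BN.π P nN = 1
    · rw [BN.π_eq_one_iff, memB, hnN] at hw
      have h1 : n⁻¹ ∈ chevG2.borelSubgroup F ⊓ chevG2.monomialSubgroup F := ⟨hw, hninv⟩
      rw [borel_inf_mono chevG2 g2c_mem hnx hcert htri] at h1
      have := inv_mem h1
      rwa [inv_inv] at this
    · exfalso
      obtain ⟨l, hl, hlen'⟩ := BN.exists_reduced P (BN.π P nN)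
      cases l with
      | nil => exact absurd hl.symm hw
      | cons s l' =>
        have hred : BN.Red P (s :: l') := by
          unfold BN.Red
          rw [hl, hlen']
        have hQ := BN.Red.Q_head P hred
        rw [hl] at hQ
        have hsS : (s : ↥(chevG2.group F)) ∈ {n : ↥(chevG2.group F) | ∃ i < chevG2.rank,
            ((n : GL chevG2.Idx F) : Matrix chevG2.Idx chevG2.Idx F) =
              chevG2.nMat F (chevG2.simple i) 1} := by
          rw [← hS]
          exact s.2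
        obtain ⟨i, hi, hsi⟩ := hsS
        have hs : ((s : ↥(chevG2.group F)) : GL chevG2.Idx F) =
            nU chevG2 g2c_mem (chevG2.simple i) 1 := Units.ext (by rw [hsi, nU_val])
        have hpos : chevG2.IsPosRoot (chevG2.simple i) := (hcert.2 i hi).2
        have h3 := Q_neg chevG2 g2c_mem hnx hcert htri hup hcm' P hB hN i hi s hs nN hQ 1
        rw [hnN, inv_inv] at h3
        have hi2 : i < 2 := by rwa [g2c_rank] at hi
        have h5 := borel_neg_eq_one chevG2 g2c_mem hnx hcert htri _ (hUB (hp i hi2)) h3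
        have h6 : xU chevG2 g2c_mem (chevG2.simple i) (1 : F) = 1 := by
          have h7 : xU chevG2 g2c_mem (chevG2.simple i) (1 : F) =
              n⁻¹ * (n * xU chevG2 g2c_mem (chevG2.simple i) 1 * n⁻¹) * n := by group
          rw [h7, h5]
          group
        exact one_ne_zero (α := F) (xU_eq_one chevG2 g2c_mem _ hpos.1 _ h6)
  exact key ⟨⟨n⁻¹, hNG hninv⟩, (memN _).mpr hninv⟩ rfl

theorem g2c_conj8 (χ u : F) :
    xU chevG2 g2c_mem 8 u * xU chevG2 g2c_mem 9 χ * (xU chevG2 g2c_mem 8 u)⁻¹ = xU chevG2 g2c_mem 9 χ * xU chevG2 g2c_mem 11 (3 * u * χ) := by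
  obtain ⟨hnx, hcert, htri, hup, hcomm⟩ := certs_of_mem F chevG2 g2c_mem
  have h := xp_conj chevG2 g2c_mem 8 9 (hcomm 8 (g2c_lt (by norm_num)) 9 (g2c_lt (by norm_num))
    (by norm_num) (by rw [g2c_negidx_tab 8 (by norm_num)]; norm_num)) (-u) χ
  rw [xU_inv, neg_neg] at h
  rw [← xU_inv chevG2 g2c_mem 8 u] at h
  rw [h]
  congr 1
  have hct : chevG2.commTerms 8 9 = [(11, 3, 1, 1)] := by decide +kernel
  unfold ChevalleyDatum.commWord wordU
  rw [hct]
  simp only [List.map_cons, List.map_nil, List.prod_cons, List.prod_nil, mul_one]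
  congr 1
  push_cast
  ring

theorem g2c_conj7 (χ u : F) :
    xU chevG2 g2c_mem 7 u * xU chevG2 g2c_mem 9 χ * (xU chevG2 g2c_mem 7 u)⁻¹ = xU chevG2 g2c_mem 9 χ * xU chevG2 g2c_mem 10 (3 * u * χ) := by
  obtain ⟨hnx, hcert, htri, hup, hcomm⟩ := certs_of_mem F chevG2 g2c_mem
  have h := xp_conj chevG2 g2c_mem 7 9 (hcomm 7 (g2c_lt (by norm_num)) 9 (g2c_lt (by norm_num))
    (by norm_num) (by rw [g2c_negidx_tab 7 (by norm_num)]; norm_num)) (-u) χ
  rw [xU_inv, neg_neg] at h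
  rw [← xU_inv chevG2 g2c_mem 7 u] at h
  rw [h]
  congr 1
  have hct : chevG2.commTerms 7 9 = [(10, 3, 1, 1)] := by decide +kernel
  unfold ChevalleyDatum.commWord wordU
  rw [hct]
  simp only [List.map_cons, List.map_nil, List.prod_cons, List.prod_nil, mul_one]
  congr 1
  push_cast
  ring

/-- the torus part of the centralizer -/
theorem g2c_torus (h : GL chevG2.Idx F) (hh : h ∈ chevG2.diagonalSubgroup F)
    (hcomm : h * xU chevG2 g2c_mem 9 1 = xU chevG2 g2c_mem 9 1 * h) : h ∈ g2cC F := by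
  have hnx := nxAll_of_mem chevG2 g2c_mem
  have hc := hcert_of_mem chevG2 g2c_mem
  have hh' := hh
  rw [← sdiagHom_range chevG2 g2c_mem hnx hc] at hh'
  obtain ⟨c, rfl⟩ := hh'
  obtain ⟨χ, hχ, hconj⟩ := diag_conj_x chevG2 g2c_mem hnx hc _ hh
  have h1 := hconj 9 (g2c_lt (by norm_num)) 1
  rw [hcomm, mul_assoc, mul_inv_cancel, mul_one, mul_one] at h1
  have h2 : (χ 9 : F) = 1 := (fld_xU_inj chevG2 g2c_mem _ (g2c_lt (by norm_num)) _ _ h1).symm
  have h3 : (χ 9 : F) = ∏ i ∈ Finset.range chevG2.rank, ce c i ^ chevG2.cartan i 9 := by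
    have e := hχ
    rw [sdiagHom_val] at e
    have e1 := congrFun (congrFun e (Sum.inr ⟨9, g2c_lt (by norm_num)⟩))
      (Sum.inr ⟨9, g2c_lt (by norm_num)⟩)
    unfold sdiag ChevalleyDatum.charDiag at e1
    rw [Matrix.diagonal_apply_eq, Matrix.diagonal_apply_eq] at e1
    exact e1.symm
  have h4 : ce c 0 = 1 := by
    rw [h3, Finset.prod_eq_single 0] at h2
    · rw [(by decide +kernel : chevG2.cartan 0 9 = 1), zpow_one] at h2
      exact h2
    · intro i hi hne
      have hi2 : i < 2 := by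
        rw [Finset.mem_range, g2c_rank] at hi
        exact hi
      have hi1 : i = 1 := by omega
      subst hi1
      rw [(by decide +kernel : chevG2.cartan 1 9 = 0), zpow_zero]
    · intro hni
      exact absurd (Finset.mem_range.mpr (by rw [g2c_rank]; norm_num)) hni
  have h5 : sdiagHom chevG2 c =
      ((List.range chevG2.rank).map (fun i => hU chevG2 g2c_mem (chevG2.simple i) (ce c i))).prod := by
    apply Units.ext
    rw [sdiagHom_val, hprod_val, wordMat_simple_h chevG2 g2c_mem _ (fun i _ => ce_ne_zero c i)]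
  rw [h5]
  apply Subgroup.list_prod_mem
  intro x hx
  rw [List.mem_map] at hx
  obtain ⟨i, hi, rfl⟩ := hx
  have hi' := List.mem_range.mp hi
  have hi2 : i < 2 := by rwa [g2c_rank] at hi'
  have hi01 : i = 0 ∨ i = 1 := by omega
  rcases hi01 with rfl | rfl
  · rw [h4]
    have e : hU chevG2 g2c_mem (chevG2.simple 0) (1 : F) = 1 := by
      unfold hU
      rw [← nU_inv chevG2 g2c_mem hnx _ (simple_lt chevG2 hc 0 hi') 1, mul_inv_cancel]
    rw [e]
    exact one_mem _
  · have hs : chevG2.simple 1 = 6 := by decide +kernel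
    have hn5 : chevG2.neg 6 = 5 := by decide +kernel
    rw [hs]
    have key : ∀ t : F, nU chevG2 g2c_mem 6 t ∈ g2cC F := by
      intro t
      unfold nU
      rw [hn5]
      exact mul_mem (mul_mem (g2cC_x 6 (by simp) _) (g2cC_x 5 (by simp) _)) (g2cC_x 6 (by simp) _)
    exact mul_mem (key _) (key _)

/-- the centralizer inside the Borel subgroup -/
theorem g2c_B_case (h3 : (3 : F) ≠ 0) (g : GL chevG2.Idx F) (hg : g ∈ chevG2.borelSubgroup F)
    (hcm : Commute g (xU chevG2 g2c_mem 9 1)) : g ∈ g2cC F := by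
  obtain ⟨hnx, hcert, htri, hup, hcomm⟩ := certs_of_mem F chevG2 g2c_mem
  have h4 : (↑(chevG2.posUnipotent F ⊔ chevG2.diagonalSubgroup F) : Set (GL chevG2.Idx F)) =
      (↑(chevG2.posUnipotent F) : Set (GL chevG2.Idx F)) *
        (↑(chevG2.diagonalSubgroup F) : Set (GL chevG2.Idx F)) :=
    Subgroup.coe_mul_of_right_le_normalizer_left _ _
      (diag_le_normalizer_pos chevG2 g2c_mem hnx hcert)
  have hg' : g ∈ (↑(chevG2.posUnipotent F ⊔ chevG2.diagonalSubgroup F) :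
      Set (GL chevG2.Idx F)) := hg
  rw [h4] at hg'
  obtain ⟨u, hu, h, hh, rfl⟩ := hg'
  have hu : u ∈ chevG2.posUnipotent F := hu
  have hh : h ∈ chevG2.diagonalSubgroup F := hh
  have hu0 : u ∈ Subgroup.closure (geGen F chevG2 (chevG2.nroots - 6)) := by
    have hle : chevG2.posUnipotent F ≤ Subgroup.closure (geGen F chevG2 (chevG2.nroots - 6)) := by
      unfold ChevalleyDatum.posUnipotent
      apply Subgroup.closure_mono
      rintro x ⟨r, t, hr, hx⟩
      refine ⟨r, t, hr, ?_, hx⟩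
      rw [g2c_nroots]
      exact (g2c_pos_ge hr).1
    exact hle hu
  obtain ⟨τ, rfl⟩ := exists_ordW chevG2 g2c_mem (rootLen chevG2) wtcert_G2 htri hcomm 6
    (by rw [g2c_nroots]; norm_num) u hu0
  have hsfx : sfx chevG2 6 = [6, 7, 8, 9, 10, 11] := by decide +kernel
  have eu : ordW chevG2 g2c_mem τ (sfx chevG2 6) =
      xU chevG2 g2c_mem 6 (τ 6) * xU chevG2 g2c_mem 7 (τ 7) * xU chevG2 g2c_mem 8 (τ 8) * g2cV (τ 9) (τ 10) (τ 11) := by
    rw [hsfx]
    simp only [ordW_cons]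
    have e0 : ordW chevG2 g2c_mem τ [] = 1 := rfl
    rw [e0]
    unfold g2cV
    group
  rw [eu] at hcm ⊢
  obtain ⟨χ, -, hχ⟩ := diag_conj_x chevG2 g2c_mem hnx hcert h hh
  have hT : h * xU chevG2 g2c_mem 9 1 * h⁻¹ = xU chevG2 g2c_mem 9 (χ 9 : F) := by
    have := hχ 9 (g2c_lt (by norm_num)) 1
    rwa [mul_one] at this
  have c6 : xU chevG2 g2c_mem 6 (τ 6) * xU chevG2 g2c_mem 9 1 = xU chevG2 g2c_mem 9 1 * xU chevG2 g2c_mem 6 (τ 6) := g2c_cent_gen 6 (by simp) (τ 6)
  have e9 : ∀ a : F, xU chevG2 g2c_mem 9 a = g2cV a 0 0 := by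
    intro a
    unfold g2cV
    rw [xU_zero, xU_zero, mul_one, mul_one]
  have cV : g2cV (τ 9) (τ 10) (τ 11) * xU chevG2 g2c_mem 9 (χ 9 : F) =
      xU chevG2 g2c_mem 9 (χ 9 : F) * g2cV (τ 9) (τ 10) (τ 11) := by
    rw [e9, g2cV_mul, g2cV_mul]
    congr 1 <;> ring
  have key : xU chevG2 g2c_mem 7 (τ 7) * (xU chevG2 g2c_mem 8 (τ 8) * xU chevG2 g2c_mem 9 (χ 9 : F) * (xU chevG2 g2c_mem 8 (τ 8))⁻¹) * (xU chevG2 g2c_mem 7 (τ 7))⁻¹ =
      xU chevG2 g2c_mem 9 1 := by
    have h1 := hcm.eq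
    calc xU chevG2 g2c_mem 7 (τ 7) * (xU chevG2 g2c_mem 8 (τ 8) * xU chevG2 g2c_mem 9 (χ 9 : F) * (xU chevG2 g2c_mem 8 (τ 8))⁻¹) * (xU chevG2 g2c_mem 7 (τ 7))⁻¹
        = xU chevG2 g2c_mem 7 (τ 7) * (xU chevG2 g2c_mem 8 (τ 8) * (g2cV (τ 9) (τ 10) (τ 11) * xU chevG2 g2c_mem 9 (χ 9 : F) *
            (g2cV (τ 9) (τ 10) (τ 11))⁻¹) * (xU chevG2 g2c_mem 8 (τ 8))⁻¹) * (xU chevG2 g2c_mem 7 (τ 7))⁻¹ := by
          rw [cV]
          group
      _ = (xU chevG2 g2c_mem 6 (τ 6))⁻¹ * ((xU chevG2 g2c_mem 6 (τ 6) * xU chevG2 g2c_mem 7 (τ 7) * xU chevG2 g2c_mem 8 (τ 8) * g2cV (τ 9) (τ 10) (τ 11) * h) *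
            xU chevG2 g2c_mem 9 1) * (xU chevG2 g2c_mem 6 (τ 6) * xU chevG2 g2c_mem 7 (τ 7) * xU chevG2 g2c_mem 8 (τ 8) * g2cV (τ 9) (τ 10) (τ 11) * h)⁻¹ *
              xU chevG2 g2c_mem 6 (τ 6) := by
          rw [← hT]
          group
      _ = (xU chevG2 g2c_mem 6 (τ 6))⁻¹ * (xU chevG2 g2c_mem 9 1 * (xU chevG2 g2c_mem 6 (τ 6) * xU chevG2 g2c_mem 7 (τ 7) * xU chevG2 g2c_mem 8 (τ 8) *
            g2cV (τ 9) (τ 10) (τ 11) * h)) *
            (xU chevG2 g2c_mem 6 (τ 6) * xU chevG2 g2c_mem 7 (τ 7) * xU chevG2 g2c_mem 8 (τ 8) * g2cV (τ 9) (τ 10) (τ 11) * h)⁻¹ *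
              xU chevG2 g2c_mem 6 (τ 6) := by rw [h1]
      _ = (xU chevG2 g2c_mem 6 (τ 6))⁻¹ * (xU chevG2 g2c_mem 9 1 * xU chevG2 g2c_mem 6 (τ 6)) := by group
      _ = (xU chevG2 g2c_mem 6 (τ 6))⁻¹ * (xU chevG2 g2c_mem 6 (τ 6) * xU chevG2 g2c_mem 9 1) := by rw [c6]
      _ = xU chevG2 g2c_mem 9 1 := by group
  rw [g2c_conj8] at key
  have key2 : xU chevG2 g2c_mem 7 (τ 7) * (xU chevG2 g2c_mem 9 (χ 9 : F) * xU chevG2 g2c_mem 11 (3 * τ 8 * (χ 9 : F))) * (xU chevG2 g2c_mem 7 (τ 7))⁻¹ =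
      g2cV (χ 9 : F) (3 * τ 7 * (χ 9 : F)) (3 * τ 8 * (χ 9 : F)) := by
    have c711 : xU chevG2 g2c_mem 11 (3 * τ 8 * (χ 9 : F)) * xU chevG2 g2c_mem 7 (τ 7) =
        xU chevG2 g2c_mem 7 (τ 7) * xU chevG2 g2c_mem 11 (3 * τ 8 * (χ 9 : F)) :=
      g2c_comm 7 11 (by norm_num) (by norm_num) (by norm_num) (by norm_num)
        (by decide +kernel) (τ 7) _
    calc xU chevG2 g2c_mem 7 (τ 7) * (xU chevG2 g2c_mem 9 (χ 9 : F) * xU chevG2 g2c_mem 11 (3 * τ 8 * (χ 9 : F))) * (xU chevG2 g2c_mem 7 (τ 7))⁻¹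
        = (xU chevG2 g2c_mem 7 (τ 7) * xU chevG2 g2c_mem 9 (χ 9 : F) * (xU chevG2 g2c_mem 7 (τ 7))⁻¹) *
            (xU chevG2 g2c_mem 7 (τ 7) * xU chevG2 g2c_mem 11 (3 * τ 8 * (χ 9 : F))) * (xU chevG2 g2c_mem 7 (τ 7))⁻¹ := by group
      _ = (xU chevG2 g2c_mem 9 (χ 9 : F) * xU chevG2 g2c_mem 10 (3 * τ 7 * (χ 9 : F))) *
            (xU chevG2 g2c_mem 11 (3 * τ 8 * (χ 9 : F)) * xU chevG2 g2c_mem 7 (τ 7)) * (xU chevG2 g2c_mem 7 (τ 7))⁻¹ := by
          rw [g2c_conj7, c711]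
      _ = _ := by
          unfold g2cV
          group
  rw [key2, e9 1] at key
  obtain ⟨k1, k2, k3⟩ := g2cV_inj _ _ _ _ _ _ key
  have t7 : τ 7 = 0 := by
    rw [k1, mul_one] at k2
    exact (mul_eq_zero.mp k2).resolve_left h3
  have t8 : τ 8 = 0 := by
    rw [k1, mul_one] at k3
    exact (mul_eq_zero.mp k3).resolve_left h3
  have hhT : h * xU chevG2 g2c_mem 9 1 = xU chevG2 g2c_mem 9 1 * h := by
    rw [k1] at hT
    calc h * xU chevG2 g2c_mem 9 1 = (h * xU chevG2 g2c_mem 9 1 * h⁻¹) * h := by group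
      _ = xU chevG2 g2c_mem 9 1 * h := by rw [hT]
  rw [t7, t8, xU_zero, xU_zero, mul_one, mul_one]
  refine mul_mem (mul_mem (g2cC_x 6 (by simp) _) ?_) (g2c_torus h hh hhT)
  unfold g2cV
  exact mul_mem (mul_mem (g2cC_x 9 (by simp) _) (g2cC_x 10 (by simp) _)) (g2cC_x 11 (by simp) _)

theorem g2c_closure_single (a : ℕ) :
    Subgroup.closure {g : GL chevG2.Idx F | ∃ s ∈ [a], ∃ t : F,
      (g : Matrix chevG2.Idx chevG2.Idx F) = chevG2.x F s t} = chevG2.rootSubgroup F a := by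
  unfold ChevalleyDatum.rootSubgroup
  congr 1
  ext g
  simp

/-- the centralizer of `x_{2a+b}(1)` in `G₂(F)` -/
theorem g2c_main (h3 : (3 : F) ≠ 0) (t : GL chevG2.Idx F)
    (ht : (t : Matrix chevG2.Idx chevG2.Idx F) = chevG2.x F 9 1) :
    chevG2.group F ⊓ Subgroup.centralizer {t} = g2cC F := by
  obtain ⟨hnx, hcert, htri, hup, hcm'⟩ := certs_of_mem F chevG2 g2c_mem
  have ht' := eq_xU chevG2 g2c_mem _ 1 t ht
  subst ht'
  apply le_antisymm
  · rintro c ⟨hcG, hcc⟩
    obtain ⟨b, hb, n, hn, v, hv, rfl⟩ :=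
      bruhat_exists chevG2 g2c_mem hnx hcert htri hup hcm' c hcG
    have hcm : Commute (b * n * v) (xU chevG2 g2c_mem 9 1) :=
      ((Subgroup.mem_centralizer_iff.mp hcc) _ rfl).symm
    have hvU := SnSet_le_pos chevG2 g2c_mem n hv
    have hUB : chevG2.posUnipotent F ≤ chevG2.borelSubgroup F := le_sup_left
    have hHB : chevG2.diagonalSubgroup F ≤ chevG2.borelSubgroup F := le_sup_right
    have hT9 : xU chevG2 g2c_mem 9 (1 : F) ∈ Subgroup.closure (geGen F chevG2 9) :=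
      g2c_mem_ge 9 9 (by norm_num) (by norm_num) (le_refl _) 1
    have hy1 : v * xU chevG2 g2c_mem 9 1 * v⁻¹ ∈ Subgroup.closure (geGen F chevG2 9) :=
      (Subgroup.mem_normalizer_iff.mp (g2c_B_norm 9 (hUB hvU)) _).mp hT9
    have hy2 : b⁻¹ * xU chevG2 g2c_mem 9 1 * b ∈ Subgroup.closure (geGen F chevG2 9) := by
      have := (Subgroup.mem_normalizer_iff.mp (g2c_B_norm 9 (inv_mem hb)) _).mp hT9
      rwa [inv_inv] at this
    obtain ⟨c1, d1, e1, hy1e⟩ := g2c_V9_form _ hy1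
    have hc1 : c1 ≠ 0 := by
      intro hc0
      have h10 : v * xU chevG2 g2c_mem 9 1 * v⁻¹ ∈ Subgroup.closure (geGen F chevG2 10) := by
        rw [hy1e, hc0]
        unfold g2cV
        rw [xU_zero, one_mul]
        exact mul_mem (g2c_mem_ge 10 10 (by norm_num) (by norm_num) (le_refl _) d1)
          (g2c_mem_ge 10 11 (by norm_num) (by norm_num) (by norm_num) e1)
      have h10' : xU chevG2 g2c_mem 9 (1 : F) ∈ Subgroup.closure (geGen F chevG2 10) := by
        have := (Subgroup.mem_normalizer_iff.mp (g2c_B_norm 10 (inv_mem (hUB hvU))) _).mp h10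
        have e : v⁻¹ * (v * xU chevG2 g2c_mem 9 1 * v⁻¹) * v⁻¹⁻¹ = xU chevG2 g2c_mem 9 1 := by group
        rwa [e] at this
      exact one_ne_zero (g2c_x_zero_of_ge 9 (by norm_num) (by norm_num) (1 : F) h10')
    have hny : n * g2cV c1 d1 e1 * n⁻¹ = b⁻¹ * xU chevG2 g2c_mem 9 1 * b := by
      rw [← hy1e]
      have h1 := hcm.eq
      calc n * (v * xU chevG2 g2c_mem 9 1 * v⁻¹) * n⁻¹ = b⁻¹ * (b * n * v * xU chevG2 g2c_mem 9 1) * v⁻¹ * n⁻¹ := by group
        _ = b⁻¹ * (xU chevG2 g2c_mem 9 1 * (b * n * v)) * v⁻¹ * n⁻¹ := by rw [h1]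
        _ = b⁻¹ * xU chevG2 g2c_mem 9 1 * b := by group
    obtain ⟨l, hl, hact⟩ := g2cAct_of_mem n hn
    have hl9 := g2c_pi9 n l hl hact c1 d1 e1 hc1 (by rw [hny]; exact hy2)
    have p7 : chevG2.IsPosRoot 7 := g2c_pos (by norm_num) (by norm_num)
    have p6 : chevG2.IsPosRoot 6 := g2c_pos (by norm_num) (by norm_num)
    rcases g2cW_stab l hl hl9 with ⟨l7, l6⟩ | ⟨l7, l8, l6, l5, l10, l11⟩
    · have hnH : n ∈ chevG2.diagonalSubgroup F := by
        apply g2c_diag_of_pos n hn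
        intro i hi
        have hi01 : i = 0 ∨ i = 1 := by omega
        rcases hi01 with rfl | rfl
        · rw [(by decide +kernel : chevG2.simple 0 = 7)]
          obtain ⟨c', -, hc'⟩ := hact 7 (by norm_num)
          rw [hc', l7]
          exact xU_mem_pos chevG2 g2c_mem 7 p7 _
        · rw [(by decide +kernel : chevG2.simple 1 = 6)]
          obtain ⟨c', -, hc'⟩ := hact 6 (by norm_num)
          rw [hc', l6]
          exact xU_mem_pos chevG2 g2c_mem 6 p6 _
      exact g2c_B_case h3 _ (mul_mem (mul_mem hb (hHB hnH)) (hUB hvU)) hcm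
    · have hi1 : (1 : ℕ) < chevG2.rank := by
        rw [g2c_rank]
        norm_num
      have hnbN : nU chevG2 g2c_mem (chevG2.simple 1) (1 : F) ∈ chevG2.monomialSubgroup F :=
        nU_mem_mono chevG2 g2c_mem _ (simple_lt chevG2 hcert 1 hi1)
      have hn'H : n * (nU chevG2 g2c_mem (chevG2.simple 1) (1 : F))⁻¹ ∈
          chevG2.diagonalSubgroup F := by
        apply g2c_diag_of_pos _ (mul_mem hn (inv_mem hnbN))
        intro i hi
        have e : n * (nU chevG2 g2c_mem (chevG2.simple 1) (1 : F))⁻¹ * xU chevG2 g2c_mem (chevG2.simple i) 1 *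
            (n * (nU chevG2 g2c_mem (chevG2.simple 1) (1 : F))⁻¹)⁻¹ =
            n * ((nU chevG2 g2c_mem (chevG2.simple 1) (1 : F))⁻¹ * xU chevG2 g2c_mem (chevG2.simple i) 1 *
              nU chevG2 g2c_mem (chevG2.simple 1) (1 : F)) * n⁻¹ := by group
        rw [e, nU_inv_conj_x chevG2 g2c_mem hnx 1 _ hi1
          (simple_lt chevG2 hcert i (by rw [g2c_rank]; exact hi)) 1]
        have hi01 : i = 0 ∨ i = 1 := by omega
        rcases hi01 with rfl | rfl
        · rw [(by decide +kernel : chevG2.reflectRoot 1 (chevG2.simple 0) = 8)]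
          obtain ⟨c', -, hc'⟩ := hact 8 (by norm_num)
          rw [hc', l8]
          exact xU_mem_pos chevG2 g2c_mem 7 p7 _
        · rw [(by decide +kernel : chevG2.reflectRoot 1 (chevG2.simple 1) = 5)]
          obtain ⟨c', -, hc'⟩ := hact 5 (by norm_num)
          rw [hc', l5]
          exact xU_mem_pos chevG2 g2c_mem 6 p6 _
      have hv6 : v ∈ chevG2.rootSubgroup F 6 := by
        have hle : Subgroup.closure (SnSet (F := F) chevG2 n) ≤ chevG2.rootSubgroup F 6 := by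
          rw [Subgroup.closure_le]
          rintro x ⟨r, t, hr, hmap, hx⟩
          obtain ⟨hr6, hr12⟩ := g2c_pos_ge hr
          rw [eq_xU chevG2 g2c_mem r t x hx]
          by_cases h6 : r = 6
          · subst h6
            exact xU_mem_rootSubgroup chevG2 g2c_mem 6 t
          · exfalso
            have hneg := (map_conj_le_iff chevG2 g2c_mem n r hr.1 _).mp hmap 1
            obtain ⟨c', hc'0, hc'⟩ := hact r hr12
            rw [hc'] at hneg
            have hpos : chevG2.IsPosRoot (l.getD r 0) := by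
              have hr5 : r = 7 ∨ r = 8 ∨ r = 9 ∨ r = 10 ∨ r = 11 := by omega
              rcases hr5 with rfl | rfl | rfl | rfl | rfl
              · rw [l7]
                exact g2c_pos (by norm_num) (by norm_num)
              · rw [l8]
                exact g2c_pos (by norm_num) (by norm_num)
              · rw [hl9]
                exact g2c_pos (by norm_num) (by norm_num)
              · rw [l10]
                exact g2c_pos (by norm_num) (by norm_num)
              · rw [l11]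
                exact g2c_pos (by norm_num) (by norm_num)
            have h0 := xU_pos_neg chevG2 g2c_mem hnx hcert htri _ hpos.1 _
              (xU_mem_pos chevG2 g2c_mem _ hpos _) hneg
            rw [mul_one] at h0
            exact hc'0 h0
        exact hle hv
      have hs6 : chevG2.simple 1 = 6 := by decide +kernel
      have hn5 : chevG2.neg 6 = 5 := by decide +kernel
      have hvC : v ∈ g2cC F := by
        obtain ⟨t, rfl⟩ := mem_rootSubgroup chevG2 g2c_mem 6 (g2c_lt (by norm_num)) v hv6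
        exact g2cC_x 6 (by simp) t
      have hnbC : nU chevG2 g2c_mem (chevG2.simple 1) (1 : F) ∈ g2cC F := by
        rw [hs6]
        unfold nU
        rw [hn5]
        exact mul_mem (mul_mem (g2cC_x 6 (by simp) _) (g2cC_x 5 (by simp) _))
          (g2cC_x 6 (by simp) _)
      have cv : Commute v (xU chevG2 g2c_mem 9 1) :=
        ((Subgroup.mem_centralizer_iff.mp (g2cC_le hvC).2) _ rfl).symm
      have cnb : Commute (nU chevG2 g2c_mem (chevG2.simple 1) (1 : F)) (xU chevG2 g2c_mem 9 1) :=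
        ((Subgroup.mem_centralizer_iff.mp (g2cC_le hnbC).2) _ rfl).symm
      have hB' : b * (n * (nU chevG2 g2c_mem (chevG2.simple 1) (1 : F))⁻¹) ∈
          chevG2.borelSubgroup F := mul_mem hb (hHB hn'H)
      have hcm2 : Commute (b * (n * (nU chevG2 g2c_mem (chevG2.simple 1) (1 : F))⁻¹))
          (xU chevG2 g2c_mem 9 1) := by
        have e : b * (n * (nU chevG2 g2c_mem (chevG2.simple 1) (1 : F))⁻¹) =
            (b * n * v) * v⁻¹ * (nU chevG2 g2c_mem (chevG2.simple 1) (1 : F))⁻¹ := by group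
        rw [e]
        exact (hcm.mul_left cv.inv_left).mul_left cnb.inv_left
      have h9 := g2c_B_case h3 _ hB' hcm2
      have e : b * n * v = b * (n * (nU chevG2 g2c_mem (chevG2.simple 1) (1 : F))⁻¹) *
          nU chevG2 g2c_mem (chevG2.simple 1) (1 : F) * v := by group
      rw [e]
      exact mul_mem (mul_mem h9 hnbC) hvC
  · exact g2cC_le

end Cfsg.Agent.Lib.helper11
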