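import Cfsg.Agent.Lib.helper11d.G2c3
import Cfsg.Agent.Lib.helper11c.Syl1

/-! Involutions of `G₂(F)` in characteristic two: relations in `U`, torus and Weyl moves. -/

set_option autoImplicit false

namespace Cfsg.Agent.Lib.helper11

open Cfsg Cfsg.Lie Cfsg.Agent.Lib.helper2
open scoped Pointwise

variable {F : Type*} [Field F]

theorem g2d_inv [CharP F 2] (r : ℕ) (t : F) : (xU chevG2 g2c_mem r t)⁻¹ = xU chevG2 g2c_mem r t := by
  rw [xU_inv, CharTwo.neg_eq]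

theorem g2d_sq [CharP F 2] (r : ℕ) (hr : r < 12) (t : F) : xU chevG2 g2c_mem r t * xU chevG2 g2c_mem r t = 1 := by
  rw [xU_add chevG2 g2c_mem r (g2c_lt hr), CharTwo.add_self_eq_zero, xU_zero]

theorem g2d_Vinv [CharP F 2] (c d e : F) : (g2cV c d e)⁻¹ = g2cV c d e := by
  rw [g2cV_inv, CharTwo.neg_eq, CharTwo.neg_eq, CharTwo.neg_eq]

theorem g2d_V9 (d : F) : xU chevG2 g2c_mem 9 d = g2cV d 0 0 := by
  unfold g2cV
  rw [xU_zero, xU_zero, mul_one, mul_one]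

theorem g2d_V10 (e : F) : xU chevG2 g2c_mem 10 e = g2cV 0 e 0 := by
  unfold g2cV
  rw [xU_zero, xU_zero, mul_one, one_mul]

theorem g2d_V11 (f : F) : xU chevG2 g2c_mem 11 f = g2cV 0 0 f := by
  unfold g2cV
  rw [xU_zero, xU_zero, one_mul, one_mul]

theorem g2d_V_comm (a b c d e f : F) :
    (g2cV a b c)⁻¹ * g2cV d e f * g2cV a b c = g2cV d e f := by
  rw [g2cV_inv, g2cV_mul, g2cV_mul]
  congr 1 <;> ring

theorem g2d_cc (p s : ℕ) (hp : p < 12) (hs : s < 12) (hps : s ≠ p) (hneg : s + p ≠ 11)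
    (h : chevG2.commTerms p s = []) (t u : F) :
    (xU chevG2 g2c_mem p t)⁻¹ * xU chevG2 g2c_mem s u * xU chevG2 g2c_mem p t = xU chevG2 g2c_mem s u := by
  rw [mul_assoc, g2c_comm p s hp hs hps hneg h t u, inv_mul_cancel_left]

theorem g2d_swap (p s : ℕ) (t u : F) (w : GL chevG2.Idx F)
    (h : (xU chevG2 g2c_mem p t)⁻¹ * xU chevG2 g2c_mem s u * xU chevG2 g2c_mem p t = xU chevG2 g2c_mem s u * w) :
    (xU chevG2 g2c_mem s u)⁻¹ * xU chevG2 g2c_mem p t * xU chevG2 g2c_mem s u = xU chevG2 g2c_mem p t * w⁻¹ := by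
  calc (xU chevG2 g2c_mem s u)⁻¹ * xU chevG2 g2c_mem p t * xU chevG2 g2c_mem s u
      = xU chevG2 g2c_mem p t * ((xU chevG2 g2c_mem p t)⁻¹ * xU chevG2 g2c_mem s u * xU chevG2 g2c_mem p t)⁻¹ * xU chevG2 g2c_mem s u := by group
    _ = xU chevG2 g2c_mem p t * (xU chevG2 g2c_mem s u * w)⁻¹ * xU chevG2 g2c_mem s u := by rw [h]
    _ = xU chevG2 g2c_mem p t * w⁻¹ := by group

theorem g2d_norm_conj (N : Subgroup (GL chevG2.Idx F)) (g w : GL chevG2.Idx F)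
    (hg : g ∈ Subgroup.normalizer (N : Set (GL chevG2.Idx F))) (hw : w ∈ N) :
    g * w * g⁻¹ ∈ N ∧ g⁻¹ * w * g ∈ N := by
  refine ⟨(Subgroup.mem_normalizer_iff.mp hg w).mp hw, ?_⟩
  have := (Subgroup.mem_normalizer_iff.mp (inv_mem hg) w).mp hw
  rwa [inv_inv] at this

theorem g2d_xn (k r : ℕ) (h1 : 6 ≤ r) (h2 : r < 12) (t : F) :
    xU chevG2 g2c_mem r t ∈ Subgroup.normalizer (Subgroup.closure (geGen F chevG2 k) : Set (GL chevG2.Idx F)) :=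
  g2c_x_norm k r (g2c_pos h1 h2) t

theorem g2d_w1 (r : ℕ) (a a' : F) (ha : a = a') : xU chevG2 g2c_mem r a = xU chevG2 g2c_mem r a' := by
  rw [ha]

theorem g2d_w2 (x x' y y' : GL chevG2.Idx F) (hx : x = x') (hy : y = y') : x * y = x' * y' := by
  rw [hx, hy]

theorem g2d_w3 (a b c a' b' c' : F) (ha : a = a') (hb : b = b') (hc : c = c') :
    xU chevG2 g2c_mem 9 a * (xU chevG2 g2c_mem 10 b * xU chevG2 g2c_mem 11 c) = g2cV a' b' c' := by
  subst ha hb hc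
  unfold g2cV
  rw [mul_assoc]

theorem g2d_r610 [CharP F 2] (t u : F) : (xU chevG2 g2c_mem 6 t)⁻¹ * xU chevG2 g2c_mem 10 u * xU chevG2 g2c_mem 6 t = xU chevG2 g2c_mem 10 u * xU chevG2 g2c_mem 11 (t * u) := by
  obtain ⟨hnx, hcert, htri, hup, hcomm⟩ := certs_of_mem F chevG2 g2c_mem
  have h2 : (2 : F) = 0 := CharTwo.two_eq_zero
  have h := xp_conj chevG2 g2c_mem 6 10 (hcomm 6 (g2c_lt (by norm_num)) 10 (g2c_lt (by norm_num))
    (by norm_num) (by rw [g2c_negidx_tab 6 (by norm_num)]; norm_num)) t u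
  rw [h]
  congr 1
  have hct : chevG2.commTerms 6 10 = [(11, 1, 1, 1)] := by decide +kernel
  unfold ChevalleyDatum.commWord wordU
  rw [hct]
  simp only [List.map_cons, List.map_nil, List.prod_cons, List.prod_nil, mul_one]
  refine g2d_w1 11 _ _ ?_
  push_cast
  linear_combination (-t * u) * h2

theorem g2d_r79 [CharP F 2] (t u : F) : (xU chevG2 g2c_mem 7 t)⁻¹ * xU chevG2 g2c_mem 9 u * xU chevG2 g2c_mem 7 t = xU chevG2 g2c_mem 9 u * xU chevG2 g2c_mem 10 (t * u) := by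
  obtain ⟨hnx, hcert, htri, hup, hcomm⟩ := certs_of_mem F chevG2 g2c_mem
  have h2 : (2 : F) = 0 := CharTwo.two_eq_zero
  have h := xp_conj chevG2 g2c_mem 7 9 (hcomm 7 (g2c_lt (by norm_num)) 9 (g2c_lt (by norm_num))
    (by norm_num) (by rw [g2c_negidx_tab 7 (by norm_num)]; norm_num)) t u
  rw [h]
  congr 1
  have hct : chevG2.commTerms 7 9 = [(10, 3, 1, 1)] := by decide +kernel
  unfold ChevalleyDatum.commWord wordU
  rw [hct]
  simp only [List.map_cons, List.map_nil, List.prod_cons, List.prod_nil, mul_one]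
  refine g2d_w1 10 _ _ ?_
  push_cast
  linear_combination (-2 * t * u) * h2

theorem g2d_r89 [CharP F 2] (t u : F) : (xU chevG2 g2c_mem 8 t)⁻¹ * xU chevG2 g2c_mem 9 u * xU chevG2 g2c_mem 8 t = xU chevG2 g2c_mem 9 u * xU chevG2 g2c_mem 11 (t * u) := by
  obtain ⟨hnx, hcert, htri, hup, hcomm⟩ := certs_of_mem F chevG2 g2c_mem
  have h2 : (2 : F) = 0 := CharTwo.two_eq_zero
  have h := xp_conj chevG2 g2c_mem 8 9 (hcomm 8 (g2c_lt (by norm_num)) 9 (g2c_lt (by norm_num))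
    (by norm_num) (by rw [g2c_negidx_tab 8 (by norm_num)]; norm_num)) t u
  rw [h]
  congr 1
  have hct : chevG2.commTerms 8 9 = [(11, 3, 1, 1)] := by decide +kernel
  unfold ChevalleyDatum.commWord wordU
  rw [hct]
  simp only [List.map_cons, List.map_nil, List.prod_cons, List.prod_nil, mul_one]
  refine g2d_w1 11 _ _ ?_
  push_cast
  linear_combination (-2 * t * u) * h2

theorem g2d_r78 [CharP F 2] (t u : F) :
    (xU chevG2 g2c_mem 7 t)⁻¹ * xU chevG2 g2c_mem 8 u * xU chevG2 g2c_mem 7 t = xU chevG2 g2c_mem 8 u * g2cV 0 (t ^ 2 * u) (t * u ^ 2) := by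
  obtain ⟨hnx, hcert, htri, hup, hcomm⟩ := certs_of_mem F chevG2 g2c_mem
  have h2 : (2 : F) = 0 := CharTwo.two_eq_zero
  have h := xp_conj chevG2 g2c_mem 7 8 (hcomm 7 (g2c_lt (by norm_num)) 8 (g2c_lt (by norm_num))
    (by norm_num) (by rw [g2c_negidx_tab 7 (by norm_num)]; norm_num)) t u
  rw [h]
  congr 1
  have hct : chevG2.commTerms 7 8 = [(9, -2, 1, 1), (10, -3, 2, 1), (11, 3, 1, 2)] := by
    decide +kernel
  unfold ChevalleyDatum.commWord wordU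
  rw [hct]
  simp only [List.map_cons, List.map_nil, List.prod_cons, List.prod_nil, mul_one]
  refine g2d_w3 _ _ _ _ _ _ ?_ ?_ ?_
  · push_cast
    linear_combination (t * u) * h2
  · push_cast
    linear_combination (-2 * t ^ 2 * u) * h2
  · push_cast
    linear_combination (-2 * t * u ^ 2) * h2

theorem g2d_r67 [CharP F 2] (t u : F) :
    (xU chevG2 g2c_mem 6 t)⁻¹ * xU chevG2 g2c_mem 7 u * xU chevG2 g2c_mem 6 t = xU chevG2 g2c_mem 7 u * (xU chevG2 g2c_mem 8 (t * u) * g2cV (t * u ^ 2) (t * u ^ 3) 0) := by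
  obtain ⟨hnx, hcert, htri, hup, hcomm⟩ := certs_of_mem F chevG2 g2c_mem
  have h2 : (2 : F) = 0 := CharTwo.two_eq_zero
  have h := xp_conj chevG2 g2c_mem 6 7 (hcomm 6 (g2c_lt (by norm_num)) 7 (g2c_lt (by norm_num))
    (by norm_num) (by rw [g2c_negidx_tab 6 (by norm_num)]; norm_num)) t u
  rw [h]
  congr 1
  have hct : chevG2.commTerms 6 7 = [(8, 1, 1, 1), (9, 1, 1, 2), (10, -1, 1, 3), (11, -2, 2, 3)] := by
    decide +kernel
  unfold ChevalleyDatum.commWord wordU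
  rw [hct]
  simp only [List.map_cons, List.map_nil, List.prod_cons, List.prod_nil, mul_one]
  refine g2d_w2 _ _ _ _ (g2d_w1 8 _ _ ?_) (g2d_w3 _ _ _ _ _ _ ?_ ?_ ?_)
  · push_cast
    linear_combination (-t * u) * h2
  · push_cast
    linear_combination (-t * u ^ 2) * h2
  · push_cast
    linear_combination (0 : F) * h2
  · push_cast
    linear_combination (-t ^ 2 * u ^ 3) * h2

theorem g2d_V_conj (k : GL chevG2.Idx F) (d e f α β γ : F)
    (h9 : k⁻¹ * xU chevG2 g2c_mem 9 d * k = g2cV d α β) (h10 : k⁻¹ * xU chevG2 g2c_mem 10 e * k = g2cV 0 e γ)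
    (h11 : k⁻¹ * xU chevG2 g2c_mem 11 f * k = g2cV 0 0 f) :
    k⁻¹ * g2cV d e f * k = g2cV d (α + e) (β + γ + f) := by
  have e1 : k⁻¹ * g2cV d e f * k = (k⁻¹ * xU chevG2 g2c_mem 9 d * k) * (k⁻¹ * xU chevG2 g2c_mem 10 e * k) * (k⁻¹ * xU chevG2 g2c_mem 11 f * k) := by
    unfold g2cV
    group
  rw [e1, h9, h10, h11, g2cV_mul, g2cV_mul]
  congr 1 <;> ring

theorem g2d_V_conj6 [CharP F 2] (s d e f : F) :
    (xU chevG2 g2c_mem 6 s)⁻¹ * g2cV d e f * xU chevG2 g2c_mem 6 s = g2cV d e (s * e + f) := by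
  have h9 : (xU chevG2 g2c_mem 6 s)⁻¹ * xU chevG2 g2c_mem 9 d * xU chevG2 g2c_mem 6 s = g2cV d 0 0 := by
    rw [g2d_cc 6 9 (by norm_num) (by norm_num) (by norm_num) (by norm_num) (by decide +kernel) s d,
      g2d_V9]
  have h10 : (xU chevG2 g2c_mem 6 s)⁻¹ * xU chevG2 g2c_mem 10 e * xU chevG2 g2c_mem 6 s = g2cV 0 e (s * e) := by
    rw [g2d_r610]
    unfold g2cV
    rw [xU_zero, one_mul]
  have h11 : (xU chevG2 g2c_mem 6 s)⁻¹ * xU chevG2 g2c_mem 11 f * xU chevG2 g2c_mem 6 s = g2cV 0 0 f := by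
    rw [g2d_cc 6 11 (by norm_num) (by norm_num) (by norm_num) (by norm_num) (by decide +kernel) s f,
      g2d_V11]
  rw [g2d_V_conj _ d e f 0 0 (s * e) h9 h10 h11]
  congr 1 <;> ring

theorem g2d_V_conj7 [CharP F 2] (s d e f : F) :
    (xU chevG2 g2c_mem 7 s)⁻¹ * g2cV d e f * xU chevG2 g2c_mem 7 s = g2cV d (s * d + e) f := by
  have h9 : (xU chevG2 g2c_mem 7 s)⁻¹ * xU chevG2 g2c_mem 9 d * xU chevG2 g2c_mem 7 s = g2cV d (s * d) 0 := by
    rw [g2d_r79]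
    unfold g2cV
    rw [xU_zero, mul_one]
  have h10 : (xU chevG2 g2c_mem 7 s)⁻¹ * xU chevG2 g2c_mem 10 e * xU chevG2 g2c_mem 7 s = g2cV 0 e 0 := by
    rw [g2d_cc 7 10 (by norm_num) (by norm_num) (by norm_num) (by norm_num) (by decide +kernel) s e,
      g2d_V10]
  have h11 : (xU chevG2 g2c_mem 7 s)⁻¹ * xU chevG2 g2c_mem 11 f * xU chevG2 g2c_mem 7 s = g2cV 0 0 f := by
    rw [g2d_cc 7 11 (by norm_num) (by norm_num) (by norm_num) (by norm_num) (by decide +kernel) s f,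
      g2d_V11]
  rw [g2d_V_conj _ d e f (s * d) 0 0 h9 h10 h11]
  congr 1 <;> ring

theorem g2d_V_conj8 [CharP F 2] (s d e f : F) :
    (xU chevG2 g2c_mem 8 s)⁻¹ * g2cV d e f * xU chevG2 g2c_mem 8 s = g2cV d e (s * d + f) := by
  have h9 : (xU chevG2 g2c_mem 8 s)⁻¹ * xU chevG2 g2c_mem 9 d * xU chevG2 g2c_mem 8 s = g2cV d 0 (s * d) := by
    rw [g2d_r89]
    unfold g2cV
    rw [xU_zero, mul_one]
  have h10 : (xU chevG2 g2c_mem 8 s)⁻¹ * xU chevG2 g2c_mem 10 e * xU chevG2 g2c_mem 8 s = g2cV 0 e 0 := by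
    rw [g2d_cc 8 10 (by norm_num) (by norm_num) (by norm_num) (by norm_num) (by decide +kernel) s e,
      g2d_V10]
  have h11 : (xU chevG2 g2c_mem 8 s)⁻¹ * xU chevG2 g2c_mem 11 f * xU chevG2 g2c_mem 8 s = g2cV 0 0 f := by
    rw [g2d_cc 8 11 (by norm_num) (by norm_num) (by norm_num) (by norm_num) (by decide +kernel) s f,
      g2d_V11]
  rw [g2d_V_conj _ d e f 0 (s * d) 0 h9 h10 h11]
  congr 1 <;> ring

theorem g2d_c7_9 [CharP F 2] (b s : F) : (xU chevG2 g2c_mem 9 s)⁻¹ * xU chevG2 g2c_mem 7 b * xU chevG2 g2c_mem 9 s = xU chevG2 g2c_mem 7 b * xU chevG2 g2c_mem 10 (b * s) := by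
  rw [g2d_swap 7 9 b s _ (g2d_r79 b s), g2d_inv]

theorem g2d_c6_10 [CharP F 2] (a s : F) : (xU chevG2 g2c_mem 10 s)⁻¹ * xU chevG2 g2c_mem 6 a * xU chevG2 g2c_mem 10 s = xU chevG2 g2c_mem 6 a * xU chevG2 g2c_mem 11 (a * s) := by
  rw [g2d_swap 6 10 a s _ (g2d_r610 a s), g2d_inv]

theorem g2d_c7_8 [CharP F 2] (b s : F) :
    (xU chevG2 g2c_mem 8 s)⁻¹ * xU chevG2 g2c_mem 7 b * xU chevG2 g2c_mem 8 s = xU chevG2 g2c_mem 7 b * g2cV 0 (b ^ 2 * s) (b * s ^ 2) := by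
  rw [g2d_swap 7 8 b s _ (g2d_r78 b s), g2d_Vinv]

theorem g2d_c7_conj9 [CharP F 2] (b s d e f : F) :
    (xU chevG2 g2c_mem 9 s)⁻¹ * (xU chevG2 g2c_mem 7 b * g2cV d e f) * xU chevG2 g2c_mem 9 s = xU chevG2 g2c_mem 7 b * g2cV d (b * s + e) f := by
  have hV : (xU chevG2 g2c_mem 9 s)⁻¹ * g2cV d e f * xU chevG2 g2c_mem 9 s = g2cV d e f := by
    rw [g2d_V9 s]
    exact g2d_V_comm _ _ _ _ _ _
  calc (xU chevG2 g2c_mem 9 s)⁻¹ * (xU chevG2 g2c_mem 7 b * g2cV d e f) * xU chevG2 g2c_mem 9 s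
      = ((xU chevG2 g2c_mem 9 s)⁻¹ * xU chevG2 g2c_mem 7 b * xU chevG2 g2c_mem 9 s) * ((xU chevG2 g2c_mem 9 s)⁻¹ * g2cV d e f * xU chevG2 g2c_mem 9 s) := by group
    _ = (xU chevG2 g2c_mem 7 b * g2cV 0 (b * s) 0) * g2cV d e f := by rw [g2d_c7_9, hV, g2d_V10]
    _ = xU chevG2 g2c_mem 7 b * g2cV d (b * s + e) f := by rw [mul_assoc, g2cV_mul, zero_add, zero_add]

theorem g2d_c7_conj8 [CharP F 2] (b s d e f : F) :
    (xU chevG2 g2c_mem 8 s)⁻¹ * (xU chevG2 g2c_mem 7 b * g2cV d e f) * xU chevG2 g2c_mem 8 s =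
      xU chevG2 g2c_mem 7 b * g2cV d (b ^ 2 * s + e) (b * s ^ 2 + (s * d + f)) := by
  calc (xU chevG2 g2c_mem 8 s)⁻¹ * (xU chevG2 g2c_mem 7 b * g2cV d e f) * xU chevG2 g2c_mem 8 s
      = ((xU chevG2 g2c_mem 8 s)⁻¹ * xU chevG2 g2c_mem 7 b * xU chevG2 g2c_mem 8 s) * ((xU chevG2 g2c_mem 8 s)⁻¹ * g2cV d e f * xU chevG2 g2c_mem 8 s) := by group
    _ = (xU chevG2 g2c_mem 7 b * g2cV 0 (b ^ 2 * s) (b * s ^ 2)) * g2cV d e (s * d + f) := by
        rw [g2d_c7_8, g2d_V_conj8]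
    _ = xU chevG2 g2c_mem 7 b * g2cV d (b ^ 2 * s + e) (b * s ^ 2 + (s * d + f)) := by
        rw [mul_assoc, g2cV_mul, zero_add]

theorem g2d_c6_conj10 [CharP F 2] (a s d e f : F) :
    (xU chevG2 g2c_mem 10 s)⁻¹ * (xU chevG2 g2c_mem 6 a * g2cV d e f) * xU chevG2 g2c_mem 10 s = xU chevG2 g2c_mem 6 a * g2cV d e (a * s + f) := by
  have hV : (xU chevG2 g2c_mem 10 s)⁻¹ * g2cV d e f * xU chevG2 g2c_mem 10 s = g2cV d e f := by
    rw [g2d_V10 s]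
    exact g2d_V_comm _ _ _ _ _ _
  calc (xU chevG2 g2c_mem 10 s)⁻¹ * (xU chevG2 g2c_mem 6 a * g2cV d e f) * xU chevG2 g2c_mem 10 s
      = ((xU chevG2 g2c_mem 10 s)⁻¹ * xU chevG2 g2c_mem 6 a * xU chevG2 g2c_mem 10 s) * ((xU chevG2 g2c_mem 10 s)⁻¹ * g2cV d e f * xU chevG2 g2c_mem 10 s) := by group
    _ = (xU chevG2 g2c_mem 6 a * g2cV 0 0 (a * s)) * g2cV d e f := by rw [g2d_c6_10, hV, g2d_V11]
    _ = xU chevG2 g2c_mem 6 a * g2cV d e (a * s + f) := by rw [mul_assoc, g2cV_mul, zero_add, zero_add]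

/-- the tuple of units `(u0, u1)` -/
def g2dC (u0 u1 : Fˣ) : Fin chevG2.rank → Fˣ := fun i => if (i : ℕ) = 0 then u0 else u1

theorem g2d_ce0 (u0 u1 : Fˣ) : ce (g2dC u0 u1) 0 = (u0 : F) := by
  have h0 : (0 : ℕ) < chevG2.rank := by
    rw [g2c_rank]
    norm_num
  simp [ce, g2dC, h0]

theorem g2d_ce1 (u0 u1 : Fˣ) : ce (g2dC u0 u1) 1 = (u1 : F) := by
  have h0 : (1 : ℕ) < chevG2.rank := by
    rw [g2c_rank]
    norm_num
  simp [ce, g2dC, h0]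

theorem g2d_torus (u0 u1 : Fˣ) :
    ∃ h ∈ chevG2.group F, ∀ r < 12, ∀ x : F,
      h * xU chevG2 g2c_mem r x * h⁻¹ =
        xU chevG2 g2c_mem r ((u0 : F) ^ chevG2.cartan 0 r * (u1 : F) ^ chevG2.cartan 1 r * x) := by
  have hnx := nxAll_of_mem chevG2 g2c_mem
  have hc := hcert_of_mem chevG2 g2c_mem
  have hBG := (Cfsg.Agent.S1043.main0 (F := F) chevG2 g2c_mem hnx hc).1
  have hHB : chevG2.diagonalSubgroup F ≤ chevG2.borelSubgroup F := le_sup_right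
  have hh : sdiagHom chevG2 (g2dC u0 u1) ∈ chevG2.diagonalSubgroup F := by
    rw [← sdiagHom_range chevG2 g2c_mem hnx hc]
    exact ⟨g2dC u0 u1, rfl⟩
  obtain ⟨χ, hχ, hconj⟩ := diag_conj_x chevG2 g2c_mem hnx hc _ hh
  refine ⟨sdiagHom chevG2 (g2dC u0 u1), hBG (hHB hh), fun r hr x => ?_⟩
  rw [hconj r (g2c_lt hr) x]
  have e2 : (χ r : F) = (u0 : F) ^ chevG2.cartan 0 r * (u1 : F) ^ chevG2.cartan 1 r := by
    have e := hχ
    rw [sdiagHom_val] at e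
    have e1 := congrFun (congrFun e (Sum.inr ⟨r, g2c_lt hr⟩)) (Sum.inr ⟨r, g2c_lt hr⟩)
    unfold sdiag ChevalleyDatum.charDiag at e1
    rw [Matrix.diagonal_apply_eq, Matrix.diagonal_apply_eq] at e1
    have e3 : (χ r : F) =
        ∏ i ∈ Finset.range chevG2.rank, ce (g2dC u0 u1) i ^ chevG2.cartan i r := e1.symm
    have h2 : Finset.range chevG2.rank = {0, 1} := by
      rw [g2c_rank]
      decide
    rw [e3, h2, Finset.prod_pair (show (0 : ℕ) ≠ 1 by norm_num), g2d_ce0, g2d_ce1]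
  rw [e2]

/-- conjugacy in `G₂(F)` -/
def G2dConj (x y : GL chevG2.Idx F) : Prop := ∃ k ∈ chevG2.group F, k * x * k⁻¹ = y

theorem g2dConj_trans {x y z : GL chevG2.Idx F} (h1 : G2dConj x y) (h2 : G2dConj y z) : G2dConj x z := by
  obtain ⟨k, hk, rfl⟩ := h1
  obtain ⟨k', hk', rfl⟩ := h2
  exact ⟨k' * k, mul_mem hk' hk, by group⟩

theorem g2dConj_sq {x y : GL chevG2.Idx F} (h : G2dConj x y) (hx : x * x = 1) : y * y = 1 := by
  obtain ⟨k, hk, rfl⟩ := h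
  calc k * x * k⁻¹ * (k * x * k⁻¹) = k * (x * x) * k⁻¹ := by group
    _ = 1 := by
        rw [hx]
        group

theorem g2d_conj_x (p : ℕ) (s : F) (x y : GL chevG2.Idx F)
    (h : (xU chevG2 g2c_mem p s)⁻¹ * x * xU chevG2 g2c_mem p s = y) : G2dConj x y :=
  ⟨(xU chevG2 g2c_mem p s)⁻¹, inv_mem (xU_mem_group chevG2 g2c_mem p s), by rw [inv_inv]; exact h⟩

theorem g2d_scale9 (d : F) (hd : d ≠ 0) : G2dConj (xU chevG2 g2c_mem 9 d) (xU chevG2 g2c_mem 9 1) := by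
  obtain ⟨h, hh, hc⟩ := g2d_torus (Units.mk0 d⁻¹ (inv_ne_zero hd)) (1 : Fˣ)
  refine ⟨h, hh, ?_⟩
  rw [hc 9 (by norm_num) d]
  refine g2d_w1 9 _ _ ?_
  rw [(by decide +kernel : chevG2.cartan 0 9 = 1), (by decide +kernel : chevG2.cartan 1 9 = 0),
    Units.val_mk0, Units.val_one, zpow_one, zpow_zero, mul_one, inv_mul_cancel₀ hd]

theorem g2d_scale11 (f : F) (hf : f ≠ 0) : G2dConj (xU chevG2 g2c_mem 11 f) (xU chevG2 g2c_mem 11 1) := by
  obtain ⟨h, hh, hc⟩ := g2d_torus (1 : Fˣ) (Units.mk0 f⁻¹ (inv_ne_zero hf))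
  refine ⟨h, hh, ?_⟩
  rw [hc 11 (by norm_num) f]
  refine g2d_w1 11 _ _ ?_
  rw [(by decide +kernel : chevG2.cartan 0 11 = 0), (by decide +kernel : chevG2.cartan 1 11 = 1),
    Units.val_mk0, Units.val_one, zpow_zero, zpow_one, one_mul, inv_mul_cancel₀ hf]

theorem g2d_n [CharP F 2] (i : ℕ) (hi : i < 2) :
    ∃ n ∈ chevG2.group F, ∀ s < 12, ∀ t : F,
      n * xU chevG2 g2c_mem s t * n⁻¹ = xU chevG2 g2c_mem (chevG2.reflectRoot i s) t := by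
  obtain ⟨hnx, hcert, htri, hup, hcomm⟩ := certs_of_mem F chevG2 g2c_mem
  have hi' : i < chevG2.rank := by
    rw [g2c_rank]
    exact hi
  have hN := ok_of_mem chevG2 g2c_mem i hi'
  refine ⟨nU chevG2 g2c_mem (chevG2.simple i) (1 : F), nU_mem_group chevG2 g2c_mem _ _,
    fun s hs t => ?_⟩
  rw [nU_conj_x chevG2 g2c_mem hnx i s hi' (g2c_lt hs) t]
  refine g2d_w1 _ _ _ ?_
  rcases eta_sign chevG2 i s hN (g2c_lt hs) with h | h
  · rw [h, Int.cast_one, one_mul]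
  · rw [h, Int.cast_neg, Int.cast_one, neg_one_mul, CharTwo.neg_eq]

theorem g2d_move1 [CharP F 2] (i : ℕ) (hi : i < 2) (s s' : ℕ) (hs : s < 12)
    (h : chevG2.reflectRoot i s = s') (t : F) : G2dConj (xU chevG2 g2c_mem s t) (xU chevG2 g2c_mem s' t) := by
  obtain ⟨n, hn, hc⟩ := g2d_n (F := F) i hi
  exact ⟨n, hn, by rw [hc s hs t, h]⟩

end Cfsg.Agent.Lib.helper11
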