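import Cfsg.Agent.Lib.helper11d.G2d1

/-! Involutions of `G₂(F)` in characteristic two: classification inside `U`. -/

set_option autoImplicit false

namespace Cfsg.Agent.Lib.helper11

open Cfsg Cfsg.Lie Cfsg.Agent.Lib.helper2
open scoped Pointwise

variable {F : Type*} [Field F]

theorem g2d_AL {G : Type*} [Group G] (A B C V z w1 w2 w3 : G)
    (hA : A * A = 1) (hB : B * B = 1) (hC : C * C = 1)
    (e1 : B * A = A * B * z * w1) (e2 : C * A = A * C) (e3 : C * B = B * C * w2)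
    (e4 : z * B = B * z * w3) :
    (A * B * C * V) * (A * B * C * V) =
      z * ((B * w3⁻¹ * B⁻¹) * (B * w1 * B⁻¹) * (C * w2 * C⁻¹) *
        ((A * B * C)⁻¹ * V * (A * B * C)) * V) := by
  have hB' : B⁻¹ = B := inv_eq_of_mul_eq_one_left hB
  have hC' : C⁻¹ = C := inv_eq_of_mul_eq_one_left hC
  have s1 : (A * B * C) * (A * B * C) = B * z * w1 * B * C * w2 * C := by
    calc (A * B * C) * (A * B * C) = A * B * (C * A) * B * C := by group
      _ = A * B * (A * C) * B * C := by rw [e2]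
      _ = A * (B * A) * (C * B) * C := by group
      _ = A * (A * B * z * w1) * (B * C * w2) * C := by rw [e1, e3]
      _ = (A * A) * B * z * w1 * B * C * w2 * C := by group
      _ = B * z * w1 * B * C * w2 * C := by rw [hA, one_mul]
  have s2 : z * ((B * w3⁻¹ * B⁻¹) * (B * w1 * B⁻¹) * (C * w2 * C⁻¹)) =
      B * z * w1 * B * C * w2 * C := by
    calc z * ((B * w3⁻¹ * B⁻¹) * (B * w1 * B⁻¹) * (C * w2 * C⁻¹))
        = (z * B) * w3⁻¹ * w1 * B⁻¹ * C * w2 * C⁻¹ := by group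
      _ = (B * z * w3) * w3⁻¹ * w1 * B⁻¹ * C * w2 * C⁻¹ := by rw [e4]
      _ = B * z * w1 * B⁻¹ * C * w2 * C⁻¹ := by group
      _ = B * z * w1 * B * C * w2 * C := by rw [hB', hC']
  calc (A * B * C * V) * (A * B * C * V)
      = ((A * B * C) * (A * B * C)) * ((A * B * C)⁻¹ * V * (A * B * C)) * V := by group
    _ = (z * ((B * w3⁻¹ * B⁻¹) * (B * w1 * B⁻¹) * (C * w2 * C⁻¹))) *
          ((A * B * C)⁻¹ * V * (A * B * C)) * V := by rw [s1, ← s2]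
    _ = _ := by group

theorem g2d_step1 [CharP F 2] (a b c : F) (v : GL chevG2.Idx F) (hv : v ∈ Subgroup.closure (geGen F chevG2 9))
    (hsq : (xU chevG2 g2c_mem 6 a * xU chevG2 g2c_mem 7 b * xU chevG2 g2c_mem 8 c * v) * (xU chevG2 g2c_mem 6 a * xU chevG2 g2c_mem 7 b * xU chevG2 g2c_mem 8 c * v) = 1) : a * b = 0 := by
  obtain ⟨w1, hw1, h1⟩ : ∃ w1 ∈ Subgroup.closure (geGen F chevG2 9), (xU chevG2 g2c_mem 6 a)⁻¹ * xU chevG2 g2c_mem 7 b * xU chevG2 g2c_mem 6 a = xU chevG2 g2c_mem 7 b * (xU chevG2 g2c_mem 8 (a * b) * w1) :=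
    ⟨_, g2cV_mem9 _ _ _, g2d_r67 a b⟩
  obtain ⟨w2, hw2, h2⟩ : ∃ w2 ∈ Subgroup.closure (geGen F chevG2 9), (xU chevG2 g2c_mem 7 b)⁻¹ * xU chevG2 g2c_mem 8 c * xU chevG2 g2c_mem 7 b = xU chevG2 g2c_mem 8 c * w2 :=
    ⟨_, g2cV_mem9 _ _ _, g2d_r78 b c⟩
  obtain ⟨w3, hw3, h3⟩ : ∃ w3 ∈ Subgroup.closure (geGen F chevG2 9), (xU chevG2 g2c_mem 7 b)⁻¹ * xU chevG2 g2c_mem 8 (a * b) * xU chevG2 g2c_mem 7 b = xU chevG2 g2c_mem 8 (a * b) * w3 :=
    ⟨_, g2cV_mem9 _ _ _, g2d_r78 b (a * b)⟩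
  have e1 : xU chevG2 g2c_mem 7 b * xU chevG2 g2c_mem 6 a = xU chevG2 g2c_mem 6 a * xU chevG2 g2c_mem 7 b * xU chevG2 g2c_mem 8 (a * b) * w1 := by
    calc xU chevG2 g2c_mem 7 b * xU chevG2 g2c_mem 6 a = xU chevG2 g2c_mem 6 a * ((xU chevG2 g2c_mem 6 a)⁻¹ * xU chevG2 g2c_mem 7 b * xU chevG2 g2c_mem 6 a) := by group
      _ = xU chevG2 g2c_mem 6 a * (xU chevG2 g2c_mem 7 b * (xU chevG2 g2c_mem 8 (a * b) * w1)) := by rw [h1]
      _ = _ := by group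
  have e2 : xU chevG2 g2c_mem 8 c * xU chevG2 g2c_mem 6 a = xU chevG2 g2c_mem 6 a * xU chevG2 g2c_mem 8 c :=
    g2c_comm 6 8 (by norm_num) (by norm_num) (by norm_num) (by norm_num) (by decide +kernel) a c
  have e3 : xU chevG2 g2c_mem 8 c * xU chevG2 g2c_mem 7 b = xU chevG2 g2c_mem 7 b * xU chevG2 g2c_mem 8 c * w2 := by
    calc xU chevG2 g2c_mem 8 c * xU chevG2 g2c_mem 7 b = xU chevG2 g2c_mem 7 b * ((xU chevG2 g2c_mem 7 b)⁻¹ * xU chevG2 g2c_mem 8 c * xU chevG2 g2c_mem 7 b) := by group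
      _ = xU chevG2 g2c_mem 7 b * (xU chevG2 g2c_mem 8 c * w2) := by rw [h2]
      _ = _ := by group
  have e4 : xU chevG2 g2c_mem 8 (a * b) * xU chevG2 g2c_mem 7 b = xU chevG2 g2c_mem 7 b * xU chevG2 g2c_mem 8 (a * b) * w3 := by
    calc xU chevG2 g2c_mem 8 (a * b) * xU chevG2 g2c_mem 7 b = xU chevG2 g2c_mem 7 b * ((xU chevG2 g2c_mem 7 b)⁻¹ * xU chevG2 g2c_mem 8 (a * b) * xU chevG2 g2c_mem 7 b) := by group
      _ = xU chevG2 g2c_mem 7 b * (xU chevG2 g2c_mem 8 (a * b) * w3) := by rw [h3]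
      _ = _ := by group
  have hAL := g2d_AL (xU chevG2 g2c_mem 6 a) (xU chevG2 g2c_mem 7 b) (xU chevG2 g2c_mem 8 c) v (xU chevG2 g2c_mem 8 (a * b)) w1 w2 w3
    (g2d_sq 6 (by norm_num) a) (g2d_sq 7 (by norm_num) b) (g2d_sq 8 (by norm_num) c) e1 e2 e3 e4
  rw [hsq] at hAL
  have n6 := g2d_xn (F := F) 9 6 (by norm_num) (by norm_num) a
  have n7 := g2d_xn (F := F) 9 7 (by norm_num) (by norm_num) b
  have n8 := g2d_xn (F := F) 9 8 (by norm_num) (by norm_num) c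
  have m1 := (g2d_norm_conj _ (xU chevG2 g2c_mem 7 b) w3⁻¹ n7 (inv_mem hw3)).1
  have m2 := (g2d_norm_conj _ (xU chevG2 g2c_mem 7 b) w1 n7 hw1).1
  have m3 := (g2d_norm_conj _ (xU chevG2 g2c_mem 8 c) w2 n8 hw2).1
  have m4 := (g2d_norm_conj _ (xU chevG2 g2c_mem 6 a * xU chevG2 g2c_mem 7 b * xU chevG2 g2c_mem 8 c) v (mul_mem (mul_mem n6 n7) n8) hv).2
  have hz : xU chevG2 g2c_mem 8 (a * b) ∈ Subgroup.closure (geGen F chevG2 9) := by
    have e := eq_inv_of_mul_eq_one_left hAL.symm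
    rw [e]
    exact inv_mem (mul_mem (mul_mem (mul_mem (mul_mem m1 m2) m3) m4) hv)
  exact g2c_x_zero_of_ge 8 (by norm_num) (by norm_num) (a * b) hz

theorem g2d_step2a [CharP F 2] (a c s : F) (hs : a * s + c = 0) (v : GL chevG2.Idx F) (hv : v ∈ Subgroup.closure (geGen F chevG2 9)) :
    ∃ w ∈ Subgroup.closure (geGen F chevG2 9), G2dConj (xU chevG2 g2c_mem 6 a * xU chevG2 g2c_mem 8 c * v) (xU chevG2 g2c_mem 6 a * w) := by
  obtain ⟨w1, hw1, h1⟩ : ∃ w1 ∈ Subgroup.closure (geGen F chevG2 9), (xU chevG2 g2c_mem 6 a)⁻¹ * xU chevG2 g2c_mem 7 s * xU chevG2 g2c_mem 6 a = xU chevG2 g2c_mem 7 s * (xU chevG2 g2c_mem 8 (a * s) * w1) :=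
    ⟨_, g2cV_mem9 _ _ _, g2d_r67 a s⟩
  obtain ⟨w2, hw2, h8⟩ : ∃ w2 ∈ Subgroup.closure (geGen F chevG2 9), (xU chevG2 g2c_mem 7 s)⁻¹ * xU chevG2 g2c_mem 8 c * xU chevG2 g2c_mem 7 s = xU chevG2 g2c_mem 8 c * w2 :=
    ⟨_, g2cV_mem9 _ _ _, g2d_r78 s c⟩
  have h6 : (xU chevG2 g2c_mem 7 s)⁻¹ * xU chevG2 g2c_mem 6 a * xU chevG2 g2c_mem 7 s = xU chevG2 g2c_mem 6 a * (w1⁻¹ * xU chevG2 g2c_mem 8 (a * s)) := by
    rw [g2d_swap 6 7 a s _ h1, mul_inv_rev, g2d_inv 8]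
  have n7 := g2d_xn (F := F) 9 7 (by norm_num) (by norm_num) s
  have hv' := (g2d_norm_conj _ (xU chevG2 g2c_mem 7 s) v n7 hv).2
  refine ⟨w1⁻¹ * w2 * ((xU chevG2 g2c_mem 7 s)⁻¹ * v * xU chevG2 g2c_mem 7 s), mul_mem (mul_mem (inv_mem hw1) hw2) hv',
    g2d_conj_x 7 s _ _ ?_⟩
  calc (xU chevG2 g2c_mem 7 s)⁻¹ * (xU chevG2 g2c_mem 6 a * xU chevG2 g2c_mem 8 c * v) * xU chevG2 g2c_mem 7 s
      = ((xU chevG2 g2c_mem 7 s)⁻¹ * xU chevG2 g2c_mem 6 a * xU chevG2 g2c_mem 7 s) * ((xU chevG2 g2c_mem 7 s)⁻¹ * xU chevG2 g2c_mem 8 c * xU chevG2 g2c_mem 7 s) * ((xU chevG2 g2c_mem 7 s)⁻¹ * v * xU chevG2 g2c_mem 7 s) := by group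
    _ = (xU chevG2 g2c_mem 6 a * (w1⁻¹ * xU chevG2 g2c_mem 8 (a * s))) * (xU chevG2 g2c_mem 8 c * w2) * ((xU chevG2 g2c_mem 7 s)⁻¹ * v * xU chevG2 g2c_mem 7 s) := by rw [h6, h8]
    _ = xU chevG2 g2c_mem 6 a * w1⁻¹ * (xU chevG2 g2c_mem 8 (a * s) * xU chevG2 g2c_mem 8 c) * w2 * ((xU chevG2 g2c_mem 7 s)⁻¹ * v * xU chevG2 g2c_mem 7 s) := by group
    _ = xU chevG2 g2c_mem 6 a * (w1⁻¹ * w2 * ((xU chevG2 g2c_mem 7 s)⁻¹ * v * xU chevG2 g2c_mem 7 s)) := by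
        rw [xU_add chevG2 g2c_mem 8 (g2c_lt (by norm_num)), hs, xU_zero]
        group

theorem g2d_step3a [CharP F 2] (b c s : F) (hs : s * b + c = 0) (v : GL chevG2.Idx F) (hv : v ∈ Subgroup.closure (geGen F chevG2 9)) :
    ∃ w ∈ Subgroup.closure (geGen F chevG2 9), G2dConj (xU chevG2 g2c_mem 7 b * xU chevG2 g2c_mem 8 c * v) (xU chevG2 g2c_mem 7 b * w) := by
  obtain ⟨w1, hw1, h1⟩ : ∃ w1 ∈ Subgroup.closure (geGen F chevG2 9), (xU chevG2 g2c_mem 6 s)⁻¹ * xU chevG2 g2c_mem 7 b * xU chevG2 g2c_mem 6 s = xU chevG2 g2c_mem 7 b * (xU chevG2 g2c_mem 8 (s * b) * w1) :=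
    ⟨_, g2cV_mem9 _ _ _, g2d_r67 s b⟩
  have c68 : (xU chevG2 g2c_mem 6 s)⁻¹ * xU chevG2 g2c_mem 8 c * xU chevG2 g2c_mem 6 s = xU chevG2 g2c_mem 8 c :=
    g2d_cc 6 8 (by norm_num) (by norm_num) (by norm_num) (by norm_num) (by decide +kernel) s c
  have n6 := g2d_xn (F := F) 9 6 (by norm_num) (by norm_num) s
  have n8 := g2d_xn (F := F) 9 8 (by norm_num) (by norm_num) c
  have hv' := (g2d_norm_conj _ (xU chevG2 g2c_mem 6 s) v n6 hv).2
  have hw1' := (g2d_norm_conj _ (xU chevG2 g2c_mem 8 c) w1 n8 hw1).2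
  refine ⟨(xU chevG2 g2c_mem 8 c)⁻¹ * w1 * xU chevG2 g2c_mem 8 c * ((xU chevG2 g2c_mem 6 s)⁻¹ * v * xU chevG2 g2c_mem 6 s), mul_mem hw1' hv',
    g2d_conj_x 6 s _ _ ?_⟩
  calc (xU chevG2 g2c_mem 6 s)⁻¹ * (xU chevG2 g2c_mem 7 b * xU chevG2 g2c_mem 8 c * v) * xU chevG2 g2c_mem 6 s
      = ((xU chevG2 g2c_mem 6 s)⁻¹ * xU chevG2 g2c_mem 7 b * xU chevG2 g2c_mem 6 s) * ((xU chevG2 g2c_mem 6 s)⁻¹ * xU chevG2 g2c_mem 8 c * xU chevG2 g2c_mem 6 s) * ((xU chevG2 g2c_mem 6 s)⁻¹ * v * xU chevG2 g2c_mem 6 s) := by group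
    _ = (xU chevG2 g2c_mem 7 b * (xU chevG2 g2c_mem 8 (s * b) * w1)) * xU chevG2 g2c_mem 8 c * ((xU chevG2 g2c_mem 6 s)⁻¹ * v * xU chevG2 g2c_mem 6 s) := by rw [h1, c68]
    _ = xU chevG2 g2c_mem 7 b * (xU chevG2 g2c_mem 8 (s * b) * xU chevG2 g2c_mem 8 c) * ((xU chevG2 g2c_mem 8 c)⁻¹ * w1 * xU chevG2 g2c_mem 8 c * ((xU chevG2 g2c_mem 6 s)⁻¹ * v * xU chevG2 g2c_mem 6 s)) := by group
    _ = xU chevG2 g2c_mem 7 b * ((xU chevG2 g2c_mem 8 c)⁻¹ * w1 * xU chevG2 g2c_mem 8 c * ((xU chevG2 g2c_mem 6 s)⁻¹ * v * xU chevG2 g2c_mem 6 s)) := by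
        rw [xU_add chevG2 g2c_mem 8 (g2c_lt (by norm_num)), hs, xU_zero, mul_one]

/-- the two classes -/
def G2dCls (u : GL chevG2.Idx F) : Prop := G2dConj u (xU chevG2 g2c_mem 11 1) ∨ G2dConj u (xU chevG2 g2c_mem 9 1)

theorem g2dCls_of_conj {x y : GL chevG2.Idx F} (h : G2dConj x y) (hy : G2dCls y) : G2dCls x := by
  rcases hy with h1 | h1
  · exact Or.inl (g2dConj_trans h h1)
  · exact Or.inr (g2dConj_trans h h1)

theorem g2d_c10 [CharP F 2] (e : F) (he : e ≠ 0) : G2dCls (xU chevG2 g2c_mem 10 e) :=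
  g2dCls_of_conj (g2d_move1 1 (by norm_num) 10 11 (by norm_num) (by decide +kernel) e)
    (Or.inl (g2d_scale11 e he))

theorem g2d_c6single [CharP F 2] (a : F) (ha : a ≠ 0) : G2dCls (xU chevG2 g2c_mem 6 a) :=
  g2dCls_of_conj (g2d_move1 0 (by norm_num) 6 10 (by norm_num) (by decide +kernel) a)
    (g2d_c10 a ha)

theorem g2d_c7single [CharP F 2] (b : F) (hb : b ≠ 0) : G2dCls (xU chevG2 g2c_mem 7 b) :=
  g2dCls_of_conj (g2d_move1 1 (by norm_num) 7 8 (by norm_num) (by decide +kernel) b)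
    (g2dCls_of_conj (g2d_move1 0 (by norm_num) 8 9 (by norm_num) (by decide +kernel) b)
      (Or.inr (g2d_scale9 b hb)))

theorem g2d_cV [CharP F 2] (d e f : F) (h : g2cV d e f ≠ 1) : G2dCls (g2cV d e f) := by
  by_cases hd : d = 0
  · subst hd
    by_cases he : e = 0
    · subst he
      have hf : f ≠ 0 := by
        rintro rfl
        exact h g2cV_zero
      rw [← g2d_V11 f]
      exact Or.inl (g2d_scale11 f hf)
    · have h1 := g2d_V_conj6 (f * e⁻¹) 0 e f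
      have k1 : f * e⁻¹ * e + f = 0 := by
        rw [inv_mul_cancel_right₀ he f]
        exact CharTwo.add_self_eq_zero f
      rw [k1, ← g2d_V10 e] at h1
      exact g2dCls_of_conj (g2d_conj_x 6 _ _ _ h1) (g2d_c10 e he)
  · have h1 := g2d_V_conj7 (e * d⁻¹) d e f
    have k1 : e * d⁻¹ * d + e = 0 := by
      rw [inv_mul_cancel_right₀ hd e]
      exact CharTwo.add_self_eq_zero e
    rw [k1] at h1
    have h2 := g2d_V_conj8 (f * d⁻¹) d 0 f
    have k2 : f * d⁻¹ * d + f = 0 := by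
      rw [inv_mul_cancel_right₀ hd f]
      exact CharTwo.add_self_eq_zero f
    rw [k2, ← g2d_V9 d] at h2
    exact g2dCls_of_conj (g2d_conj_x 7 _ _ _ h1) (g2dCls_of_conj (g2d_conj_x 8 _ _ _ h2)
      (Or.inr (g2d_scale9 d hd)))

theorem g2d_c7 [Finite F] [CharP F 2] (b d e f : F) (hb : b ≠ 0)
    (hsq : (xU chevG2 g2c_mem 7 b * g2cV d e f) * (xU chevG2 g2c_mem 7 b * g2cV d e f) = 1) : G2dCls (xU chevG2 g2c_mem 7 b * g2cV d e f) := by
  have hd : d = 0 := by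
    have e1 : (xU chevG2 g2c_mem 7 b * g2cV d e f) * (xU chevG2 g2c_mem 7 b * g2cV d e f) =
        (xU chevG2 g2c_mem 7 b * xU chevG2 g2c_mem 7 b) * ((xU chevG2 g2c_mem 7 b)⁻¹ * g2cV d e f * xU chevG2 g2c_mem 7 b) * g2cV d e f := by group
    rw [e1, g2d_sq 7 (by norm_num), one_mul, g2d_V_conj7, g2cV_mul] at hsq
    obtain ⟨-, h2, -⟩ := g2cV_eq_one _ _ _ hsq
    have h3 : b * d = 0 := by
      have := CharTwo.add_self_eq_zero e
      linear_combination h2 - this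
    exact (mul_eq_zero.mp h3).resolve_left hb
  subst hd
  obtain ⟨s2, hs2⟩ := FiniteField.isSquare_of_char_two (ringChar.eq F 2) (f * b⁻¹)
  have h1 := g2d_c7_conj9 b (e * b⁻¹) 0 e f
  have k1 : b * (e * b⁻¹) + e = 0 := by
    have : b * (e * b⁻¹) = e := by rw [mul_comm e, mul_inv_cancel_left₀ hb]
    rw [this]
    exact CharTwo.add_self_eq_zero e
  rw [k1] at h1
  have h2 := g2d_c7_conj8 b s2 0 0 f
  have k2 : b * s2 ^ 2 + (s2 * 0 + f) = 0 := by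
    have : b * s2 ^ 2 = f := by
      rw [pow_two, ← hs2, mul_comm f, mul_inv_cancel_left₀ hb]
    rw [this, mul_zero, zero_add]
    exact CharTwo.add_self_eq_zero f
  rw [k2, add_zero] at h2
  have h3 := g2d_c7_conj9 b (b * s2) 0 (b ^ 2 * s2) 0
  have k3 : b * (b * s2) + b ^ 2 * s2 = 0 := by
    have : b * (b * s2) = b ^ 2 * s2 := by ring
    rw [this]
    exact CharTwo.add_self_eq_zero _
  rw [k3, g2cV_zero, mul_one] at h3
  exact g2dCls_of_conj (g2d_conj_x 9 _ _ _ h1) (g2dCls_of_conj (g2d_conj_x 8 _ _ _ h2)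
    (g2dCls_of_conj (g2d_conj_x 9 _ _ _ h3) (g2d_c7single b hb)))

theorem g2d_c8 [Finite F] [CharP F 2] (c d e f : F) (hc0 : c ≠ 0)
    (hsq : (xU chevG2 g2c_mem 8 c * g2cV d e f) * (xU chevG2 g2c_mem 8 c * g2cV d e f) = 1) : G2dCls (xU chevG2 g2c_mem 8 c * g2cV d e f) := by
  obtain ⟨n, hn, hc⟩ := g2d_n (F := F) 1 (by norm_num)
  have h : n * (xU chevG2 g2c_mem 8 c * g2cV d e f) * n⁻¹ = xU chevG2 g2c_mem 7 c * g2cV d f e := by
    have e1 : g2cV d f e = xU chevG2 g2c_mem 9 d * xU chevG2 g2c_mem 11 e * xU chevG2 g2c_mem 10 f := by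
      unfold g2cV
      rw [mul_assoc, mul_assoc, g2c_c1011 f e]
    rw [e1]
    unfold g2cV
    calc n * (xU chevG2 g2c_mem 8 c * (xU chevG2 g2c_mem 9 d * xU chevG2 g2c_mem 10 e * xU chevG2 g2c_mem 11 f)) * n⁻¹
        = (n * xU chevG2 g2c_mem 8 c * n⁻¹) * ((n * xU chevG2 g2c_mem 9 d * n⁻¹) * (n * xU chevG2 g2c_mem 10 e * n⁻¹) * (n * xU chevG2 g2c_mem 11 f * n⁻¹)) := by
          group
      _ = xU chevG2 g2c_mem 7 c * (xU chevG2 g2c_mem 9 d * xU chevG2 g2c_mem 11 e * xU chevG2 g2c_mem 10 f) := by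
          rw [hc 8 (by norm_num), hc 9 (by norm_num), hc 10 (by norm_num), hc 11 (by norm_num),
            (by decide +kernel : chevG2.reflectRoot 1 8 = 7),
            (by decide +kernel : chevG2.reflectRoot 1 9 = 9),
            (by decide +kernel : chevG2.reflectRoot 1 10 = 11),
            (by decide +kernel : chevG2.reflectRoot 1 11 = 10)]
  have c1 : G2dConj (xU chevG2 g2c_mem 8 c * g2cV d e f) (xU chevG2 g2c_mem 7 c * g2cV d f e) := ⟨n, hn, h⟩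
  exact g2dCls_of_conj c1 (g2d_c7 c d f e hc0 (g2dConj_sq c1 hsq))

theorem g2d_c6 [Finite F] [CharP F 2] (a d e f : F) (ha : a ≠ 0)
    (hsq : (xU chevG2 g2c_mem 6 a * g2cV d e f) * (xU chevG2 g2c_mem 6 a * g2cV d e f) = 1) : G2dCls (xU chevG2 g2c_mem 6 a * g2cV d e f) := by
  have he : e = 0 := by
    have e1 : (xU chevG2 g2c_mem 6 a * g2cV d e f) * (xU chevG2 g2c_mem 6 a * g2cV d e f) =
        (xU chevG2 g2c_mem 6 a * xU chevG2 g2c_mem 6 a) * ((xU chevG2 g2c_mem 6 a)⁻¹ * g2cV d e f * xU chevG2 g2c_mem 6 a) * g2cV d e f := by group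
    rw [e1, g2d_sq 6 (by norm_num), one_mul, g2d_V_conj6, g2cV_mul] at hsq
    obtain ⟨-, -, h3⟩ := g2cV_eq_one _ _ _ hsq
    have h4 : a * e = 0 := by
      have := CharTwo.add_self_eq_zero f
      linear_combination h3 - this
    exact (mul_eq_zero.mp h4).resolve_left ha
  subst he
  have h1 := g2d_c6_conj10 a (f * a⁻¹) d 0 f
  have k1 : a * (f * a⁻¹) + f = 0 := by
    have : a * (f * a⁻¹) = f := by rw [mul_comm f, mul_inv_cancel_left₀ ha]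
    rw [this]
    exact CharTwo.add_self_eq_zero f
  rw [k1] at h1
  have c1 : G2dConj (xU chevG2 g2c_mem 6 a * g2cV d 0 f) (xU chevG2 g2c_mem 6 a * g2cV d 0 0) := g2d_conj_x 10 _ _ _ h1
  by_cases hd : d = 0
  · subst hd
    rw [g2cV_zero, mul_one] at c1
    exact g2dCls_of_conj c1 (g2d_c6single a ha)
  · obtain ⟨n, hn, hc⟩ := g2d_n (F := F) 0 (by norm_num)
    have h2 : n * (xU chevG2 g2c_mem 6 a * g2cV d 0 0) * n⁻¹ = xU chevG2 g2c_mem 8 d * g2cV 0 a 0 := by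
      rw [← g2d_V9 d, ← g2d_V10 a]
      calc n * (xU chevG2 g2c_mem 6 a * xU chevG2 g2c_mem 9 d) * n⁻¹ = (n * xU chevG2 g2c_mem 6 a * n⁻¹) * (n * xU chevG2 g2c_mem 9 d * n⁻¹) := by group
        _ = xU chevG2 g2c_mem 10 a * xU chevG2 g2c_mem 8 d := by
            rw [hc 6 (by norm_num), hc 9 (by norm_num),
              (by decide +kernel : chevG2.reflectRoot 0 6 = 10),
              (by decide +kernel : chevG2.reflectRoot 0 9 = 8)]
        _ = xU chevG2 g2c_mem 8 d * xU chevG2 g2c_mem 10 a :=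
            g2c_comm 8 10 (by norm_num) (by norm_num) (by norm_num) (by norm_num)
              (by decide +kernel) d a
    have c2 : G2dConj (xU chevG2 g2c_mem 6 a * g2cV d 0 0) (xU chevG2 g2c_mem 8 d * g2cV 0 a 0) := ⟨n, hn, h2⟩
    have c3 := g2dConj_trans c1 c2
    exact g2dCls_of_conj c3 (g2d_c8 d 0 a 0 hd (g2dConj_sq c3 hsq))

theorem g2d_nf (u : GL chevG2.Idx F) (hu : u ∈ chevG2.posUnipotent F) :
    ∃ a b c d e f : F, u = xU chevG2 g2c_mem 6 a * xU chevG2 g2c_mem 7 b * xU chevG2 g2c_mem 8 c * g2cV d e f := by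
  obtain ⟨hnx, hcert, htri, hup, hcomm⟩ := certs_of_mem F chevG2 g2c_mem
  have hu0 : u ∈ Subgroup.closure (geGen F chevG2 (chevG2.nroots - 6)) := by
    have hle : chevG2.posUnipotent F ≤
        Subgroup.closure (geGen F chevG2 (chevG2.nroots - 6)) := by
      unfold ChevalleyDatum.posUnipotent
      apply Subgroup.closure_mono
      rintro x ⟨r, t, hr, hx⟩
      refine ⟨r, t, hr, ?_, hx⟩
      rw [g2c_nroots]
      exact (g2c_pos_ge hr).1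
    exact hle hu
  obtain ⟨τ, rfl⟩ := exists_ordW chevG2 g2c_mem (rootLen chevG2) wtcert_G2 htri hcomm 6
    (by rw [g2c_nroots]; norm_num) u hu0
  have hsfx : sfx chevG2 6 = [6, 7, 8, 9, 10, 11] := by decide +kernel
  refine ⟨τ 6, τ 7, τ 8, τ 9, τ 10, τ 11, ?_⟩
  rw [hsfx]
  simp only [ordW_cons]
  have e0 : ordW chevG2 g2c_mem τ [] = 1 := rfl
  rw [e0]
  unfold g2cV
  group

theorem g2d_cls_U [Finite F] [CharP F 2] (u : GL chevG2.Idx F) (hu : u ∈ chevG2.posUnipotent F)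
    (hsq : u * u = 1) (hne : u ≠ 1) : G2dCls u := by
  obtain ⟨a, b, c, d, e, f, rfl⟩ := g2d_nf u hu
  by_cases ha : a = 0
  · subst ha
    by_cases hb : b = 0
    · subst hb
      by_cases hc : c = 0
      · subst hc
        have e0 : xU chevG2 g2c_mem 6 (0 : F) * xU chevG2 g2c_mem 7 0 * xU chevG2 g2c_mem 8 0 * g2cV d e f = g2cV d e f := by
          rw [xU_zero, xU_zero, xU_zero, one_mul, one_mul, one_mul]
        rw [e0] at hne ⊢
        exact g2d_cV d e f hne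
      · have e0 : xU chevG2 g2c_mem 6 (0 : F) * xU chevG2 g2c_mem 7 0 * xU chevG2 g2c_mem 8 c * g2cV d e f = xU chevG2 g2c_mem 8 c * g2cV d e f := by
          rw [xU_zero, xU_zero, one_mul, one_mul]
        rw [e0] at hsq ⊢
        exact g2d_c8 c d e f hc hsq
    · have e0 : xU chevG2 g2c_mem 6 (0 : F) * xU chevG2 g2c_mem 7 b * xU chevG2 g2c_mem 8 c * g2cV d e f = xU chevG2 g2c_mem 7 b * xU chevG2 g2c_mem 8 c * g2cV d e f := by
        rw [xU_zero, one_mul]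
      rw [e0] at hsq ⊢
      have hs : c * b⁻¹ * b + c = 0 := by
        rw [inv_mul_cancel_right₀ hb c]
        exact CharTwo.add_self_eq_zero c
      obtain ⟨w, hw, hconj⟩ := g2d_step3a b c (c * b⁻¹) hs (g2cV d e f) (g2cV_mem9 d e f)
      obtain ⟨d', e', f', rfl⟩ := g2c_V9_form w hw
      exact g2dCls_of_conj hconj (g2d_c7 b d' e' f' hb (g2dConj_sq hconj hsq))
  · have hab := g2d_step1 a b c (g2cV d e f) (g2cV_mem9 d e f) hsq
    have hb : b = 0 := (mul_eq_zero.mp hab).resolve_left ha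
    subst hb
    have e0 : xU chevG2 g2c_mem 6 a * xU chevG2 g2c_mem 7 (0 : F) * xU chevG2 g2c_mem 8 c * g2cV d e f = xU chevG2 g2c_mem 6 a * xU chevG2 g2c_mem 8 c * g2cV d e f := by
      rw [xU_zero, mul_one]
    rw [e0] at hsq ⊢
    have hs : a * (c * a⁻¹) + c = 0 := by
      have : a * (c * a⁻¹) = c := by rw [mul_comm c, mul_inv_cancel_left₀ ha]
      rw [this]
      exact CharTwo.add_self_eq_zero c
    obtain ⟨w, hw, hconj⟩ := g2d_step2a a c (c * a⁻¹) hs (g2cV d e f) (g2cV_mem9 d e f)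
    obtain ⟨d', e', f', rfl⟩ := g2c_V9_form w hw
    exact g2dCls_of_conj hconj (g2d_c6 a d' e' f' ha (g2dConj_sq hconj hsq))

end Cfsg.Agent.Lib.helper11
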