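import Cfsg.Agent.Lib.helper11d.G2d2

/-! Involutions of `G₂(F)` in characteristic two: the two classes. -/

set_option autoImplicit false

namespace Cfsg.Agent.Lib.helper11

open Cfsg Cfsg.Lie Cfsg.Agent.Lib.helper2
open scoped Pointwise

variable {F : Type*} [Field F]

theorem g2d_sylow_conj {G : Type*} [Group G] {p : ℕ} (P : Sylow p G) (y x : G) :
    y * x * y⁻¹ ∈ ((y • P : Sylow p G) : Subgroup G) ↔ x ∈ (P : Subgroup G) := by
  rw [Sylow.coe_subgroup_smul]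
  have : y * x * y⁻¹ = MulAut.conj y • x := rfl
  rw [this, Subgroup.smul_mem_pointwise_smul_iff]

theorem g2d_sylow [Finite F] [CharP F 2] (g : GL chevG2.Idx F) (hg : g ∈ chevG2.group F)
    (hsq : g * g = 1) : ∃ u ∈ chevG2.posUnipotent F, G2dConj g u := by
  classical
  haveI : Fact (Nat.Prime 2) := ⟨Nat.prime_two⟩
  obtain ⟨P, hP⟩ := pos_sylow (F := F) 2 chevG2 g2c_mem
  have memP : ∀ x : ↥(chevG2.group F), x ∈ (P : Subgroup ↥(chevG2.group F)) ↔
      (x : GL chevG2.Idx F) ∈ chevG2.posUnipotent F := by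
    intro x
    rw [hP, Subgroup.mem_subgroupOf]
  have hg2 : (⟨g, hg⟩ : ↥(chevG2.group F)) ^ 2 = 1 := by
    apply Subtype.ext
    rw [pow_two]
    exact hsq
  have hZ : IsPGroup 2 (Subgroup.zpowers (⟨g, hg⟩ : ↥(chevG2.group F))) := by
    rintro ⟨y, hy⟩
    obtain ⟨k, rfl⟩ := Subgroup.mem_zpowers_iff.mp hy
    refine ⟨1, Subtype.ext ?_⟩
    show ((⟨g, hg⟩ : ↥(chevG2.group F)) ^ k) ^ 2 ^ 1 = 1
    rw [pow_one, ← zpow_natCast, ← zpow_mul, mul_comm, zpow_mul, zpow_natCast, hg2, one_zpow]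
  obtain ⟨Q, hQ⟩ := hZ.exists_le_sylow
  obtain ⟨k, hk⟩ := MulAction.exists_smul_eq ↥(chevG2.group F) Q P
  have hgQ : (⟨g, hg⟩ : ↥(chevG2.group F)) ∈ (Q : Subgroup ↥(chevG2.group F)) :=
    hQ (Subgroup.mem_zpowers _)
  have h1 : k * (⟨g, hg⟩ : ↥(chevG2.group F)) * k⁻¹ ∈
      ((k • Q : Sylow 2 ↥(chevG2.group F)) : Subgroup ↥(chevG2.group F)) :=
    (g2d_sylow_conj Q k _).mpr hgQ
  rw [hk, memP] at h1
  exact ⟨_, h1, (k : GL chevG2.Idx F), k.2, rfl⟩

theorem g2d_class [Finite F] [CharP F 2] (g : GL chevG2.Idx F) (hg : g ∈ chevG2.group F)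
    (hsq : g * g = 1) (hne : g ≠ 1) : G2dCls g := by
  obtain ⟨u, hu, hconj⟩ := g2d_sylow g hg hsq
  have hu1 : u ≠ 1 := by
    rintro rfl
    obtain ⟨k, hk, hk1⟩ := hconj
    apply hne
    calc g = k⁻¹ * (k * g * k⁻¹) * k := by group
      _ = 1 := by
          rw [hk1]
          group
  exact g2dCls_of_conj hconj (g2d_cls_U u hu (g2dConj_sq hconj hsq) hu1)

theorem g2d_ge_le_pos (k : ℕ) :
    Subgroup.closure (geGen F chevG2 k) ≤ chevG2.posUnipotent F := by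
  rw [Subgroup.closure_le]
  rintro g ⟨s, u, hs, -, hg⟩
  rw [eq_xU chevG2 g2c_mem s u g hg]
  exact xU_mem_pos chevG2 g2c_mem s hs u

/-- a long root element is not conjugate to a short root element -/
theorem g2d_nonconj (k : GL chevG2.Idx F) (hk : k ∈ chevG2.group F)
    (h : k * xU chevG2 g2c_mem 11 1 * k⁻¹ = xU chevG2 g2c_mem 9 1) : False := by
  obtain ⟨hnx, hcert, htri, hup, hcm'⟩ := certs_of_mem F chevG2 g2c_mem
  obtain ⟨b, hb, n, hn, v, hv, rfl⟩ :=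
    bruhat_exists chevG2 g2c_mem hnx hcert htri hup hcm' k hk
  have hvU := SnSet_le_pos chevG2 g2c_mem n hv
  have cv : Commute v (xU chevG2 g2c_mem 11 (1 : F)) :=
    cen_pos_comm chevG2 g2c_mem Nat.cast_zero cenCert_G2l (1 : F) v hvU
  have hny : n * xU chevG2 g2c_mem 11 1 * n⁻¹ = b⁻¹ * xU chevG2 g2c_mem 9 1 * b := by
    rw [← h]
    have h1 := cv.eq
    calc n * xU chevG2 g2c_mem 11 1 * n⁻¹ = n * (xU chevG2 g2c_mem 11 1 * v) * v⁻¹ * n⁻¹ := by group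
      _ = n * (v * xU chevG2 g2c_mem 11 1) * v⁻¹ * n⁻¹ := by rw [h1]
      _ = b⁻¹ * (b * n * v * xU chevG2 g2c_mem 11 1 * (b * n * v)⁻¹) * b := by group
  obtain ⟨l, hl, hact⟩ := g2cAct_of_mem n hn
  obtain ⟨c, hc0, hc⟩ := hact 11 (by norm_num)
  rw [hc, mul_one] at hny
  have hT9 : xU chevG2 g2c_mem 9 (1 : F) ∈ Subgroup.closure (geGen F chevG2 9) := g2c_mem_ge 9 9 (by norm_num) (by norm_num) (le_refl _) 1
  have hy2 : b⁻¹ * xU chevG2 g2c_mem 9 1 * b ∈ Subgroup.closure (geGen F chevG2 9) := by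
    have := (Subgroup.mem_normalizer_iff.mp (g2c_B_norm 9 (inv_mem hb)) _).mp hT9
    rwa [inv_inv] at this
  have hy3 : b⁻¹ * xU chevG2 g2c_mem 9 1 * b ∉ Subgroup.closure (geGen F chevG2 10) := by
    intro h10
    have h10' : xU chevG2 g2c_mem 9 (1 : F) ∈ Subgroup.closure (geGen F chevG2 10) := by
      have := (Subgroup.mem_normalizer_iff.mp (g2c_B_norm 10 hb) _).mp h10
      have e : b * (b⁻¹ * xU chevG2 g2c_mem 9 1 * b) * b⁻¹ = xU chevG2 g2c_mem 9 1 := by group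
      rwa [e] at this
    exact one_ne_zero (g2c_x_zero_of_ge 9 (by norm_num) (by norm_num) (1 : F) h10')
  rw [← hny] at hy2 hy3
  have hlen := (g2cW_len l hl).2.2
  have hposU := g2d_ge_le_pos (F := F) 9 hy2
  have hcases : l.getD 11 0 = 6 ∨ l.getD 11 0 = 10 ∨ l.getD 11 0 = 11 ∨ l.getD 11 0 = 5 ∨
      l.getD 11 0 = 1 ∨ l.getD 11 0 = 0 := by
    simpa using hlen
  have hnegc : ∀ s, s < 6 → l.getD 11 0 = s → False := by
    intro s hs6 hs
    rw [hs] at hposU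
    exact hc0 (xU_pos_neg chevG2 g2c_mem hnx hcert htri s (g2c_lt (by omega)) c hposU
      (xU_mem_neg chevG2 g2c_mem s (g2c_neg hs6) c))
  rcases hcases with h6 | h10 | h11 | h5 | h1 | h0
  · rw [h6] at hy2
    exact hc0 (g2c_x_zero_of_ge 6 (by norm_num) (by norm_num) c
      (g2c_ge_mono 7 9 (by norm_num) hy2))
  · rw [h10] at hy3
    exact hy3 (g2c_mem_ge 10 10 (by norm_num) (by norm_num) (le_refl _) c)
  · rw [h11] at hy3
    exact hy3 (g2c_mem_ge 10 11 (by norm_num) (by norm_num) (by norm_num) c)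
  · exact hnegc 5 (by norm_num) h5
  · exact hnegc 1 (by norm_num) h1
  · exact hnegc 0 (by norm_num) h0

end Cfsg.Agent.Lib.helper11
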