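import Cfsg.Agent.Lib.helper11d.CenOK
import Cfsg.Agent.Lib.helper11c.Syl1

/-! Pairs of conjugate highest root subgroups in characteristic two. -/

set_option autoImplicit false

namespace Cfsg.Agent.Lib.helper11

open Cfsg Cfsg.Lie
open scoped Pointwise

/-- certificate row: a word of fundamental reflections making `r` and `s` positive -/
def pairRow (D : ChevalleyDatum) (r : ℕ) (cert : List (List ℕ)) (s : ℕ) : Bool :=
  Nat.beq s (D.neg r) ||
    ((cert.getD s []).all (fun i => decide (i < D.rank)) &&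
      (decide (D.IsPosRoot (wAct D (cert.getD s []) r)) &&
        decide (D.IsPosRoot (wAct D (cert.getD s []) s))))

variable {F : Type*} [Field F]

theorem pair_map_conj_mul {G : Type*} [Group G] (K : Subgroup G) (a b : G) :
    K.map (MulAut.conj (a * b)).toMonoidHom =
      (K.map (MulAut.conj b).toMonoidHom).map (MulAut.conj a).toMonoidHom := by
  rw [Subgroup.map_map]
  congr 1
  ext y
  simp [MulAut.conj_apply, mul_assoc]

/-- conjugation by `n` maps a root subgroup onto a root subgroup -/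
theorem pair_map_root (D : ChevalleyDatum)
    (hD : D ∈ [chevG2, chevB2, chevD4, chevF4, chevE6, chevE7, chevE8])
    (n : GL D.Idx F) (r s : ℕ) (hr : r < D.nroots) (c : F) (hc : c ≠ 0)
    (h : ∀ t, n * xU D hD r t * n⁻¹ = xU D hD s (c * t)) :
    (D.rootSubgroup F r).map (MulAut.conj n).toMonoidHom = D.rootSubgroup F s := by
  apply le_antisymm
  · rintro _ ⟨x, hx, rfl⟩
    obtain ⟨t, rfl⟩ := mem_rootSubgroup D hD r hr x hx
    show MulAut.conj n (xU D hD r t) ∈ _
    rw [MulAut.conj_apply, h t]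
    exact xU_mem_rootSubgroup D hD s _
  · rw [show D.rootSubgroup F s = Subgroup.closure {g : GL D.Idx F | ∃ t : F,
      (g : Matrix D.Idx D.Idx F) = D.x F s t} from rfl, Subgroup.closure_le]
    rintro x ⟨t, hx⟩
    rw [eq_xU D hD s t x hx]
    refine ⟨xU D hD r (c⁻¹ * t), xU_mem_rootSubgroup D hD r _, ?_⟩
    show MulAut.conj n (xU D hD r (c⁻¹ * t)) = _
    rw [MulAut.conj_apply, h, ← mul_assoc, mul_inv_cancel₀ hc, one_mul]

theorem pair_main [Fintype F] [CharP F 2] (D : ChevalleyDatum)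
    (hD : D ∈ [chevG2, chevB2, chevD4, chevF4, chevE6, chevE7, chevE8])
    {r m : ℕ} {J : List ℕ} {i₀ q : ℕ} {C : ℤ} (hm : (m : F) = 0)
    (cc : CenCert D r m J i₀ q C) (cert : List (List ℕ))
    (hcert : ∀ s < D.nroots, pairRow D r cert s = true)
    (g : GL D.Idx F) (hg : g ∈ D.group F) :
    IsPGroup 2 ↥(D.rootSubgroup F r ⊔
        (D.rootSubgroup F r).map (MulAut.conj g).toMonoidHom) ∨
      ∃ h ∈ D.group F, (D.rootSubgroup F r ⊔
        (D.rootSubgroup F r).map (MulAut.conj g).toMonoidHom).map (MulAut.conj h).toMonoidHom =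
          D.rootSubgroup F r ⊔ D.rootSubgroup F (D.neg r) := by
  obtain ⟨hnx, hcertH, htri, hup, hcm'⟩ := certs_of_mem F D hD
  obtain ⟨hBG, hNG, -⟩ := Cfsg.Agent.S1043.main0 (F := F) D hD hnx hcertH
  have hUB : D.posUnipotent F ≤ D.borelSubgroup F := le_sup_left
  have hr := cc.hpos.1
  have hXu : ∀ u ∈ D.posUnipotent F,
      (D.rootSubgroup F r).map (MulAut.conj u).toMonoidHom = D.rootSubgroup F r := by
    intro u hu
    exact pair_map_root D hD u r r hr 1 one_ne_zero (fun t => by
      rw [one_mul, (cen_pos_comm D hD hm cc t u hu).eq, mul_assoc, mul_inv_cancel, mul_one])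
  have hXh : ∀ h ∈ D.diagonalSubgroup F,
      (D.rootSubgroup F r).map (MulAut.conj h).toMonoidHom = D.rootSubgroup F r := by
    intro h hh
    obtain ⟨χ, -, hχ⟩ := diag_conj_x D hD hnx hcertH h hh
    exact pair_map_root D hD h r r hr (χ r) (χ r).ne_zero (fun t => hχ r hr t)
  have hXb : ∀ b ∈ D.borelSubgroup F,
      (D.rootSubgroup F r).map (MulAut.conj b).toMonoidHom = D.rootSubgroup F r := by
    intro b hb
    have h4 : (↑(D.posUnipotent F ⊔ D.diagonalSubgroup F) : Set (GL D.Idx F)) =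
        (↑(D.posUnipotent F) : Set (GL D.Idx F)) * (↑(D.diagonalSubgroup F) : Set (GL D.Idx F)) :=
      Subgroup.coe_mul_of_right_le_normalizer_left _ _ (diag_le_normalizer_pos D hD hnx hcertH)
    have hb' : b ∈ (↑(D.posUnipotent F ⊔ D.diagonalSubgroup F) : Set (GL D.Idx F)) := hb
    rw [h4] at hb'
    obtain ⟨u, hu, h, hh, e⟩ := hb'
    have hu : u ∈ D.posUnipotent F := hu
    have hh : h ∈ D.diagonalSubgroup F := hh
    have e : u * h = b := e
    rw [← e, pair_map_conj_mul, hXh h hh, hXu u hu]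
  obtain ⟨b, hb, n, hn, v, hv, rfl⟩ := bruhat_exists D hD hnx hcertH htri hup hcm' g hg
  have hvU := SnSet_le_pos D hD n hv
  obtain ⟨π, hπ1, hπ2, hπ3⟩ := rootAct_of_mem D hD hnx hcertH n hn
  obtain ⟨c₁, hc₁, hconj⟩ := hπ3 r hr
  have e1 : (D.rootSubgroup F r).map (MulAut.conj (b * n * v)).toMonoidHom =
      (D.rootSubgroup F (π r)).map (MulAut.conj b).toMonoidHom := by
    rw [pair_map_conj_mul, hXu v hvU, pair_map_conj_mul,
      pair_map_root D hD n r (π r) hr c₁ hc₁ hconj]
  have e2 : D.rootSubgroup F r ⊔ (D.rootSubgroup F r).map (MulAut.conj (b * n * v)).toMonoidHom =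
      (D.rootSubgroup F r ⊔ D.rootSubgroup F (π r)).map (MulAut.conj b).toMonoidHom := by
    rw [Subgroup.map_sup, hXb b hb, e1]
  rw [e2]
  by_cases hs : π r = D.neg r
  · right
    refine ⟨b⁻¹, hBG (inv_mem hb), ?_⟩
    rw [← pair_map_conj_mul, inv_mul_cancel, hs]
    have e3 : (MulAut.conj (1 : GL D.Idx F)).toMonoidHom = MonoidHom.id _ := by
      ext y
      simp
    rw [e3, Subgroup.map_id]
  · left
    have hrow := hcert (π r) (hπ1 r hr)
    unfold pairRow at hrow
    simp only [Bool.or_eq_true, nbeq_iff, Bool.and_eq_true, List.all_eq_true,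
      decide_eq_true_eq] at hrow
    rcases hrow with h0 | ⟨hl, hp1, hp2⟩
    · exact absurd h0 hs
    · obtain ⟨ε₁, -, hc1⟩ := nWordU_conj_x (F := F) D hD hnx (cert.getD (π r) []) hl r hr
      obtain ⟨ε₂, -, hc2⟩ := nWordU_conj_x (F := F) D hD hnx (cert.getD (π r) []) hl (π r)
        (hπ1 r hr)
      have h1 : D.rootSubgroup F r ⊔ D.rootSubgroup F (π r) ≤ (D.posUnipotent F).map
          (MulAut.conj (nWordU (F := F) D hD (cert.getD (π r) []))⁻¹).toMonoidHom := by
        apply sup_le
        · intro x hx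
          obtain ⟨t, rfl⟩ := mem_rootSubgroup D hD r hr x hx
          refine ⟨nWordU D hD (cert.getD (π r) []) * xU D hD r t *
            (nWordU D hD (cert.getD (π r) []))⁻¹, ?_, ?_⟩
          · rw [hc1 t]
            exact xU_mem_pos D hD _ hp1 _
          · show MulAut.conj _ _ = _
            rw [MulAut.conj_apply]
            group
        · intro x hx
          obtain ⟨t, rfl⟩ := mem_rootSubgroup D hD (π r) (hπ1 r hr) x hx
          refine ⟨nWordU D hD (cert.getD (π r) []) * xU D hD (π r) t *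
            (nWordU D hD (cert.getD (π r) []))⁻¹, ?_, ?_⟩
          · rw [hc2 t]
            exact xU_mem_pos D hD _ hp2 _
          · show MulAut.conj _ _ = _
            rw [MulAut.conj_apply]
            group
      have hU2 : ∀ u ∈ D.posUnipotent F, ∃ k : ℕ, u ^ 2 ^ k = 1 := by
        obtain ⟨P, hP⟩ := pos_sylow (F := F) 2 D hD
        intro u hu
        have hmem : (⟨u, hBG (hUB hu)⟩ : ↥(D.group F)) ∈ (P : Subgroup ↥(D.group F)) := by
          rw [hP, Subgroup.mem_subgroupOf]
          exact hu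
        obtain ⟨k, hk⟩ := P.isPGroup' ⟨_, hmem⟩
        refine ⟨k, ?_⟩
        have h5 := congrArg (fun x : ↥(P : Subgroup ↥(D.group F)) =>
          ((x : ↥(D.group F)) : GL D.Idx F)) hk
        simpa using h5
      rintro ⟨y, hy⟩
      obtain ⟨x, hx, rfl⟩ := hy
      obtain ⟨u, hu, rfl⟩ := h1 hx
      obtain ⟨k, hk⟩ := hU2 u hu
      refine ⟨k, ?_⟩
      apply Subtype.ext
      rw [Subgroup.coe_pow, ← map_pow, ← map_pow, hk, map_one, map_one]
      rfl

end Cfsg.Agent.Lib.helper11
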